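import Cfsg.Agent.H23.SymP

/-!
# The fusion systems of alternating groups
-/

set_option autoImplicit false

namespace Cfsg.Agent.H23

open Cfsg Subgroup
open Equiv Equiv.Perm
open Sum (inl inr)

variable {p : ℕ} {I J R : Type*} [Fact p.Prime] [Fintype I] [DecidableEq I] [Fintype R] [DecidableEq R] [Fintype J] [DecidableEq J]

local notation "Alt" => alternatingGroup (WP p I R)

theorem pinv_app {α : Type*} (g : Perm α) (x : α) : g⁻¹ (g x) = x := g.symm_apply_apply x

theorem papp_inv {α : Type*} (g : Perm α) (x : α) : g (g⁻¹ x) = x := g.apply_symm_apply x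

theorem nm_inf_alt {Q : Subgroup (Perm (WP p I R))} {g : Perm (WP p I R)} (h : g ∈ normalizer (Q : Set (Perm (WP p I R)))) :
    g ∈ normalizer ((Q ⊓ Alt : Subgroup (Perm (WP p I R))) : Set (Perm (WP p I R))) :=
  mem_normalizer_fintype fun _ hx => ⟨conj_mem_of_mem_normalizer h hx.1, Normal.conj_mem inferInstance _ hx.2 g⟩

theorem io_nm (σ : Perm I) : io p R σ ∈ normalizer (WS p R (⊥ : Subgroup (Perm I)) : Set (Perm (WP p I R))) :=
  mem_normalizer_fintype fun x hx => by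
    obtain ⟨b, rfl⟩ := mem_WS_bot.1 hx
    rw [io_tr]; exact tr_mem_WS _ _

theorem dg_nm (a : I → (ZMod p)ˣ) : dg R a ∈ normalizer (WS p R (⊥ : Subgroup (Perm I)) : Set (Perm (WP p I R))) :=
  mem_normalizer_fintype fun x hx => by
    obtain ⟨b, rfl⟩ := mem_WS_bot.1 hx
    rw [dg_tr]; exact tr_mem_WS _ _

theorem tr_nm (b : I → ZMod p) : tr b ∈ normalizer (WS p R (⊥ : Subgroup (Perm I)) : Set (Perm (WP p I R))) :=
  le_normalizer (tr_mem_WS _ _)

theorem eq_tr_of_cent [Subsingleton R] (h3 : 3 ≤ Fintype.card I) {x : Perm (WP p I R)}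
    (h : ∀ y ∈ WS p R ⊥ ⊓ Alt, y * x = x * y) : x ∈ WS p R ⊥ := by
  obtain ⟨b, hb⟩ := cent_E1 h3 h
  exact mem_WS_bot.2 ⟨b, perm_ext_inl fun ⟨i, y⟩ => hb i y⟩

theorem exists_aff (h3 : 3 ≤ Fintype.card I) [Subsingleton R] {P : Subgroup (Perm I)} {g : Perm (WP p I R)}
    (hg : g ∈ normalizer ((WS p R P ⊓ Alt : Subgroup (Perm (WP p I R))) : Set (Perm (WP p I R)))) :
    ∃ b σ a, g = tr b * io p R σ * dg R a := by
  have d : ∀ (i j : I) (y : ZMod p), tr (Pi.single i y - Pi.single j y) ∈ WS p R P ⊓ Alt := fun i j y =>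
    ⟨tr_mem_WS _ _, tr_diff_mem_alt i j y⟩
  have A : ∀ {g : Perm (WP p I R)}, g ∈ normalizer ((WS p R P ⊓ Alt : Subgroup (Perm (WP p I R))) : Set (Perm (WP p I R))) →
      (∀ i y, ∃ z, g (inl (i, y)) = inl z) ∧ ∀ i y y' j z j' z', g (inl (i, y)) = inl (j, z) → g (inl (i, y')) = inl (j', z') → j = j' := by
    intro g hg
    refine ⟨fun i y => ?_, fun i y y' j z j' z' e e' => ?_⟩
    · obtain ⟨j, hj, -⟩ := exists_third h3 i i
      obtain ⟨⟨b, σ, -, e⟩, -⟩ := conj_mem_of_mem_normalizer hg (d i j 1)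
      rcases h : g (inl (i, y)) with z | r
      · exact ⟨z, rfl⟩
      have := congrArg (fun x : Perm (WP p I R) => x (inr r)) e
      simp only [mul_apply, io_inr, tr_inr] at this
      rw [← h, pinv_app, g.apply_eq_iff_eq] at this
      simp [hj.symm] at this
    · by_contra h
      obtain ⟨l, hl, hl'⟩ := exists_third h3 j j'
      obtain ⟨⟨b, σ, -, f⟩, -⟩ := conj_mem_of_mem_normalizer (inv_mem hg) (d j' l 1)
      have f1 := congrArg (fun x : Perm (WP p I R) => g (x (inl (i, y)))) f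
      have f2 := congrArg (fun x : Perm (WP p I R) => g (x (inl (i, y')))) f
      simp only [mul_apply, inv_inv, papp_inv, e, e', tr_inl, io_inl, Pi.sub_apply, Pi.single_eq_of_ne h,
        Pi.single_eq_of_ne hl.symm, Pi.single_eq_of_ne hl'.symm, Pi.single_eq_same, sub_zero, add_zero] at f1 f2
      rw [← e, g.apply_eq_iff_eq] at f1
      simp only [Sum.inl.injEq, Prod.mk.injEq, left_eq_add] at f1
      rw [f1.2, ← f1.1, add_zero, e'] at f2
      simp at f2
  choose F hF using (A hg).1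
  have h1 : ∀ i y, g (inl (i, y)) = inl ((F i 0).1, (F i y).2) := fun i y => by
    rw [hF, (A hg).2 i 0 y _ _ _ _ (hF i 0) (hF i y)]
  let σ : Perm I := Equiv.ofBijective (fun i => (F i 0).1) (Finite.injective_iff_bijective.1 fun i j e =>
    (A (inv_mem hg)).2 (F i 0).1 (F i 0).2 (F j 0).2 i 0 j 0 (by rw [← h1, pinv_app]) (by
      rw [show (F i 0).1 = (F j 0).1 from e, ← h1, pinv_app]))
  have h2 : ∀ i, ∃ a : ZMod p, ∀ y, (F i (y + 1)).2 = (F i y).2 + a := fun i => by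
    obtain ⟨j, hj, -⟩ := exists_third h3 i i
    obtain ⟨⟨b, τ, -, e⟩, -⟩ := conj_mem_of_mem_normalizer hg (d i j 1)
    refine ⟨b (F i 0).1, fun y => ?_⟩
    have := congrArg (fun x : Perm (WP p I R) => x (g (inl (i, y)))) e
    simp only [mul_apply, pinv_app, tr_inl, Pi.sub_apply, Pi.single_eq_same, Pi.single_eq_of_ne hj.symm, sub_zero] at this
    simp only [h1, io_inl, tr_inl, Sum.inl.injEq, Prod.mk.injEq] at this
    rw [this.2, ← this.1]
  choose a ha using h2
  have h4 : ∀ i y, (F i y).2 = a i * y + (F i 0).2 := fun i y => by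
    obtain ⟨n, rfl⟩ := ZMod.natCast_zmod_surjective y
    induction n with
    | zero => simp
    | succ n ih => rw [Nat.cast_succ, ha, ih]; ring
  have h5 : ∀ i, a i ≠ 0 := fun i e => by
    have : g (inl (i, 1)) = g (inl (i, 0)) := by rw [h1, h1, h4 i 1, e, zero_mul, zero_add]
    simpa using g.injective this
  refine ⟨fun j => (F (σ.symm j) 0).2, σ, fun i => Units.mk0 _ (h5 i), perm_ext_inl fun ⟨i, y⟩ => ?_⟩
  simp only [mul_apply, dg_inl, io_inl, tr_inl, symm_apply_apply, Units.val_mk0]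
  rw [h1, h4]; rfl

theorem alt_le_of_pel {α : Type*} [Fintype α] [DecidableEq α] (hp : p ≠ 2) (h : p ≤ Fintype.card α) {L : Subgroup (Perm α)}
    (hL : ∀ σ : Perm α, σ ^ p = 1 → σ ∈ L) : alternatingGroup α ≤ L := by
  have h3 : 3 ≤ p := lt_of_le_of_ne (Fact.out : p.Prime).two_le hp.symm
  obtain ⟨c, hc⟩ := (exists_with_cycleType_iff α (m := {p})).2 ⟨by simpa using h, by simpa using (Fact.out : p.Prime).two_le⟩
  have c1 : c ^ p = 1 := by rw [← orderOf_dvd_iff_pow_eq_one, ← lcm_cycleType, hc]; simp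
  have c0 : c ≠ 1 := by rintro rfl; simp at hc
  obtain ⟨x, hx⟩ : ∃ x, c x ≠ x := by
    by_contra! H
    exact c0 (Equiv.ext H)
  have c2 : c (c x) ≠ x := fun e => by
    have : Function.IsPeriodicPt c (Nat.gcd 2 p) x :=
      Function.IsPeriodicPt.gcd e (by change c^[p] x = x; rw [← Perm.coe_pow, c1]; rfl)
    rw [(Nat.coprime_primes Nat.prime_two Fact.out).2 hp.symm] at this
    exact hx this
  have t : IsThreeCycle (swap x (c x) * c * (swap x (c x))⁻¹ * c⁻¹) := by
    rw [swap_inv, mul_assoc, mul_assoc, ← mul_assoc c, ← swap_apply_apply, swap_comm]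
    exact isThreeCycle_swap_mul_swap_same hx (fun e => hx (c.injective e).symm) c2.symm
  rw [← closure_three_cycles_eq_alternating, closure_le]
  intro σ hσ
  obtain ⟨g, rfl⟩ := _root_.isConj_iff.1 (isConj_iff_cycleType_eq.2 (t.cycleType.trans hσ.cycleType.symm))
  rw [show g * (swap x (c x) * c * (swap x (c x))⁻¹ * c⁻¹) * g⁻¹ =
    (g * swap x (c x)) * c * (g * swap x (c x))⁻¹ * (g * c * g⁻¹)⁻¹ by group]
  exact mul_mem (hL _ (by rw [conj_pow, c1, mul_one, mul_inv_cancel])) (inv_mem (hL _ (by rw [conj_pow, c1]; simp)))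

section
variable {B : Subgroup (Perm (WP p I R))} (hp : p ≠ 2) (h : p ≤ Fintype.card I)
  (hB : ∀ g ∈ normalizer (WS p R (⊥ : Subgroup (Perm I)) : Set (Perm (WP p I R))), g ^ p = 1 → g ∈ B)
include hp h hB

theorem conj_io_mem {t : Perm (WP p I R)} (ht : t ∈ normalizer (WS p R (⊥ : Subgroup (Perm I)) : Set (Perm (WP p I R))))
    {σ : Perm I} (hσ : sign σ = 1) : t * io p R σ * t⁻¹ ∈ B :=
  alt_le_of_pel hp h (L := B.comap ((MulAut.conj t).toMonoidHom.comp (io p R))) (fun τ e =>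
    hB _ (mul_mem (mul_mem ht (io_nm τ)) (inv_mem ht)) (by rw [← map_pow, e, map_one])) hσ

theorem io_mem_of_even {σ : Perm I} (hσ : sign σ = 1) : io p R σ ∈ B := by
  simpa using conj_io_mem hp h hB (one_mem _) hσ

theorem dg_mem {a : I → (ZMod p)ˣ} (ha : ∏ i, a i = 1) : dg R a ∈ B := by
  have h3 : 3 ≤ Fintype.card I := (lt_of_le_of_ne (Fact.out : p.Prime).two_le hp.symm).trans_le h
  obtain ⟨j⟩ := Fintype.card_pos_iff.1 (show 0 < Fintype.card I by omega)
  have h1 : ∀ (i : I) (u : (ZMod p)ˣ), Pi.mulSingle i u * (Pi.mulSingle j u)⁻¹ ∈ B.comap (dg R) := fun i u => by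
    by_cases hij : i = j
    · rw [hij, mul_inv_cancel]; exact one_mem _
    obtain ⟨l, hl, hl'⟩ := exists_third h3 i j
    have e : (Pi.mulSingle j u : I → (ZMod p)ˣ) = Pi.mulSingle i u ∘ (swap i j * swap j l).symm := by
      have : (swap i j * swap j l) i = j := by rw [mul_apply, swap_apply_of_ne_of_ne hij hl.symm, swap_apply_left]
      funext m
      by_cases h : m = j
      · rw [h, Pi.mulSingle_eq_same, Function.comp, (symm_apply_eq _).2 this.symm, Pi.mulSingle_eq_same]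
      · rw [Pi.mulSingle_eq_of_ne h, Function.comp, Pi.mulSingle_eq_of_ne]
        rwa [Ne, symm_apply_eq, this]
    have s : sign (swap i j * swap j l) = 1 := by rw [map_mul, sign_swap hij, sign_swap hl'.symm]; rfl
    rw [mem_comap, map_mul, map_inv, e, ← io_dg, show ∀ x y : Perm (WP p I R), x * (y * x * y⁻¹)⁻¹ = x * y * x⁻¹ * y⁻¹ from
      fun x y => by group]
    exact mul_mem (conj_io_mem hp h hB (dg_nm _) s) (inv_mem (io_mem_of_even hp h hB s))
  have := Subgroup.prod_mem _ (t := Finset.univ) fun i _ => h1 i (a i)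
  rwa [Finset.prod_mul_distrib, Finset.univ_prod_mulSingle, Finset.prod_inv_distrib,
    show ∏ i, (Pi.mulSingle j (a i) : I → (ZMod p)ˣ) = 1 by
      rw [← Pi.mulSingle_one j, ← ha]; exact (map_prod (MonoidHom.mulSingle (fun _ => (ZMod p)ˣ) j) _ _).symm,
    inv_one, mul_one] at this

theorem aff_mem (hA : B ≤ Alt) {b b' : I → ZMod p} {σ σ' : Perm I} {a a' : I → (ZMod p)ˣ}
    (h1 : tr b * io p R σ * dg R a ∈ Alt) (h2 : tr b' * io p R σ' * dg R a' ∈ B) (ha : ∏ i, a i = ∏ i, a' i) :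
    tr b * io p R σ * dg R a ∈ B := by
  have t : ∀ b : I → ZMod p, tr b ∈ B := fun b => hB _ (tr_nm b) (tr_pow b)
  have e : tr b * io p R σ * dg R a =
      tr b * dg R ((a * a'⁻¹) ∘ σ.symm) * io p R (σ * σ'⁻¹) * (tr b')⁻¹ * (tr b' * io p R σ' * dg R a') := by
    rw [← io_dg, map_mul, map_mul, map_inv, map_inv]; group
  have d : dg R ((a * a'⁻¹) ∘ σ.symm) ∈ B := dg_mem hp h hB (by
    rw [show ∏ i, ((a * a'⁻¹) ∘ σ.symm) i = ∏ i, (a * a'⁻¹) i from Equiv.prod_comp _ _]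
    simp only [Pi.mul_apply, Pi.inv_apply, Finset.prod_mul_distrib, Finset.prod_inv_distrib, ha, mul_inv_cancel])
  rw [e] at h1 ⊢
  rw [Subgroup.mul_mem_cancel_right _ (hA h2), Subgroup.mul_mem_cancel_right _ (inv_mem (hA (t _))),
    Subgroup.mul_mem_cancel_left _ (hA (mul_mem (t _) d)), mem_alternatingGroup, sign_io] at h1
  refine mul_mem (mul_mem (mul_mem (mul_mem (t _) d) (io_mem_of_even hp h hB ?_)) (inv_mem (t _))) h2
  rcases Int.units_eq_one_or (sign (σ * σ'⁻¹)) with e | e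
  · exact e
  · rw [e, ((Fact.out : p.Prime).odd_of_ne_two hp).neg_one_pow] at h1; exact absurd h1 (by decide)

end

theorem mem_of_isConj {S T : Subgroup (Perm (WP p I R))} (hT : ∀ g ∈ Alt, ∀ x ∈ T, g * x * g⁻¹ ∈ S → g * x * g⁻¹ ∈ T)
    {t x y : Perm (WP p I R)} (ht : sign t = -1) (hx : x ∈ T) (hx' : t⁻¹ * x * t ∈ T) (hy : y ∈ S) (h : IsConj x y) : y ∈ T := by
  obtain ⟨g, rfl⟩ := _root_.isConj_iff.1 h
  rcases Int.units_eq_one_or (sign g) with e | e
  · exact hT g e x hx hy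
  · have := hT (g * t) (by rw [mem_alternatingGroup, map_mul, e, ht]; rfl) _ hx'
    rw [show g * t * (t⁻¹ * x * t) * (g * t)⁻¹ = g * x * g⁻¹ by group] at this
    exact this hy

theorem mem_of_small {S T : Subgroup (Perm (WP p I R))} (hT : ∀ g ∈ Alt, ∀ x ∈ T, g * x * g⁻¹ ∈ S → g * x * g⁻¹ ∈ T)
    {x y : Perm (WP p I R)} (hx : x ∈ T) (hy : y ∈ S) (h1 : x ^ p = 1) (h2 : y ^ p = 1) (h3 : x.support.card = y.support.card)
    (h4 : x.support.card + 2 ≤ Fintype.card (WP p I R)) : y ∈ T := by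
  obtain ⟨a, ha, b, hb, ab⟩ := Finset.one_lt_card.1 (show 1 < x.supportᶜ.card by rw [Finset.card_compl]; omega)
  refine mem_of_isConj hT (sign_swap ab) hx ?_ hy (isConj_of_pow_eq_one h1 h2 h3)
  simp only [Finset.mem_compl, mem_support, not_not] at ha hb
  rwa [swap_inv, mul_assoc, mul_swap_eq_swap_mul, ha, hb, swap_mul_self_mul]

theorem card_support_tr (b : I → ZMod p) : (tr b : Perm (WP p I R)).support.card = (Finset.univ.filter fun i => b i ≠ 0).card * p :=
  card_support_of (fun _ => rfl) fun i x => by simp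

theorem sign_tr_two (i : I) : sign (tr (Pi.single i 1) : Perm (WP 2 I R)) = -1 := by
  refine IsSwap.sign_eq (card_support_eq_two.1 ?_)
  rw [card_support_tr, show (Finset.univ.filter fun j => (Pi.single i 1 : I → ZMod 2) j ≠ 0) = {i} by
    ext j; by_cases h : j = i <;> simp [h]]
  rfl

theorem exists_odd_nm (h2 : 2 ≤ Fintype.card I) :
    ∃ t ∈ normalizer (WS p R (⊥ : Subgroup (Perm I)) : Set (Perm (WP p I R))), sign t = -1 := by
  obtain ⟨i, j, h⟩ := Fintype.exists_pair_of_one_lt_card h2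
  by_cases hp : p = 2
  · subst hp; exact ⟨_, tr_nm _, sign_tr_two i⟩
  · exact ⟨_, io_nm (swap i j), by rw [sign_io, sign_swap h, ((Fact.out : p.Prime).odd_of_ne_two hp).neg_one_pow]⟩

theorem le_of_E1_le (h2 : 2 ≤ Fintype.card I) {P : Subgroup (Perm I)} (hP : IsPGroup p P) (hG : GenP p P)
    {T : Subgroup (Perm (WP p I R))} (hT : ∀ g ∈ Alt, ∀ x ∈ T, g * x * g⁻¹ ∈ WS p R P ⊓ Alt → g * x * g⁻¹ ∈ T)
    (h : WS p R ⊥ ⊓ Alt ≤ T) : WS p R P ⊓ Alt ≤ T := by
  rintro _ ⟨⟨b, σ, hσ, rfl⟩, hA⟩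
  obtain ⟨k, hk⟩ := hP ⟨σ, hσ⟩
  refine mul_mem (h ⟨tr_mem_WS _ _, (Subgroup.mul_mem_cancel_right _ (io_mem_alt (congrArg Subtype.val hk))).1 hA⟩) ?_
  refine hG (T.comap (io p R)) (fun τ hτ e => ?_) hσ
  obtain ⟨t, ht, s⟩ := exists_odd_nm (p := p) (R := R) h2
  have a : io p R τ ∈ Alt := io_mem_alt (k := 1) (by rwa [pow_one])
  have c : IsConj (tr fun i => if τ i = i then 0 else 1 : Perm (WP p I R)) (io p R τ) :=
    isConj_of_pow_eq_one (tr_pow _) (by rw [← map_pow, e, map_one]) (by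
      rw [card_support_tr]
      exact (card_support_of (fun _ => rfl) fun i x => by simp).symm)
  have m : (tr fun i => if τ i = i then 0 else 1 : Perm (WP p I R)) ∈ WS p R ⊥ ⊓ Alt := ⟨tr_mem_WS _ _, by
    obtain ⟨g, hg⟩ := _root_.isConj_iff.1 c
    change sign _ = 1
    rw [sign_eq_of_conj g, hg]; exact a⟩
  refine mem_of_isConj hT s (h m) (h ?_) ⟨io_mem_WS hτ, a⟩ c
  simpa using conj_mem_of_mem_normalizer (inv_mem (nm_inf_alt ht)) m

theorem tr_sum_mem {T : Subgroup (Perm (WP p I R))} (f : I → I → ZMod p) (h : ∀ i, tr (f i) ∈ T) : tr (∑ i, f i) ∈ T :=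
  Finset.sum_induction f (fun b => tr b ∈ T) (fun a b ha hb => by rw [tr_add]; exact mul_mem ha hb)
    (by rw [tr_zero]; exact one_mem _) fun i _ => h i

theorem E1_le_odd (hp : p ≠ 2) (h3 : 3 ≤ Fintype.card I) {P : Subgroup (Perm I)}
    {T : Subgroup (Perm (WP p I R))} (hT : ∀ g ∈ Alt, ∀ x ∈ T, g * x * g⁻¹ ∈ WS p R P ⊓ Alt → g * x * g⁻¹ ∈ T)
    {v : I → ZMod p} (h0 : v ≠ 0) (hv : tr v ∈ T) : WS p R ⊥ ≤ T := by
  have tA : ∀ b : I → ZMod p, tr b ∈ WS p R P ⊓ Alt := fun b => ⟨tr_mem_WS _ _, sign_of_pow_odd hp (k := 1) (by rw [pow_one, tr_pow])⟩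
  have A : ∀ (i j : I), i ≠ j → ∀ w : I → ZMod p, tr w ∈ T → tr (Pi.single i (2 * w i) + Pi.single j (2 * w j)) ∈ T := fun i j ij w hw => by
    have s : dg R (Pi.mulSingle i (-1) * Pi.mulSingle j (-1) : I → (ZMod p)ˣ) ∈ Alt := by
      have e : (Pi.mulSingle j (-1) : I → (ZMod p)ˣ) = Pi.mulSingle i (-1) ∘ (swap i j).symm := by
        funext l
        by_cases h : l = j
        · simp [h]
        · rw [Pi.mulSingle_eq_of_ne h, Function.comp, Pi.mulSingle_eq_of_ne]
          simpa [swap_apply_eq_iff] using h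
      rw [mem_alternatingGroup, map_mul, map_mul, e, ← io_dg, ← sign_eq_of_conj, Int.units_mul_self]
    have := hT _ s _ hw
    rw [dg_tr] at this
    have := mul_mem hw (inv_mem (this (tA _)))
    rw [← tr_sub] at this
    convert this using 2
    funext l
    by_cases h : l = i
    · subst h; simp [ij]; ring
    by_cases h' : l = j
    · subst h'; simp [h]; ring
    · simp [h, h']
  obtain ⟨i, hi⟩ := Function.ne_iff.1 h0
  obtain ⟨j, hj, -⟩ := exists_third h3 i i
  obtain ⟨l, hl, hl'⟩ := exists_third h3 i j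
  have h1 := A i l hl.symm _ (A i j hj.symm v hv)
  simp only [Pi.add_apply, Pi.single_eq_same, Pi.single_eq_of_ne hj.symm, Pi.single_eq_of_ne hl, Pi.single_eq_of_ne hl',
    add_zero, mul_zero, Pi.single_zero] at h1
  have two : (2 : ZMod p) ≠ 0 := fun e => hp ((Nat.prime_dvd_prime_iff_eq Fact.out Nat.prime_two).1
    ((ZMod.natCast_eq_zero_iff 2 p).1 (by exact_mod_cast e)))
  have sp : ∀ (j : I) (c : ZMod p), c ≠ 0 → (tr (Pi.single j c) : Perm (WP p I R)).support.card = p := fun j c hc => by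
    rw [card_support_tr, show (Finset.univ.filter fun l => (Pi.single j c : I → ZMod p) l ≠ 0) = {j} by
      ext l; by_cases h : l = j <;> simp [h, hc], Finset.card_singleton, one_mul]
  intro x hx
  obtain ⟨b, rfl⟩ := mem_WS_bot.1 hx
  rw [← Finset.univ_sum_single b]
  refine tr_sum_mem _ fun j => ?_
  by_cases hb : b j = 0
  · rw [hb, Pi.single_zero, tr_zero]; exact one_mem _
  have c : 2 * (2 * v i) ≠ 0 := mul_ne_zero two (mul_ne_zero two hi)
  refine mem_of_small hT h1 (tA _) (tr_pow _) (tr_pow _) (by rw [sp _ _ c, sp _ _ hb]) ?_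
  rw [sp _ _ c, card_WP]
  have := (Fact.out : p.Prime).two_le
  nlinarith

theorem E1_le_two (h3 : 3 ≤ Fintype.card I) {P : Subgroup (Perm I)} {i₀ j₀ : I} (h₀ : i₀ ≠ j₀) (hP : swap i₀ j₀ ∈ P)
    {T : Subgroup (Perm (WP 2 I R))}
    (hT : ∀ g ∈ alternatingGroup (WP 2 I R), ∀ x ∈ T, g * x * g⁻¹ ∈ WS 2 R P ⊓ alternatingGroup (WP 2 I R) → g * x * g⁻¹ ∈ T)
    {v : I → ZMod 2} (h0 : v ≠ 0) (hv : tr v ∈ T) (hA : tr v ∈ alternatingGroup (WP 2 I R)) :
    WS 2 R ⊥ ⊓ alternatingGroup (WP 2 I R) ≤ T := by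
  have z2 : ∀ a : ZMod 2, a = 0 ∨ a = 1 := by decide
  have ioA : ∀ σ : Perm I, io 2 R σ ∈ alternatingGroup (WP 2 I R) := fun σ => by rw [mem_alternatingGroup, sign_io, Int.units_sq]
  obtain ⟨x, hx, x2, x4⟩ : ∃ x ∈ T, x ^ 2 = 1 ∧ x.support.card = 4 := by
    by_cases h : ∃ i j, v i ≠ v j
    · obtain ⟨i, j, h⟩ := h
      have ij : i ≠ j := fun e => h (e ▸ rfl)
      have := hT _ (ioA (swap i j)) _ hv ⟨by rw [io_tr]; exact tr_mem_WS _ _, Normal.conj_mem inferInstance _ hA _⟩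
      rw [io_tr] at this
      have := mul_mem hv this
      rw [← tr_add] at this
      refine ⟨_, this, tr_pow _, ?_⟩
      rw [card_support_tr, show (Finset.univ.filter fun l => (v + v ∘ (swap i j).symm) l ≠ 0) = {i, j} by
        have z3 : ∀ a b : ZMod 2, a + b = 0 ↔ a = b := by decide
        ext l
        rw [Finset.mem_filter]
        by_cases a : l = i
        · simp [a, z3, h]
        by_cases b : l = j
        · simp [b, z3, h.symm]
        · simp [a, b, swap_apply_of_ne_of_ne a b, z3], Finset.card_pair ij]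
    push Not at h
    obtain ⟨i, hi⟩ := Function.ne_iff.1 h0
    have v1 : ∀ j, v j = 1 := fun j => (h j i).trans ((z2 _).resolve_left hi)
    let w : I → ZMod 2 := Pi.single i₀ 1 - Pi.single j₀ 1
    have w1 : w ∘ (swap i₀ j₀).symm = w := funext fun l => by
      by_cases a : l = i₀
      · simp [w, a, h₀, h₀.symm]
      by_cases b : l = j₀
      · simp [w, b, h₀, h₀.symm]
      · simp [w, swap_apply_of_ne_of_ne a b]
    have sq : ∀ b : I → ZMod 2, b ∘ (swap i₀ j₀).symm = b → (tr b * io 2 R (swap i₀ j₀)) ^ 2 = 1 := fun b hb => by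
      have := io_tr (R := R) (swap i₀ j₀) b
      rw [hb, mul_inv_eq_iff_eq_mul] at this
      rw [pow_two, mul_assoc, ← mul_assoc (io 2 R _), this, mul_assoc, ← map_mul, swap_mul_self, map_one, mul_one, ← pow_two, tr_pow]
    have y1 : tr (w - v) * io 2 R (swap i₀ j₀) ∈ T := by
      refine mem_of_isConj hT (sign_tr_two i₀) hv ?_ ⟨mul_mem (tr_mem_WS _ _) (io_mem_WS hP), mul_mem ?_ (ioA _)⟩
        (isConj_of_pow_eq_one (tr_pow _) (sq _ ?_) ?_)
      · rwa [← tr_neg, ← tr_add, ← tr_add, neg_add_cancel_comm]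
      · rw [tr_sub]; exact Subgroup.mul_mem _ (tr_diff_mem_alt _ _ _) (inv_mem hA)
      · funext l; simp only [Function.comp, Pi.sub_apply, v1]; rw [← congrFun w1 l]; rfl
      · rw [card_support_tr]
        refine (card_support_of (fun _ => rfl) fun l x => ?_).symm
        by_cases a : l = i₀
        · simp [a, h₀.symm, v1]
        by_cases b : l = j₀
        · simp [b, h₀, v1]
        · simp [w, a, b, swap_apply_of_ne_of_ne a b, v1]
    have := mul_mem hv y1
    rw [← mul_assoc, ← tr_add, add_sub_cancel] at this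
    refine ⟨_, this, sq _ w1, ?_⟩
    rw [card_support_of (s := {i₀, j₀}) (fun _ => rfl) fun l x => ?_, Finset.card_pair h₀]
    by_cases a : l = i₀
    · simp [a, h₀.symm]
    by_cases b : l = j₀
    · simp [b, h₀]
    · simp [w, a, b, swap_apply_of_ne_of_ne a b]
  have d : ∀ i j (c : ZMod 2), (tr (Pi.single i c - Pi.single j c) : Perm (WP 2 I R)) ∈ T := fun i j c => by
    by_cases ij : i = j
    · rw [ij, sub_self, tr_zero]; exact one_mem _
    rcases z2 c with rfl | rfl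
    · rw [Pi.single_zero, Pi.single_zero, sub_self, tr_zero]; exact one_mem _
    refine mem_of_small hT hx ⟨tr_mem_WS _ _, tr_diff_mem_alt _ _ _⟩ x2 (tr_pow _) ?_ (by rw [x4, card_WP]; omega)
    rw [x4, card_support_tr, show (Finset.univ.filter fun l => (Pi.single i 1 - Pi.single j 1 : I → ZMod 2) l ≠ 0) = {i, j} by
      ext l
      by_cases a : l = i
      · simp [a, ij]
      by_cases b : l = j
      · simp [b, Ne.symm ij]
      · simp [a, b], Finset.card_pair ij]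
  rintro _ ⟨hb, hA⟩
  obtain ⟨b, rfl⟩ := mem_WS_bot.1 hb
  have e : b = ∑ i, (Pi.single i (b i) - Pi.single i₀ (b i)) + Pi.single i₀ (∑ i, b i) := by
    rw [Finset.sum_sub_distrib, Finset.univ_sum_single,
      show (Pi.single i₀ (∑ i, b i) : I → ZMod 2) = ∑ i, Pi.single i₀ (b i) from
        map_sum (AddMonoidHom.single (fun _ => ZMod 2) i₀) _ _, sub_add_cancel]
  rcases z2 (∑ i, b i) with h | h
  · rw [e, h, Pi.single_zero, add_zero]; exact tr_sum_mem _ fun i => d _ _ _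
  · rw [e, h, tr_add] at hA
    have := (Subgroup.mul_mem_cancel_left _ (tr_sum_mem _ fun i => tr_diff_mem_alt i i₀ (b i))).1 hA
    rw [mem_alternatingGroup, sign_tr_two] at this
    exact absurd this (by decide)

/-- cyclic shift of the first `p` blocks -/
def sh (J : Type*) (t : ZMod p) : Perm (ZMod p ⊕ J) := Perm.sumCongr (Equiv.addRight t) 1

/-- the regular elementary abelian group on the first `p` blocks times the base group on the others -/
def qh (p : ℕ) [Fact p.Prime] (J R : Type*) : Multiplicative (ZMod p × ZMod p × (J → ZMod p)) →* Perm (WP p (ZMod p ⊕ J) R) where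
  toFun x := tr (Sum.elim (fun _ => x.toAdd.1) x.toAdd.2.2) * io p R (sh J x.toAdd.2.1)
  map_one' := by ext (⟨i | j, x⟩ | r) <;> simp [sh]
  map_mul' _ _ := by ext (⟨i | j, x⟩ | r) <;> simp [sh] <;> abel_nf <;> simp

/-- lower unipotent elements -/
def u2 (J R : Type*) (s : ZMod p) : Perm (WP p (ZMod p ⊕ J) R) := Perm.sumCongr (prodCongrLeft fun x => sh J (s * x)) 1

@[simp] theorem qh_1 (c t : ZMod p) (v : J → ZMod p) (i x : ZMod p) :
    qh p J R (Multiplicative.ofAdd (c, t, v)) (inl (inl i, x)) = inl (inl (i + t), x + c) := rfl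
@[simp] theorem qh_2 (c t : ZMod p) (v : J → ZMod p) (j : J) (x : ZMod p) :
    qh p J R (Multiplicative.ofAdd (c, t, v)) (inl (inr j, x)) = inl (inr j, x + v j) := rfl
@[simp] theorem qh_3 (c t : ZMod p) (v : J → ZMod p) (r : R) : qh p J R (Multiplicative.ofAdd (c, t, v)) (inr r) = inr r := rfl
@[simp] theorem u2_1 (s i x : ZMod p) : u2 J R s (inl (inl i, x)) = inl (inl (i + s * x), x) := rfl
@[simp] theorem u2_2 (s : ZMod p) (j : J) (x : ZMod p) : u2 J R s (inl (inr j, x)) = inl (inr j, x) := rfl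
@[simp] theorem u2_3 (s : ZMod p) (r : R) : u2 J R s (inr r) = inr r := rfl

theorem sh_pow (t : ZMod p) (n : ℕ) : sh J t ^ n = sh J ((n : ZMod p) * t) := by
  induction n with
  | zero => ext (i | j) <;> simp [sh]
  | succ n ih => rw [pow_succ', ih]; ext (i | j) <;> simp [sh, add_mul, add_assoc]

theorem u2_pow (s : ZMod p) (n : ℕ) : u2 J R s ^ n = u2 J R ((n : ZMod p) * s) := by
  induction n with
  | zero => ext (⟨i | j, x⟩ | r) <;> simp
  | succ n ih => rw [pow_succ', ih]; ext (⟨i | j, x⟩ | r) <;> simp [add_mul, add_assoc]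

theorem cent_Q [Subsingleton R] {x : Perm (WP p (ZMod p ⊕ J) R)} (h : ∀ y ∈ (qh p J R).range, y * x = x * y) : x ∈ (qh p J R).range := by
  have h1 : ∀ c t v z, qh p J R (Multiplicative.ofAdd (c, t, v)) (x z) = x (qh p J R (Multiplicative.ofAdd (c, t, v)) z) :=
    fun c t v z => congrArg (fun g : Perm _ => g z) (h _ ⟨_, rfl⟩)
  obtain ⟨t, c, h2⟩ : ∃ t c, x (inl (inl 0, 0)) = inl (inl t, c) := by
    have h5 : qh p J R (Multiplicative.ofAdd (1, 0, 0)) (x (inl (inl 0, 0))) ≠ x (inl (inl 0, 0)) := by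
      rw [h1, Ne, x.apply_eq_iff_eq]; simp
    generalize x (inl (inl 0, 0)) = z at h5
    rcases z with ⟨t | j, c⟩ | r
    · exact ⟨t, c, rfl⟩
    all_goals simp at h5
  have h3 : ∀ j, ∃ c, x (inl (inr j, 0)) = inl (inr j, c) := fun j => by
    have h5 : qh p J R (Multiplicative.ofAdd (0, 0, Pi.single j 1)) (x (inl (inr j, 0))) ≠ x (inl (inr j, 0)) := by
      rw [h1, Ne, x.apply_eq_iff_eq]; simp
    generalize x (inl (inr j, 0)) = z at h5
    rcases z with ⟨t | l, c⟩ | r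
    · simp at h5
    · by_cases e : l = j
      · exact ⟨c, by rw [e]⟩
      · simp [e] at h5
    · simp at h5
  choose v hv using h3
  refine ⟨Multiplicative.ofAdd (c, t, v), perm_ext_inl ?_⟩
  rintro ⟨i | j, y⟩
  · have := h1 y i 0 (inl (inl 0, 0))
    rw [h2] at this
    simpa [add_comm] using this
  · have := h1 0 0 (Pi.single j y) (inl (inr j, 0))
    rw [hv] at this
    simpa [add_comm] using this

theorem u_prod (d : (ZMod p)ˣ) : u2 J R (-(d : ZMod p)⁻¹) * tr (Sum.elim (fun i => ((d : ZMod p) - 1) * i) 0) * u2 J R 1 =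
    tr (Sum.elim (fun i => ((d : ZMod p) - 1) * (d : ZMod p) * i) 0) * io p R (Perm.sumCongr d⁻¹.mulLeft 1) *
      dg R (Sum.elim (fun _ => d) 1) := by
  have := d.ne_zero
  refine Equiv.ext ?_
  rintro (⟨i | j, x⟩ | r)
  · change inl (inl (i + 1 * x + -(d : ZMod p)⁻¹ * (x + ((d : ZMod p) - 1) * (i + 1 * x))), x + ((d : ZMod p) - 1) * (i + 1 * x)) =
      inl (inl ((d⁻¹ : (ZMod p)ˣ) * i), d * x + ((d : ZMod p) - 1) * d * ((d⁻¹ : (ZMod p)ˣ) * i))
    rw [Units.val_inv_eq_inv_val]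
    refine congrArg inl (Prod.ext (congrArg inl ?_) ?_) <;> field_simp <;> ring
  · change inl (inr j, x + 0) = inl (inr j, 1 * x + 0)
    rw [one_mul]
  · rfl

theorem zmod_two_cases : ∀ a : ZMod 2, a = 0 ∨ a = 1 := by decide

theorem simple_alt [Subsingleton R] (h3 : 3 ≤ Fintype.card (ZMod p ⊕ J)) {K : Type*} [Group K] [Finite K]
    (e : K ≃* alternatingGroup (WP p (ZMod p ⊕ J) R)) (S' : Sylow p K) : (groupFusionSystem (S' : Subgroup K)).IsSimple p := by
  have s1 : sh J (1 : ZMod p) ^ p = 1 := by rw [sh_pow]; ext (i | j) <;> simp [sh]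
  obtain ⟨P, hP⟩ := (IsPGroup.of_card (p := p) (G := zpowers (sh J (1 : ZMod p))) (n := (orderOf (sh J (1 : ZMod p))).factorization p) (by
    rw [Nat.card_zpowers]
    rcases (Nat.dvd_prime Fact.out).1 (orderOf_dvd_of_pow_eq_one s1) with e | e <;> simp [e, (Fact.out : p.Prime).factorization_self])).exists_le_sylow
  have shP : ∀ t : ZMod p, sh J t ∈ P := fun t => by
    have := pow_mem (hP (mem_zpowers _)) t.val
    rwa [sh_pow, ZMod.natCast_zmod_val, mul_one] at this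
  have hR : Fintype.card R < p := (Fintype.card_le_one_iff_subsingleton.2 ‹_›).trans_lt (Fact.out : p.Prime).one_lt
  have hS : RSyl p ⊥ (WS p R (P : Subgroup (Perm (ZMod p ⊕ J))) ⊓ alternatingGroup _) (alternatingGroup _) :=
    (rsyl_sylow (sylW hR P)).inf_normal' le_top le_normalizer_of_normal
  have E1 : WS p R ⊥ ⊓ alternatingGroup _ ≤ WS p R (P : Subgroup (Perm (ZMod p ⊕ J))) ⊓ alternatingGroup _ :=
    inf_le_inf_right _ (WS_mono bot_le)
  have gen : GenP p (P : Subgroup (Perm (ZMod p ⊕ J))) := by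
    obtain ⟨P'⟩ : Nonempty (Sylow p (Perm (Fin (Fintype.card (ZMod p ⊕ J))))) := inferInstance
    obtain ⟨e', he'⟩ := exists_map_eq_sylow (Fintype.equivFin _).symm.permCongrHom P' P
    exact he' ▸ (genP_sylow _ rfl P').map _
  refine simple_of_rel hS (simple_rel hS (fun H => ?_) (fun T hT h0 hs => ?_) fun A hA g hg => ?_) e S'
  · obtain ⟨j, hj, -⟩ := exists_third h3 (inl 0) (inl 0)
    have := congrArg (fun g : Perm (WP p (ZMod p ⊕ J) R) => g (inl (inl 0, 0)))
      (mem_bot.1 (H.le ⟨tr_mem_WS _ _, tr_diff_mem_alt (inl 0) j 1⟩))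
    simp [hj.symm] at this
  · haveI := (normal_subgroupOf_iff_le_normalizer hT).2 fun s hs' => mem_normalizer_fintype fun x hx =>
      hs s hs'.2 x hx (mul_mem (mul_mem hs' (hT hx)) (inv_mem hs'))
    obtain ⟨z, hz, z0, -, hc⟩ := H3.exists_central_mod (pmod_bot_iff.1 hS.pmod) (N := ⊥) (M := T.subgroupOf _)
      fun a => h0 (eq_bot_iff.2 fun x hx => mem_bot.2 (congrArg Subtype.val (mem_bot.1 (a (x := ⟨x, hT hx⟩) hx))))
    obtain ⟨v, hv⟩ := mem_WS_bot.1 (eq_tr_of_cent h3 (x := z.1) fun y hy =>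
      congrArg Subtype.val (commutatorElement_eq_one_iff_mul_comm.1 (mem_bot.1 (hc ⟨y, E1 hy⟩))))
    have v0 : v ≠ 0 := by
      rintro rfl
      exact z0 (mem_bot.2 (Subtype.ext (hv.trans tr_zero)))
    replace hz : tr v ∈ T := hv ▸ hz
    refine le_of_E1_le (by omega) P.isPGroup' gen hs ?_
    by_cases hp : p = 2
    · subst hp
      refine E1_le_two h3 (i₀ := inl 0) (j₀ := inl 1) (by simp) ?_ hs v0 hz (hT hz).2
      rw [show swap (inl 0) (inl 1) = sh J (1 : ZMod 2) from Equiv.ext (by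
        rintro (i | j)
        · rcases zmod_two_cases i with rfl | rfl <;> simp [sh]; rfl
        · simp [sh, swap_apply_of_ne_of_ne])]
      exact shP 1
    · exact inf_le_left.trans (E1_le_odd hp h3 hs v0 hz)
  obtain ⟨b, σ, a, rfl⟩ := exists_aff h3 hg.2
  refine hA.up _ _ E1 le_rfl (fun x hx h => ⟨eq_tr_of_cent h3 h, hx⟩) _ hg.2 ?_
  by_cases hp : p = 2
  · subst hp
    have ioA : ∀ σ : Perm (ZMod 2 ⊕ J), io 2 R σ ∈ alternatingGroup _ := fun σ => by rw [mem_alternatingGroup, sign_io, Int.units_sq]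
    rw [Subsingleton.elim a 1, map_one, mul_one] at hg ⊢
    refine mul_mem (hA.pel _ E1 _ ((Subgroup.mul_mem_cancel_right _ (ioA σ)).1 hg.1) (nm_inf_alt (tr_nm b)) 1 (tr_pow b)) ?_
    refine (closure_le ((A _).comap (io 2 R))).2 (fun τ hτ => ?_) (closure_isSwap.ge (mem_top σ))
    obtain ⟨i, j, -, rfl⟩ := hτ
    exact hA.pel _ E1 _ (ioA _) (nm_inf_alt (io_nm _)) 1 (by rw [← map_pow, pow_one, pow_two, swap_mul_self, map_one])
  have E0 : (WS p R ⊥ : Subgroup (Perm (WP p (ZMod p ⊕ J) R))) ≤ alternatingGroup _ := fun x hx => by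
    obtain ⟨b, rfl⟩ := mem_WS_bot.1 hx
    exact sign_of_pow_odd hp (k := 1) (by rw [pow_one, tr_pow])
  rw [inf_eq_left.2 E0] at E1 ⊢
  have Q1 : (qh p J R).range ≤ WS p R (P : Subgroup (Perm (ZMod p ⊕ J))) ⊓ alternatingGroup _ := by
    rintro _ ⟨x, rfl⟩
    exact mul_mem (E1 (tr_mem_WS _ _)) ⟨io_mem_WS (shP _), io_mem_alt (k := 1) (by rw [pow_one, sh_pow]; ext (i | j) <;> simp [sh])⟩
  let d := ∏ i, a i
  have U2 : ∀ s : ZMod p, u2 J R s ∈ normalizer ((qh p J R).range : Set (Perm (WP p (ZMod p ⊕ J) R))) ⊓ A (qh p J R).range := fun s => by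
    have n : u2 J R s ∈ normalizer ((qh p J R).range : Set (Perm (WP p (ZMod p ⊕ J) R))) := mem_normalizer_fintype (by
      rintro _ ⟨⟨c, t, v⟩, rfl⟩
      refine ⟨Multiplicative.ofAdd (c, t + s * c, v), eq_mul_inv_of_mul_eq ?_⟩
      change _ = _ * qh p J R (Multiplicative.ofAdd (c, t, v))
      ext (⟨i | j, x⟩ | r) <;> simp; ring)
    have o : u2 J R s ^ p ^ 1 = 1 := by rw [pow_one, u2_pow]; ext (⟨i | j, x⟩ | r) <;> simp
    exact ⟨n, hA.pel _ Q1 _ (sign_of_pow_odd hp o) n 1 o⟩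
  have U1 : ∀ s : ZMod p, tr (Sum.elim (fun i => s * i) 0) ∈
      normalizer ((qh p J R).range : Set (Perm (WP p (ZMod p ⊕ J) R))) ⊓ A (qh p J R).range := fun s => by
    have n : tr (Sum.elim (fun i => s * i) 0) ∈ normalizer ((qh p J R).range : Set (Perm (WP p (ZMod p ⊕ J) R))) :=
      mem_normalizer_fintype (by
        rintro _ ⟨⟨c, t, v⟩, rfl⟩
        refine ⟨Multiplicative.ofAdd (c + s * t, t, v), eq_mul_inv_of_mul_eq ?_⟩
        change _ = _ * qh p J R (Multiplicative.ofAdd (c, t, v))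
        ext (⟨i | j, x⟩ | r) <;> simp; ring)
    exact ⟨n, hA.pel _ Q1 _ (E0 (tr_mem_WS _ _)) n 1 (by rw [pow_one, tr_pow])⟩
  have m := mul_mem (mul_mem (U2 (-(d : ZMod p)⁻¹)) (U1 (d - 1))) (U2 1)
  rw [u_prod] at m
  have n0 := mul_mem (mul_mem (tr_nm (R := R) (Sum.elim (fun i => ((d : ZMod p) - 1) * (d : ZMod p) * i) 0))
    (io_nm (Perm.sumCongr d⁻¹.mulLeft (1 : Perm J)))) (dg_nm (Sum.elim (fun _ => d) 1))
  refine aff_mem hp (by simp) (fun g hg e => hA.pel _ E1 g (sign_of_pow_odd hp (k := 1) (by rwa [pow_one])) hg 1 (by rwa [pow_one]))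
    (hA.leH _) hg.1 (hA.down _ _ le_sup_right (sup_le Q1 E1) _ (hA.up _ _ le_sup_left (sup_le Q1 E1) (fun x _ h => cent_Q h) _
      (normalizer_inf_normalizer_le_normalizer_sup _ _ ⟨m.1, n0⟩) m.2) n0) ?_
  change d = _
  clear_value d
  simp only [Fintype.prod_sum_type, Sum.elim_inl, Sum.elim_inr, Pi.one_apply, Finset.prod_const_one, mul_one, Finset.prod_const,
    Finset.card_univ, ZMod.card]
  exact Units.ext (by rw [Units.val_pow_eq_pow_val, ZMod.pow_card])

end Cfsg.Agent.H23
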