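import Cfsg.Agent.H24.Base6

/-! Fixed points of coprime action: preliminaries. -/

set_option autoImplicit false
set_option linter.style.haveILetI false
set_option linter.unusedSectionVars false

namespace Cfsg.Agent.H23F

open Subgroup H24
open scoped commutatorElement

variable {G : Type*} [Group G] {P H K A : Subgroup G}

/-- the subgroup `[h, P]` -/
def Kh (P : Subgroup G) (h : G) : Subgroup G := closure {c | ∃ y ∈ P, c = h⁻¹ * (y * h * y⁻¹)}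

/-- the subgroup generated by the fixed points in the `[h, P]` -/
def LL (P H : Subgroup G) : Subgroup G := ⨆ h : H, Kh P h ⊓ 𝐂[P]

theorem gen_mem {y : G} (hy : y ∈ P) (h : G) : h⁻¹ * (y * h * y⁻¹) ∈ Kh P h := subset_closure ⟨y, hy, rfl⟩

theorem Kh_le_iff {h : G} : Kh P h ≤ K ↔ ∀ y ∈ P, h⁻¹ * (y * h * y⁻¹) ∈ K :=
  (closure_le _).trans ⟨fun a y hy => a ⟨y, hy, rfl⟩, fun a _ ⟨y, hy, e⟩ => e ▸ a y hy⟩

theorem Kh_norm (h : G) : P ≤ 𝐍[Kh P h] := le_normalizer_iff_cj_le.2 fun g hg => cj_le_iff.2 <|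
  Kh_le_iff.2 fun y hy => mem_cj.2 <| by
    convert mul_mem (inv_mem (gen_mem hg h)) (gen_mem (mul_mem hg hy) h) using 1; group

theorem Kh_le {h : G} (hh : h ∈ H) : Kh P h ≤ ⁅H, P⁆ := Kh_le_iff.2 fun y hy => by
  convert commutator_mem_commutator (inv_mem hh) hy using 1
  simp only [commutatorElement_def]; group

theorem le_Kh : ⁅H, P⁆ ≤ ⨆ h : H, Kh P h := commutator_le.2 fun h hh y hy => by
  refine le_iSup (fun h : H => Kh P h) ⟨h⁻¹, inv_mem hh⟩ ?_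
  convert gen_mem hy h⁻¹ using 1
  simp only [commutatorElement_def]; group

theorem Kh_map {G' : Type*} [Group G'] (f : G →* G') (h : G) : (Kh P h).map f = Kh (P.map f) (f h) := by
  refine le_antisymm (map_le_iff_le_comap.2 (Kh_le_iff.2 fun y hy => ?_)) (Kh_le_iff.2 ?_)
  · simpa using gen_mem (mem_map_of_mem f hy) (f h)
  · rintro _ ⟨y, hy, rfl⟩
    simpa only [map_mul, map_inv] using mem_map_of_mem f (gen_mem hy h)

theorem le_LL {h : G} (hh : h ∈ H) : Kh P h ⊓ 𝐂[P] ≤ LL P H :=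
  le_iSup (fun h : H => Kh P h ⊓ 𝐂[P]) ⟨h, hh⟩

theorem LL_mono (h : K ≤ H) : LL P K ≤ LL P H := iSup_le fun k => le_LL (h k.2)

theorem LL_le (hn : P ≤ 𝐍[H]) : LL P H ≤ H ⊓ 𝐂[P] := iSup_le fun k =>
  inf_le_inf_right _ ((Kh_le k.2).trans (commutator_le_left_of_le_normalizer hn))

theorem LL_map {G' : Type*} [Group G'] (f : G →* G') : (LL P H).map f ≤ LL (P.map f) (H.map f) := by
  rw [LL, Subgroup.map_iSup]
  refine iSup_le fun k => le_trans ((map_inf_le _ _ _).trans ?_) (le_LL (mem_map_of_mem f k.2))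
  rw [Kh_map]; exact inf_le_inf_left _ (map_le_centralizer_map f le_rfl)

theorem LL_norm [Finite G] : H ⊓ 𝐂[P] ≤ 𝐍[LL P H] := fun c hc => mem_normalizer_of_cj_le <| by
  have := LL_map (P := P) (H := H) (MulAut.conj c).toMonoidHom
  rwa [map_conj_eq_cj, map_conj_eq_cj, map_conj_eq_cj, cj_eq_of_mem hc.1,
    cj_eq_of_mem_normalizer (centralizer_le_normalizer' P hc.2)] at this

theorem push {G' : Type*} [Group G'] {f : G →* G'} (hf : Function.Injective f)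
    (h : ⁅H, P⁆ ⊓ 𝐂[P] ≤ LL P H) : ⁅H.map f, P.map f⁆ ⊓ 𝐂[P.map f] ≤ LL (P.map f) (H.map f) := by
  rw [← map_commutator]
  rintro _ ⟨⟨c, hc, rfl⟩, h2⟩
  exact LL_map f (mem_map_of_mem f (h ⟨hc, mem_centralizer_iff'.2 fun y hy => hf (by
    simpa using mem_centralizer_iff'.1 h2 _ (mem_map_of_mem f hy))⟩))

theorem img {D : Subgroup G} {y : G} (h1 : ⁅K, K⁆ ≤ D) (h2 : K ≤ 𝐍[D]) (h3 : y ∈ 𝐍[K]) (h4 : y ∈ 𝐍[D])
    [Finite G] (h : K ≤ ⁅K, zpowers y⁆) : ∀ u ∈ K, ∃ s ∈ K, (s⁻¹ * (y * s * y⁻¹))⁻¹ * u ∈ D := by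
  have m : ∀ s ∈ K, s⁻¹ * (y * s * y⁻¹) ∈ K := fun s hs =>
    mul_mem (inv_mem hs) (conj_mem_of_mem_normalizer h3 hs)
  let I : Subgroup G :=
    { carrier := {u | u ∈ K ∧ ∃ s ∈ K, (s⁻¹ * (y * s * y⁻¹))⁻¹ * u ∈ D}
      one_mem' := ⟨one_mem _, 1, one_mem _, by simp⟩
      mul_mem' := by
        rintro u v ⟨hu, s, hs, a⟩ ⟨hv, t, ht, b⟩
        refine ⟨mul_mem hu hv, s * t, mul_mem hs ht, ?_⟩
        convert mul_mem (conj_mem_of_mem_normalizer' (h2 (m t ht)) (mul_mem (inv_mem (h1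
          (commutator_mem_commutator (inv_mem (m s hs)) (inv_mem ht)))) a)) b using 1
        simp only [commutatorElement_def]; group
      inv_mem' := by
        rintro u ⟨hu, s, hs, a⟩
        refine ⟨inv_mem hu, s⁻¹, inv_mem hs, ?_⟩
        convert mul_mem (h1 (commutator_mem_commutator hs (m s hs)))
          (conj_mem_of_mem_normalizer (h2 (m s hs)) (inv_mem a)) using 1
        simp only [commutatorElement_def]; group }
  refine fun u hu => (commutator_zpowers_right_le (D := I) (mem_normalizer_of_conj_mem ?_)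
    (fun a ha => ⟨?_, a⁻¹, inv_mem ha, ?_⟩) (h hu)).2
  · rintro u ⟨hu, s, hs, a⟩
    refine ⟨conj_mem_of_mem_normalizer h3 hu, _, conj_mem_of_mem_normalizer h3 hs, ?_⟩
    convert conj_mem_of_mem_normalizer h4 a using 1; simp [mul_assoc]
  · convert m _ (inv_mem ha) using 1; simp only [commutatorElement_def]; group
  · convert one_mem D using 1; simp only [commutatorElement_def]; group

section
variable {R : Type*} [Ring R] (ρ : G →* R) (fix : ∀ B : R, (∀ u ∈ K, ρ u * B = B) → B = 0)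
include fix

theorem kill {y : G} (sj : ∀ u ∈ K, ∃ s ∈ K, s⁻¹ * (y * s * y⁻¹) = u) {b : R}
    (hb : ∀ u ∈ K, Commute b (ρ u)) (h : ∀ s ∈ K, b * (ρ (y * s * y⁻¹) - ρ s) = 0) : b = 0 :=
  fix b fun u hu => by
    obtain ⟨s, hs, e⟩ := sj u hu
    have := h s hs
    rw [mul_sub, sub_eq_zero] at this
    rw [← (hb u hu).eq, ← e, map_mul, ← mul_assoc, (hb _ (inv_mem hs)).eq, mul_assoc, this,
      (hb s hs).eq, ← mul_assoc, ← map_mul, inv_mul_cancel, map_one, one_mul]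

omit fix in
theorem canc {a b : R} (y : G) (h : a * ρ y = b * ρ y) : a = b := by
  have := congrArg (· * ρ y⁻¹) h
  simpa only [mul_assoc, ← map_mul, mul_inv_cancel, map_one, mul_one] using this

theorem ded {x k l : G} (hK : K ≤ 𝐂[K]) (hx : x ∈ 𝐍[K]) (hk : k ∈ K) (hl : l ∈ K)
    (s1 : ∀ u ∈ K, ∃ s ∈ K, s⁻¹ * (x * s * x⁻¹) = u)
    (s2 : ∀ u ∈ K, ∃ s ∈ K, s⁻¹ * (x * x * s * (x * x)⁻¹) = u)
    (E : (1 - ρ l) * (ρ (k * x) - 1) = (1 - ρ k) * (ρ (l * (x * x)) - 1)) : ρ k = 1 := by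
  have c : ∀ a ∈ K, ∀ u ∈ K, Commute (ρ a) (ρ u) := fun a ha u hu =>
    Commute.map (mem_centralizer_iff'.1 (hK hu) a ha) ρ
  have c1 : ∀ a ∈ K, ∀ b ∈ K, ∀ u ∈ K, Commute ((1 - ρ a) * ρ b) (ρ u) := fun a ha b hb u hu =>
    ((Commute.one_left _).sub_left (c a ha u hu)).mul_left (c b hb u hu)
  have e : ∀ b y s, Commute b (ρ s) → b * (ρ (y * s * y⁻¹) - ρ s) * ρ y =
      b * ρ y * ρ s - ρ s * (b * ρ y) := fun b y s h => by
    rw [mul_assoc, sub_mul, ← map_mul, inv_mul_cancel_right, map_mul, mul_sub, ← mul_assoc,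
      ← mul_assoc, h.eq, mul_assoc (ρ s)]
  have := kill ρ fix s2 (c1 k hk l hl) fun t ht => by
    have t1 := conj_mem_of_mem_normalizer hx ht
    have t2 := conj_mem_of_mem_normalizer (mul_mem hx hx) ht
    have d := fun u hu => (c1 k hk l hl u hu).mul_left ((c _ t2 u hu).sub_left (c t ht u hu))
    have d' := fun u hu => (c1 l hl k hk u hu).mul_left ((c _ t1 u hu).sub_left (c t ht u hu))
    have f : (1 - ρ k) * ρ l * (ρ (x * x * t * (x * x)⁻¹) - ρ t) * ρ x =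
        (1 - ρ l) * ρ k * (ρ (x * t * x⁻¹) - ρ t) := canc ρ x (by
      have E' : (1 - ρ k) * ρ l * ρ (x * x) = (1 - ρ l) * ρ k * ρ x + (ρ l - ρ k) := by
        rw [map_mul, map_mul ρ l] at E
        rw [← sub_eq_zero] at E ⊢
        rw [← neg_eq_zero, ← E]; noncomm_ring
      rw [mul_assoc _ (ρ x), ← map_mul, e _ _ _ (c1 k hk l hl t ht), e _ _ _ (c1 l hl k hk t ht), E',
        add_mul, ((c l hl t ht).sub_left (c k hk t ht)).eq]
      noncomm_ring)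
    refine kill ρ fix s1 d fun s hs => canc ρ x ?_
    rw [e _ _ _ (d s hs), f, (d' s hs).eq, sub_self, zero_mul]
  rw [← zero_mul (ρ l)] at this
  exact (sub_eq_zero.1 (canc ρ l this)).symm

end

variable [Finite G] {p : ℕ} [hp : Fact p.Prime]

theorem ab_res (hA : A ≤ 𝐂[A]) {a : G} (ha : a ∈ pResidualOf p A) : (orderOf a).Coprime p := by
  let T : Subgroup G :=
    { carrier := {g | g ∈ A ∧ (orderOf g).Coprime p}
      one_mem' := ⟨one_mem _, by simp⟩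
      mul_mem' := fun {a b} ha hb => ⟨mul_mem ha.1 hb.1, (ha.2.mul_left hb.2).coprime_dvd_left
        (Commute.orderOf_mul_dvd_mul_orderOf (mem_centralizer_iff'.1 (hA hb.1) a ha.1))⟩
      inv_mem' := fun {a} ha => ⟨inv_mem ha.1, by rw [orderOf_inv]; exact ha.2⟩ }
  exact (pResidualOf_le_iff_forall (K := T).2 (fun x a b => ⟨a, b⟩) ha).2

theorem minN [Group.IsSolvable G] {T D : Subgroup G} (h : D ≠ ⊥) (hn : T ≤ 𝐍[D]) :
    ∃ R, R ≠ ⊥ ∧ R ≤ D ∧ T ≤ 𝐍[R] ∧ (∀ Z, T ≤ 𝐍[Z] → Z ≤ R → Z = ⊥ ∨ Z = R) ∧ R ≤ 𝐂[R] ∧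
      ∃ r, r.Prime ∧ IsPGroup r R := by
  obtain ⟨R, r1, r2, r3, r4⟩ := exists_min_normal_between (bot_lt_iff_ne_bot.2 h) hn
  replace r4 := fun Z a => r4 Z a bot_le
  have c := Group.IsSolvable.commutator_lt_of_ne_bot r1.ne'
  have a : R ≤ 𝐂[R] := le_centralizer_iff_commutator.2
    ((r4 _ (le_normalizer_commutator r3 r3) c.le).resolve_right c.ne)
  obtain ⟨r, hr, d⟩ := Nat.exists_prime_and_dvd (mt card_eq_one.1 r1.ne')
  haveI := Fact.mk hr
  refine ⟨R, r1.ne', r2, r3, r4, a, r, hr, pResidualOf_eq_bot_iff.1 ((r4 _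
    (le_normalizer_pResidualOf_of r3) (pResidualOf_le _ _)).resolve_right fun e => ?_)⟩
  obtain ⟨x, hx, o⟩ := exists_orderOf_eq_prime d
  have := ab_res (p := r) a (e.ge hx)
  rw [o, Nat.coprime_self] at this
  exact hr.ne_one this

variable (hP : IsPGroup p P) (hc : (Nat.card H).Coprime p)
include hP hc

theorem cop (h : K ≤ H) : (Nat.card P).Coprime (Nat.card K) :=
  (coprime_card_of_isPGroup hP (hc.coprime_dvd_left (card_dvd_of_le h))).symm

theorem fix (h : K ≤ H) (hn : P ≤ 𝐍[K]) {x : G} (hx : ∀ a ∈ P, x⁻¹ * (a * x * a⁻¹) ∈ K) :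
    ∃ n ∈ K, x * n ∈ 𝐂[P] :=
  exists_fixed_in_coset hn (cop hP hc h) (.inl (isSolvable_of_isPGroup hP)) hx

theorem Kh_comm {h : G} (hh : Kh P h ≤ H) : Kh P h ≤ ⁅Kh P h, P⁆ := by
  obtain ⟨n, h1, h2⟩ := fix hP hc hh (Kh_norm h) fun a ha => gen_mem ha h
  refine Kh_le_iff.2 fun y hy => ?_
  convert commutator_mem_commutator h1 hy using 1
  calc _ = n * (h * n)⁻¹ * (y * (h * n)) * n⁻¹ * y⁻¹ := by group
    _ = _ := by rw [mem_centralizer_iff'.1 h2 y hy, commutatorElement_def]; group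

theorem cc (h : K ≤ H) (hn : P ≤ 𝐍[K]) : ⁅⁅K, P⁆, P⁆ = ⁅K, P⁆ :=
  commutator_commutator_eq_of_pElementClosure (p := p)
    ((pElementClosure_le _ _).antisymm (le_pElementClosure hP le_rfl))
    (hc.coprime_dvd_left (card_dvd_of_le ((commutator_le_left_of_le_normalizer hn).trans h)))

theorem sup_fix {B L : Subgroup G} (h : A ≤ H) (h1 : P ≤ 𝐍[A]) (h2 : P ≤ 𝐍[B]) (h3 : A ≤ 𝐍[B])
    (a : A ⊓ 𝐂[P] ≤ L) (b : B ⊓ 𝐂[P] ≤ L) : (A ⊔ B) ⊓ 𝐂[P] ≤ L := by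
  intro v hv
  obtain ⟨v1, v2⟩ := mem_inf.1 hv
  obtain ⟨s, hs, t, ht, rfl⟩ := (mem_sup_of_le_normalizer_right h3).1 v1
  obtain ⟨n, n1, n2⟩ := fix hP hc (inf_le_left.trans h) (le_normalizer_inf h1 h2) (x := s) fun y hy =>
    mem_inf.2 ⟨mul_mem (inv_mem hs) (conj_mem_of_mem_normalizer (h1 hy) hs), by
      convert mul_mem ht (inv_mem (conj_mem_of_mem_normalizer (h2 hy) ht)) using 1
      calc _ = s⁻¹ * (y * (s * t)) * t⁻¹ * y⁻¹ := by group
        _ = _ := by rw [mem_centralizer_iff'.1 v2 y hy]; group⟩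
  convert mul_mem (a ⟨mul_mem hs n1.1, n2⟩) (b (x := n⁻¹ * t) (mem_inf.2 ⟨B.mul_mem (B.inv_mem n1.2) ht, ?_⟩)) using 1
  · group
  · convert mul_mem (inv_mem n2) v2 using 1; group

theorem pull {G' : Type*} [Group G'] (f : G →* G') (hn : P ≤ 𝐍[H])
    (h : ⁅H.map f, P.map f⁆ ⊓ 𝐂[P.map f] ≤ LL (P.map f) (H.map f)) :
    ⁅H, P⁆ ⊓ 𝐂[P] ≤ LL P H ⊔ (H ⊓ f.ker) ⊓ 𝐂[P] := by
  have c := commutator_le_left_of_le_normalizer hn
  have k : LL (P.map f) (H.map f) ≤ (LL P H).map f := iSup_le <| by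
    rintro ⟨_, g, hg, rfl⟩ w hw
    obtain ⟨a, b⟩ := mem_inf.1 hw
    rw [← Kh_map] at a
    obtain ⟨m, hm, rfl⟩ := a
    obtain ⟨n, n1, n2⟩ := fix hP hc (inf_le_left.trans ((Kh_le hg).trans c))
      (le_normalizer_inf (Kh_norm g) (le_top.trans (top_le_normalizer f.ker))) (x := m) fun y hy =>
        mem_inf.2 ⟨(Kh P g).mul_mem ((Kh P g).inv_mem hm) (conj_mem_of_mem_normalizer (Kh_norm g hy) hm), by
          have := mem_centralizer_iff'.1 b _ (mem_map_of_mem f hy)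
          simp [this]⟩
    exact ⟨_, le_LL hg ⟨mul_mem hm n1.1, n2⟩, by rw [map_mul, n1.2, mul_one]⟩
  intro v hv
  obtain ⟨v1, v2⟩ := mem_inf.1 hv
  obtain ⟨l, l1, l2⟩ := k (h ⟨map_commutator H P f ▸ mem_map_of_mem f v1,
    map_le_centralizer_map f le_rfl (mem_map_of_mem f v2)⟩)
  have l3 := mem_inf.1 (LL_le hn l1)
  rw [← mul_inv_cancel_left l v]
  exact mul_mem (mem_sup_left l1) (mem_sup_right (mem_inf.2 ⟨mem_inf.2
    ⟨mul_mem (inv_mem l3.1) (c v1), by simp [l2]⟩, mul_mem (inv_mem l3.2) v2⟩))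

end Cfsg.Agent.H23F
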