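import Cfsg.Agent.H23.Fl1

/-! Flavell's theorem on the fixed points of coprime action. -/

set_option autoImplicit false
set_option linter.style.haveILetI false
set_option linter.unusedSectionVars false

namespace Cfsg.Agent.H23F

open Subgroup H24
open scoped commutatorElement

universe u

variable {G : Type u} [Group G] [Finite G] {p : ℕ} [hp : Fact p.Prime] {x : G} {H : Subgroup G}

theorem der_le {A B D : Subgroup G} [D.Normal] (h1 : ⁅A, A ⊔ B⁆ ≤ D) (h2 : B ≤ 𝐂[B]) :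
    ⁅A ⊔ B, A ⊔ B⁆ ≤ D := by
  have n : ∀ K : Subgroup G, K ≤ 𝐍[D] := fun _ => le_top.trans (top_le_normalizer D)
  refine commutator_sup_left_le (n _) (n _) h1 (commutator_sup_right_le (n _) (n _) ?_
    ((le_centralizer_iff_commutator.1 h2).le.trans bot_le))
  rw [commutator_comm]; exact (commutator_mono le_rfl le_sup_right).trans h1

/-- a minimal counterexample -/
structure MC (p : ℕ) (x : G) (H : Subgroup G) : Prop where
  odd : p ≠ 2
  px : x ^ p = 1
  cop : (Nat.card H).Coprime p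
  top : H ⊔ zpowers x = ⊤
  nH : H.Normal
  eq : ⁅H, zpowers x⁆ = H
  sub : ∀ M < H, zpowers x ≤ 𝐍[M] → ⁅M, zpowers x⁆ ⊓ 𝐂[zpowers x] ≤ LL (zpowers x) H
  quo : ∀ V : Subgroup G, V.Normal → V ≠ ⊥ → V ≤ H →
    H ⊓ 𝐂[zpowers x] ≤ LL (zpowers x) H ⊔ V ⊓ 𝐂[zpowers x]
  nc : ¬ H ⊓ 𝐂[zpowers x] ≤ LL (zpowers x) H

theorem nn {V : Subgroup G} (h : V.Normal) (K : Subgroup G) : K ≤ 𝐍[V] :=
  le_top.trans (top_le_normalizer V)

namespace MC

variable (h : MC p x H) {A V : Subgroup G} {g : G}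
include h

theorem pg : IsPGroup p (zpowers x) := isPGroup_zpowers (k := 1) (by rw [pow_one, h.px])

theorem sq : zpowers (x * x) = zpowers x := by
  refine le_antisymm (zpowers_le.2 (mul_mem (mem_zpowers x) (mem_zpowers x))) (zpowers_le.2
    (mem_of_pow_mem_of_coprime (n := 2) (by rw [pow_two]; exact mem_zpowers _) ?_))
  exact ((Nat.coprime_primes hp.out Nat.prime_two).2 h.odd).coprime_dvd_left
    (orderOf_dvd_of_pow_eq_one h.px)

theorem nrm (a : H ≤ 𝐍[V]) (b : zpowers x ≤ 𝐍[V]) : V.Normal :=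
  top_le_normalizer_iff.1 (h.top ▸ sup_le a b)

theorem kle (hg : g ∈ H) : Kh (zpowers x) g ≤ H := (Kh_le hg).trans h.eq.le

theorem bot (n : V.Normal) (h1 : V ≤ H) (h2 : V ⊓ 𝐂[zpowers x] ≤ LL (zpowers x) H) : V = ⊥ :=
  by_contra fun e => h.nc ((h.quo V n e h1).trans (sup_le le_rfl h2))

theorem bot' (n : V.Normal) (hg : g ∈ H) (h1 : V ≤ Kh (zpowers x) g) : V = ⊥ :=
  h.bot n (h1.trans (h.kle hg)) ((inf_le_inf_right _ h1).trans (le_LL hg))

theorem comm_le {B : Subgroup G} (n : A.Normal) (h1 : A ⊔ B < H) (h2 : zpowers x ≤ 𝐍[B])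
    (h3 : B ≤ ⁅B, zpowers x⁆) : ⁅A, B⁆ ⊓ 𝐂[zpowers x] ≤ LL (zpowers x) H :=
  (inf_le_inf_right _ ((commutator_mono le_sup_left (h3.trans (commutator_mono le_sup_right le_rfl))).trans
    (commutator_le_right_of_le_normalizer (left_le_normalizer_commutator _ _)))).trans
    (h.sub _ h1 (le_normalizer_sup (nn n _) h2))

theorem sig (n : A.Normal) (h1 : A ≤ H) (h2 : A ≤ 𝐂[A]) (h3 : ⁅A, H⁆ ≠ ⊥) :
    ∃ g ∈ H, A ⊔ Kh (zpowers x) g = H := by
  by_contra! k
  obtain ⟨M, ⟨m1, m2, m3⟩, hM⟩ := Set.exists_max_image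
    {M : Subgroup G | M ≤ A ∧ zpowers x ≤ 𝐍[M] ∧ M ⊓ 𝐂[zpowers x] ≤ LL (zpowers x) H}
    (fun M => Nat.card M) (Set.toFinite _) ⟨⊥, bot_le, nn inferInstance _, by simp⟩
  have a : ∀ g : H, ⁅A, Kh (zpowers x) g⁆ ≤ M := fun g => by
    have l := commutator_le_left_of_le_normalizer (nn n (Kh (zpowers x) g))
    have n1 := le_normalizer_commutator (nn n _) (Kh_norm (P := zpowers x) g)
    refine sup_eq_left.1 (eq_of_le_of_card_le le_sup_left (hM _ ⟨sup_le m1 l, le_normalizer_sup m2 n1,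
      sup_fix h.pg h.cop (m1.trans h1) m2 n1 (le_normalizer_of_le_centralizer
        (m1.trans (h2.trans (centralizer_anti l)))) m3 (h.comm_le n ((sup_le h1 (h.kle g.2)).lt_of_ne
          (k g g.2)) (Kh_norm _) (Kh_comm h.pg h.cop (h.kle g.2)))⟩)).symm
  have b : ⁅A, H⁆ ≤ M := (commutator_mono le_rfl (h.eq.ge.trans le_Kh)).trans
    (commutator_iSup_right_le (fun g => le_normalizer_of_commutator_le m1 (a g)) a)
  haveI := h.nH
  exact h3 (h.bot inferInstance (b.trans (m1.trans h1)) ((inf_le_inf_right _ b).trans m3))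

theorem nrm2 (e : A ⊔ Kh (zpowers x) g = H) (a : A ≤ 𝐍[V]) (b : Kh (zpowers x) g ⊔ zpowers x ≤ 𝐍[V]) :
    V.Normal := h.nrm (e ▸ sup_le a (le_sup_left.trans b)) (le_sup_right.trans b)

theorem spl (n : A.Normal) (h2 : A ≤ 𝐂[A]) (hg : g ∈ H) (e : A ⊔ Kh (zpowers x) g = H) :
    Kh (zpowers x) g ⊓ A = ⊥ ∧ Kh (zpowers x) g ⊓ 𝐂[A] = ⊥ := by
  have k := sup_le le_normalizer (Kh_norm (P := zpowers x) g)
  exact ⟨h.bot' (h.nrm2 e (le_normalizer_of_le_centralizer (h2.trans (centralizer_anti inf_le_right)))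
    (le_normalizer_inf k (nn n _))) hg inf_le_left, h.bot' (h.nrm2 e (le_normalizer_of_le_centralizer
      (le_centralizer_iff.1 inf_le_right)) (le_normalizer_inf k (nn inferInstance _))) hg inf_le_left⟩

theorem frob (n : V.Normal) (h2 : V ≤ 𝐂[V]) (hg : g ∈ H) (e : V ⊔ Kh (zpowers x) g = H)
    (hK : Kh (zpowers x) g ≤ 𝐂[Kh (zpowers x) g]) (hf : V ⊓ 𝐂[Kh (zpowers x) g] = ⊥) :
    Kh (zpowers x) g = ⊥ := by
  have hV : V ≤ H := e ▸ le_sup_left
  have kx := Kh_norm (P := zpowers x) g (mem_zpowers x)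
  have kc := Kh_comm h.pg h.cop (h.kle hg)
  have sj := fun y a b u hu => (img (K := Kh (zpowers x) g) (D := ⊥) (y := y)
    (le_centralizer_iff_commutator.1 hK).le (nn inferInstance _) a (nn inferInstance ⊤ (mem_top _)) b u
      hu).imp fun s hs => And.intro hs.1 (inv_mul_eq_one.1 hs.2)
  letI : CommGroup V :=
    { (inferInstance : Group V) with mul_comm := fun a b => Subtype.ext (h2 b.2 a a.2) }
  let ρ : G →* AddMonoid.End (Additive V) := (monoidEndToAdditive V).toMonoidHom.comp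
    ((MulDistribMulAction.toMonoidEnd (MulAut V) V).comp MulAut.conjNormal)
  have hρ : ∀ a v, ρ a (.ofMul v) = .ofMul (MulAut.conjNormal a v) := fun _ _ => rfl
  have x2 := mul_mem (mem_zpowers x) (mem_zpowers x)
  have k1 := gen_mem (mem_zpowers x) g
  have k2 := gen_mem x2 g
  have := ded ρ (fun B hB => ?_) hK kx k1 k2 (sj x kx kc) (sj _ (mul_mem kx kx) (h.sq.symm ▸ kc)) ?_
  · have c : g⁻¹ * (x * g * x⁻¹) ∈ (⊥ : Subgroup G) := (h.spl n h2 hg e).2 ▸ mem_inf.2 ⟨k1,
      mem_centralizer_iff_conj.2 fun v hv => congrArg (fun f : AddMonoid.End _ =>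
        (Additive.toMul (f (.ofMul ⟨v, hv⟩))).1) this⟩
    have c' : zpowers x ≤ centralizer {g} := zpowers_le.2 (mem_centralizer_singleton_iff.2
      (mul_inv_eq_iff_eq_mul.1 (inv_mul_eq_one.1 c).symm))
    refine eq_bot_iff.2 (Kh_le_iff.2 fun y hy => ?_)
    rw [mem_centralizer_singleton_iff.1 (c' hy)]; simp
  · ext v
    have : (Additive.toMul (B v)).1 ∈ (⊥ : Subgroup G) := hf ▸ mem_inf.2 ⟨(Additive.toMul (B v)).2,
      le_centralizer_iff.1 (fun u hu => mem_centralizer_iff_conj.2 fun w hw => by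
        rw [mem_zpowers_iff] at hw
        obtain ⟨j, rfl⟩ := hw
        rw [← conj_zpow]
        exact congrArg (fun f : AddMonoid.End _ => (Additive.toMul (f v)).1 ^ j) (hB u hu))
        (mem_zpowers _)⟩
    exact mem_bot.1 this
  · refine AddMonoidHom.ext fun v => ?_
    obtain ⟨v, rfl⟩ := Additive.ofMul.surjective v
    have gv := mul_mem hg (hV v.2)
    have e' : V ⊔ Kh (zpowers x) (g * v) = H := (sup_le hV (h.kle gv)).antisymm (e.ge.trans
      (sup_le le_sup_left (Kh_le_iff.2 fun y hy => by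
        convert mul_mem (mul_mem (mem_sup_left v.2) (mem_sup_right (gen_mem hy (g * v))))
          (mem_sup_left (inv_mem (n.conj_mem _ v.2 y))) using 1; group)))
    have c : ⁅_, _⁆ ∈ (⊥ : Subgroup G) := (h.spl n h2 gv e').1 ▸ mem_inf.2 ⟨commutator_le_of_le le_rfl le_rfl
      (commutator_mem_commutator (gen_mem (mem_zpowers x) _) (gen_mem x2 _)), der_le
        (commutator_le_left _ _) hK (e.symm ▸ commutator_mem_commutator
          (h.kle gv (gen_mem (mem_zpowers x) _)) (h.kle gv (gen_mem x2 _)))⟩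
    have c1 := commutatorElement_eq_one_iff_mul_comm.1 c
    have c2 := mem_centralizer_iff'.1 (hK k2) _ k1
    have i : ∀ y, (g * v)⁻¹ * (y * (g * v) * y⁻¹) = (v⁻¹ * MulAut.conjNormal
        (g⁻¹ * (y * g * y⁻¹) * y) v).1 * (g⁻¹ * (y * g * y⁻¹)) := fun y => by
      simp only [coe_mul, coe_inv, MulAut.conjNormal_apply]; group
    rw [i, i] at c1
    generalize g⁻¹ * (x * g * x⁻¹) = k at *
    generalize g⁻¹ * (x * x * g * (x * x)⁻¹) = l at *
    have j : ∀ y, (ρ y - 1) (.ofMul v) = .ofMul (v⁻¹ * MulAut.conjNormal y v) := fun y =>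
      (sub_eq_neg_add _ _)
    show (1 - ρ l) ((ρ (k * x) - 1) _) = (1 - ρ k) ((ρ (l * (x * x)) - 1) _)
    rw [j, j]
    generalize v⁻¹ * MulAut.conjNormal (k * x) v = a at *
    generalize v⁻¹ * MulAut.conjNormal (l * (x * x)) v = b at *
    refine sub_eq_sub_iff_add_eq_add.2 (congrArg Additive.ofMul (Subtype.ext ?_))
    show a * (k * b * k⁻¹) = b * (l * a * l⁻¹)
    calc _ = a * k * (b * l) * (k * l)⁻¹ := by group
      _ = _ := by rw [c1, c2]; group

variable [Group.IsSolvable G]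

theorem exR (n : A.Normal) (h1 : A ≤ H) (h2 : A ≤ 𝐂[A]) (h3 : ⁅A, H⁆ ≠ ⊥) :
    ∃ g ∈ H, A ⊔ Kh (zpowers x) g = H ∧ ∃ R, R ≠ ⊥ ∧ R ≤ Kh (zpowers x) g ∧
      Kh (zpowers x) g ⊔ zpowers x ≤ 𝐍[R] ∧ R ≤ 𝐂[R] ∧ ¬ A ≤ 𝐂[R] ∧ ∃ r, r.Prime ∧ IsPGroup r R := by
  obtain ⟨g, hg, e⟩ := h.sig n h1 h2 h3
  obtain ⟨R, r1, r2, r3, -, r4, r5⟩ := minN (D := Kh (zpowers x) g) (fun a => h3 (by
    rw [← e, a, sup_bot_eq]; exact le_centralizer_iff_commutator.1 h2))
    (sup_le le_normalizer (Kh_norm g))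
  exact ⟨g, hg, e, R, r1, r2, r3, r4, fun a => r1 (eq_bot_iff.2 ((le_inf r2
    (le_centralizer_iff.1 a)).trans (h.spl n h2 hg e).2.le)), r5⟩

omit h in
theorem cop2 {q r : ℕ} [Fact q.Prime] (hr : r.Prime) (e : r ≠ q) {R : Subgroup G} (h : IsPGroup r R) :
    (Nat.card R).Coprime q := by
  haveI := Fact.mk hr
  exact (coprime_card_of_isPGroup h ((Nat.coprime_primes Fact.out hr).2 e.symm)).symm

theorem c1 (n : V.Normal) (h0 : V ≠ ⊥) (h1 : V ≤ H) (h2 : V ≤ 𝐂[V])
    (hm : ∀ Z, ⊤ ≤ 𝐍[Z] → Z ≤ V → Z = ⊥ ∨ Z = V) {q : ℕ} [Fact q.Prime] (hq : IsPGroup q V) : V ≤ 𝐂[H] := by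
  by_contra h3
  obtain ⟨g, hg, e, R, r1, r2, r3, r4, r5, r, hr, r6⟩ :=
    h.exR n h1 h2 (mt le_centralizer_iff_commutator.2 h3)
  have f : V ⊓ 𝐂[R] = ⊥ := (hm _ (nn (h.nrm2 e (le_normalizer_of_le_centralizer (h2.trans
    (centralizer_anti inf_le_left))) (le_normalizer_inf (nn n _) (le_normalizer_centralizer r3))) _)
    inf_le_left).resolve_right fun a => r5 (inf_eq_left.1 a)
  have c : ∀ S ≤ R, (Nat.card S).Coprime q := fun S a => cop2 hr (fun e =>
    inf_centralizer_ne_bot hq (e ▸ r6) (nn n _) h0 f) (r6.to_le a)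
  have rH := r2.trans (h.kle hg)
  have rP := le_sup_right.trans r3
  have s1 := commutator_le_left_of_le_normalizer rP
  have s2 := right_le_normalizer_commutator R (zpowers x)
  rcases (sup_le h1 (s1.trans rH)).eq_or_lt with a | a
  · have k : Kh (zpowers x) g ≤ R := by
      rw [← inf_eq_right.2 (h.kle hg), ← a, sup_comm, sup_inf_of_le_normalizer_right (nn n _) (s1.trans r2),
        inf_comm, (h.spl n h2 hg e).1, sup_bot_eq]
      exact s1
    rw [← r2.antisymm' k] at r4 f r1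
    exact r1 (h.frob n h2 hg e r4 f)
  refine h0 (h.bot n h1 ?_)
  rw [← commutator_sup_inf_centralizer_of_isPGroup hq (nn n _) (c _ s1)]
  refine sup_fix h.pg h.cop ((commutator_le_left _ _).trans h1) (le_normalizer_commutator (nn n _) s2)
    (le_normalizer_inf (nn n _) (le_normalizer_centralizer s2)) (le_normalizer_of_le_centralizer
      ((commutator_le_left _ _).trans (h2.trans (centralizer_anti inf_le_left))))
    (h.comm_le n a s2 (cc h.pg h.cop rH rP).ge) ?_
  rw [← commutator_sup_inf_centralizer_of_isPGroup (A := R ⊓ 𝐂[zpowers x]) (hq.to_inf_left.to_inf_left)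
    (le_normalizer_inf (le_normalizer_inf (nn n _) (le_normalizer_of_le (inf_le_left.trans (r4.trans
      (centralizer_anti s1))))) (le_normalizer_of_le inf_le_right)) (c _ inf_le_left)]
  refine sup_le ((commutator_mono le_rfl ((inf_le_inf_right _ r2).trans (le_LL hg))).trans
    (commutator_le_right_of_le_normalizer (le_trans (inf_le_inf_right _ (inf_le_left.trans h1)) LL_norm)))
    (le_trans (le_trans ?_ f.le) bot_le)
  conv_rhs => rw [← commutator_sup_inf_centralizer_of_isPGroup' h.pg rP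
    (h.cop.coprime_dvd_left (card_dvd_of_le rH)), centralizer_sup, ← inf_assoc]
  exact inf_le_inf_right _ inf_le_left

theorem comp (z2 : H ⊓ 𝐂[H] ≤ 𝐂[zpowers x]) (z3 : ∀ g ∈ H, Kh (zpowers x) g ⊓ (H ⊓ 𝐂[H]) = ⊥)
    (h1 : ⁅H, H⁆ ≤ H ⊓ 𝐂[H]) : H = ⊥ := by
  haveI := h.nH
  have m : ∀ a ∈ H, x * a * x⁻¹ ∈ H := fun a ha => h.nH.conj_mem a ha x
  have z : ∀ a ∈ H, ∀ b ∈ H, ∀ c ∈ H, c * ⁅a, b⁆ = ⁅a, b⁆ * c := fun a ha b hb =>
    mem_centralizer_iff'.1 (h1 (commutator_mem_commutator ha hb)).2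
  have k : ∀ a ∈ H, a * (x * a * x⁻¹) = x * a * x⁻¹ * a := fun a ha => by
    obtain ⟨s, hs, e⟩ := img h1 (nn inferInstance _) (nn h.nH ⊤ (mem_top x))
      (nn inferInstance ⊤ (mem_top x)) h.eq.ge a ha
    have k1 := gen_mem (mem_zpowers x) s
    have k2 := conj_mem_of_mem_normalizer (Kh_norm s (mem_zpowers x)) k1
    have c : ⁅_, _⁆ ∈ (⊥ : Subgroup G) := z3 s hs ▸ mem_inf.2 ⟨commutator_le_of_le le_rfl le_rfl
      (commutator_mem_commutator k1 k2), h1 (commutator_mem_commutator (h.kle hs k1) (h.kle hs k2))⟩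
    have c1 : Commute _ _ := commutatorElement_eq_one_iff_mul_comm.1 c
    have c2 : Commute _ _ := mem_centralizer_iff'.1 e.2 _ (h.kle hs k1)
    have c3 : Commute _ _ := mem_centralizer_iff'.1 e.2 _ (h.kle hs k2)
    have c4 := mem_centralizer_iff'.1 (z2 e) x (mem_zpowers x)
    rw [← mul_inv_cancel_left (s⁻¹ * (x * s * x⁻¹)) a]
    generalize (s⁻¹ * (x * s * x⁻¹))⁻¹ * a = w at *
    generalize s⁻¹ * (x * s * x⁻¹) = t at *
    rw [← conj_mul, c4, mul_inv_cancel_right]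
    exact (c1.mul_right c2).mul_left (c3.symm.mul_right (Commute.refl w))
  have k2 : ∀ a ∈ H, ∀ b ∈ H, ⁅b, x * a * x⁻¹⁆ = ⁅x * b * x⁻¹, a⁆ := fun a ha b hb => by
    have e := k _ (mul_mem ha hb)
    rw [← conj_mul] at e
    have a1 := k a ha
    have b1 := k b hb
    have a2 := z b hb _ (m a ha) a ha
    have b2 := z _ (m b hb) a ha _ (m a ha)
    generalize x * a * x⁻¹ = c at *
    generalize x * b * x⁻¹ = d at *
    refine mul_right_cancel (b := a * c * (b * d)) ?_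
    calc _ = ⁅b, c⁆ * a * c * b * d := by group
      _ = a * b * (c * d) := by rw [← a2, commutatorElement_def]; group
      _ = c * ⁅d, a⁆ * a * (d * b) := by rw [e, commutatorElement_def]; group
      _ = _ := by rw [b2, ← b1, a1]; group
  have k3 : ⁅H, zpowers (x * x)⁆ ≤ H ⊓ 𝐂[H] := commutator_zpowers_right_le
    (nn inferInstance ⊤ (mem_top _)) fun b hb => mem_inf.2 ⟨commutator_le_left H ⊤
      (commutator_mem_commutator hb (mem_top _)), mem_centralizer_iff'.2 fun a ha => by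
        have e := k2 a ha _ (m _ (inv_mem hb))
        rw [← conjugate_commutatorElement, mem_centralizer_iff'.1 (z2 (h1 (commutator_mem_commutator
          (inv_mem hb) ha))) x (mem_zpowers x), mul_inv_cancel_right] at e
        calc _ = b * ⁅b⁻¹, a⁆ * a * (x * (x * b⁻¹ * x⁻¹) * x⁻¹) := by
              simp only [commutatorElement_def]; group
          _ = _ := by rw [e]; simp only [commutatorElement_def]; group⟩
  rw [h.sq, h.eq] at k3
  rw [← h.eq]
  exact le_centralizer_iff_commutator.1 (k3.trans z2)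

theorem c2 : H = ⊥ := by
  by_contra h0
  haveI := h.nH
  have z1 : H ⊓ 𝐂[H] < H := inf_le_left.lt_of_ne fun e => h0 (eq_bot_iff.2 (h.eq.ge.trans (le_Kh.trans
    (iSup_le fun g => (h.bot' (h.nrm (le_normalizer_of_le_centralizer ((inf_eq_left.1 e).trans
      (centralizer_anti (h.kle g.2)))) (Kh_norm _)) g.2 le_rfl).le))))
  have n0 : ∀ A ≤ H ⊓ 𝐂[H], H ≤ 𝐍[A] := fun A a =>
    le_normalizer_of_le_centralizer (le_centralizer_iff.1 (a.trans inf_le_right))
  have z2 : H ⊓ 𝐂[H] ≤ 𝐂[zpowers x] := le_centralizer_iff_commutator.2 (h.bot (h.nrm (n0 _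
    (commutator_le_left _ _)) (right_le_normalizer_commutator _ _))
    ((commutator_le_left _ _).trans inf_le_left) (h.sub _ z1 (nn inferInstance _)))
  have n1 : ∀ A ≤ H ⊓ 𝐂[H], A.Normal := fun A a => h.nrm (n0 A a)
    (le_normalizer_of_le_centralizer (le_centralizer_iff.1 (a.trans z2)))
  have z3 : LL (zpowers x) H ⊓ (H ⊓ 𝐂[H]) = ⊥ := h.bot (n1 _ inf_le_right)
    (inf_le_right.trans inf_le_left) (inf_le_left.trans inf_le_left)
  have U : ∀ N : Subgroup G, N.Normal → N ≠ ⊥ → N ≤ H → H ⊓ 𝐂[H] ≤ N ∧ H ⊓ 𝐂[H] ≠ ⊥ ∧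
      ∃ q, q.Prime ∧ IsPGroup q (H ⊓ 𝐂[H] : Subgroup G) := fun N n a b => by
    obtain ⟨V, v1, v2, v3, v4, v5, q, hq, v6⟩ := minN a (nn n ⊤)
    haveI := Fact.mk hq
    have v7 := top_le_normalizer_iff.1 v3
    have v8 := le_inf (v2.trans b) (h.c1 v7 v1 (v2.trans b) v5 v4 v6)
    have : H ⊓ 𝐂[H] ≤ V := by
      have := le_inf ((le_inf inf_le_left z2).trans ((h.quo V v7 v1 (v2.trans b)).trans
        (sup_le_sup_left inf_le_left _))) le_rfl
      rwa [sup_comm, sup_inf_of_le_normalizer_left (nn v7 _) v8, z3, sup_bot_eq] at this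
    exact ⟨this.trans v2, fun e => v1 (eq_bot_iff.2 (v8.trans e.le)), q, hq, v6.to_le this⟩
  obtain ⟨-, z4, q, hq, z5⟩ := U H h.nH h0 le_rfl
  haveI := Fact.mk hq
  have cp := mt (h.comp z2 fun g hg => h.bot' (n1 _ inf_le_right) hg inf_le_left) h0
  have zH : H ⊓ 𝐂[H] ≤ 𝐂[H] := inf_le_right
  have zc : ∀ A ≤ H, A ≤ 𝐂[H] → A ≤ H ⊓ 𝐂[H] := fun A => le_inf
  generalize H ⊓ 𝐂[H] = Z at *
  replace U := fun N a b c => (U N a b c).1
  have hE : ∀ E : Subgroup G, E.Normal → Z < E → E ≤ H → IsPGroup q E → E ⊓ 𝐂[E] ≤ Z → E = H :=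
    fun E n a b c d => by_contra fun e => by
    have y := commutator_le_left E (zpowers x)
    have y1 := inf_centralizer_ne_bot (c.to_le y) c (left_le_normalizer_commutator _ _) fun k =>
      a.not_ge (zc E b (le_centralizer_iff.1 (h.eq.ge.trans ((commutator_mono le_rfl
        (le_centralizer_iff_commutator'.2 k)).trans (commutator_le_right _ _)))))
    have y2 := (inf_le_inf_right _ y).trans d
    exact z4 (eq_bot_iff.2 ((le_inf ((le_inf ((U _ (n1 _ y2) y1 (y2.trans z1.le)).trans inf_le_left)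
      z2).trans (h.sub E (b.lt_of_ne e) (nn n _))) le_rfl).trans z3.le))
  obtain ⟨N, a1, a2, a3, a4⟩ := exists_min_normal_between z1 (nn h.nH ⊤)
  haveI n := top_le_normalizer_iff.1 a3
  have a5 : ∀ A : Subgroup G, A.Normal → A < N → A ≤ Z := fun A k l => by
    by_cases e : A = ⊥
    · exact e ▸ bot_le
    · exact ((a4 A (nn k _) (U A k e (l.le.trans a2)) l.le).resolve_right l.ne).le
  have a0 : N ≠ ⊥ := (bot_le.trans_lt a1).ne'
  have a6 : IsPGroup q N := pResidualOf_eq_bot_iff.1 (by_contra fun e => z4 (eq_bot_iff.2 fun z hz => by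
    have l := pResidualOf_le q N
    have := le_centralizer_of_stabilizes (pResidualOf_idem q N) z5 ((commutator_mono le_rfl l).trans
      (a5 _ inferInstance (Group.IsSolvable.commutator_lt_of_ne_bot a0)))
      (l.trans (a2.trans (le_centralizer_iff.1 zH)))
    obtain ⟨k, hk⟩ := isPGroup_iff.1 z5 z hz
    exact mem_of_pow_mem_of_coprime (n := q ^ k) hk ((ab_res (this.trans (centralizer_anti l))
      ((pResidualOf_idem q N).ge (U _ inferInstance e (l.trans a2) hz))).pow_right k)))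
  rcases (inf_le_left : N ⊓ 𝐂[N] ≤ N).eq_or_lt with b | b
  swap
  · refine cp ?_
    rw [← hE N n a1 a2 a6 (a5 _ inferInstance b)]
    exact a5 _ inferInstance (Group.IsSolvable.commutator_lt_of_ne_bot a0)
  rw [inf_eq_left] at b
  obtain ⟨g, hg, e, R, r1, r2, r3, r4, r5, r, hr, r6⟩ := h.exR n a2 b fun k =>
    a1.not_ge (zc N a2 (le_centralizer_iff_commutator.2 k))
  have rH := r2.trans (h.kle hg)
  by_cases e1 : r = q
  · subst e1
    have pE := isPGroup_sup_of_le_normalizer_left a6 r6 (nn n _)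
    haveI nE := h.nrm2 e (le_normalizer_of_le le_sup_left) (le_normalizer_sup (nn n _) r3)
    have e2 := hE _ nE (a1.trans_le le_sup_left) (sup_le a2 rH) pE (le_trans (le_inf (by
      refine (inf_le_inf_left _ (centralizer_anti le_sup_left)).trans ?_
      rw [sup_inf_of_le_normalizer_left (nn n _) b]
      exact sup_le le_rfl ((inf_le_inf_right _ r2).trans ((h.spl n b hg e).2.le.trans bot_le)))
      inf_le_right) (a5 _ inferInstance (inf_le_left.lt_of_ne fun k =>
        r5 ((inf_eq_left.1 k).trans (centralizer_anti le_sup_right)))))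
    haveI := n1 Z le_rfl
    exact cp (e2 ▸ der_le (a5 _ inferInstance (commutator_lt a6 pE (nn n _) a0)) r4)
  haveI := isMulCommutative_iff_le_centralizer.2 b
  exact z4 (eq_bot_iff.2 ((le_inf (le_inf a1.le (zH.trans (centralizer_anti rH))) (U _ (h.nrm2 e
    (left_le_normalizer_commutator _ _) (le_normalizer_commutator (nn n _) r3))
    (mt le_centralizer_iff_commutator.2 r5) ((commutator_le_left _ _).trans a2))).trans
    (H1.inf_centralizer_inf_commutator_eq_bot (nn n _)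
      (coprime_card_of_isPGroup a6 (cop2 hr e1 r6))).le))

end MC

theorem flavell (hp2 : p ≠ 2) (n : ℕ) : ∀ (G : Type u) [Group G] [Finite G] [Group.IsSolvable G] (x : G)
    (H : Subgroup G), Nat.card H = n → x ^ p = 1 → (Nat.card H).Coprime p → zpowers x ≤ 𝐍[H] →
    ⁅H, zpowers x⁆ ⊓ 𝐂[zpowers x] ≤ LL (zpowers x) H := by
  induction n using Nat.strong_induction_on with | _ n ih => ?_
  suffices k : ∀ (G : Type u) [Group G] [Finite G] [Group.IsSolvable G] (x : G) (H : Subgroup G),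
      Nat.card H = n → x ^ p = 1 → (Nat.card H).Coprime p → zpowers x ≤ 𝐍[H] → H ⊔ zpowers x = ⊤ →
      ⁅H, zpowers x⁆ ⊓ 𝐂[zpowers x] ≤ LL (zpowers x) H by
    intro G _ _ _ x H h1 h2 h3 h4
    have c := card_subgroupOf (le_sup_left : H ≤ H ⊔ zpowers x)
    have e : (zpowers (⟨x, mem_sup_right (mem_zpowers x)⟩ : (H ⊔ zpowers x : Subgroup G))).map
      (H ⊔ zpowers x).subtype = zpowers x := MonoidHom.map_zpowers _ _
    have e' := congrArg (comap (H ⊔ zpowers x).subtype) e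
    rw [comap_map_eq_self_of_injective (subtype_injective _)] at e'
    have := push (subtype_injective _) (k _ _ _ (c.trans h1) (Subtype.ext h2) (c.symm ▸ h3)
      (e' ▸ comap_le_normalizer_comap _ h4)
      (by rw [e', comap_subtype, ← subgroupOf_sup le_sup_left le_sup_right, subgroupOf_self]))
    rwa [e, map_subgroupOf_eq_of_le le_sup_left] at this
  intro G _ _ _ x H h1 h2 h3 h4 h5
  have pg : IsPGroup p (zpowers x) := isPGroup_zpowers (k := 1) (by rw [pow_one, h2])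
  have sub : ∀ M < H, zpowers x ≤ 𝐍[M] → ⁅M, zpowers x⁆ ⊓ 𝐂[zpowers x] ≤ LL (zpowers x) H :=
    fun M a b => (ih _ (h1 ▸ card_lt_of_lt a) G x M rfl h2
      (h3.coprime_dvd_left (card_dvd_of_le a.le)) b).trans (LL_mono a.le)
  rcases (commutator_le_left_of_le_normalizer h4).eq_or_lt with e | e
  swap
  · rw [← cc pg h3 le_rfl h4]; exact sub _ e (right_le_normalizer_commutator _ _)
  by_contra k
  rw [e] at k
  refine k (inf_le_left.trans ((MC.c2 ⟨hp2, h2, h3, h5, top_le_normalizer_iff.1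
    (h5 ▸ sup_le le_normalizer h4), e, sub, fun V n a b => ?_, k⟩).le.trans bot_le))
  have c := card_mul_relIndex b
  rw [← QuotientGroup.ker_mk' V, relIndex_ker, QuotientGroup.ker_mk'] at c
  have := pull pg h3 (QuotientGroup.mk' V) h4 (by
    rw [MonoidHom.map_zpowers]
    refine ih _ ?_ _ _ _ rfl (by rw [← map_pow, h2, map_one])
      (h3.coprime_dvd_left (Dvd.intro_left _ c)) (MonoidHom.map_zpowers (QuotientGroup.mk' V) x ▸ map_le_normalizer_map _ h4)
    rw [← h1, ← c]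
    exact lt_mul_of_one_lt_left Nat.card_pos ((one_lt_card_iff_ne_bot V).2 a))
  rwa [e, QuotientGroup.ker_mk', inf_eq_right.2 b] at this

theorem flavell_aut {H : Type u} [Group H] [Finite H] [Group.IsSolvable H] (hp2 : p ≠ 2)
    (hc : (Nat.card H).Coprime p) (x : MulAut H) (hx : orderOf x = p) :
    closure {c : H | ∃ h : H, ∃ i : ℕ, c = h⁻¹ * (x ^ i) h} ⊓ (x : H →* H).eqLocus (MonoidHom.id H) =
      ⨆ h : H, closure {c : H | ∃ i : ℕ, c = h⁻¹ * (x ^ i) h} ⊓ (x : H →* H).eqLocus (MonoidHom.id H) := by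
  refine le_antisymm ?_ (iSup_le fun h => inf_le_inf_right _ (closure_mono fun c hc => ⟨h, hc⟩))
  let G := H ⋊[(zpowers x).subtype] zpowers x
  let f : H →* G := SemidirectProduct.inl
  have hf : Function.Injective f := SemidirectProduct.inl_injective
  haveI : Finite G := Finite.of_equiv _ SemidirectProduct.equivProd.symm
  haveI : Group.IsSolvable G := Group.isSolvable_of_ker_le_range f SemidirectProduct.rightHom
    SemidirectProduct.range_inl_eq_ker_rightHom.ge
  let y : G := SemidirectProduct.inr ⟨x, mem_zpowers x⟩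
  have e : ∀ (i : ℕ) h, f ((x ^ i) h) = y ^ i * f h * (y ^ i)⁻¹ := fun i h => by
    rw [← map_pow, ← map_inv]; exact SemidirectProduct.inl_aut (⟨x, mem_zpowers x⟩ ^ i : zpowers x) h
  have c : ∀ h, f h ∈ 𝐂[zpowers y] ↔ h ∈ (x : H →* H).eqLocus (MonoidHom.id H) := fun h => by
    have := e 1 h
    rw [pow_one, pow_one] at this
    rw [centralizer_zpowers, mem_centralizer_singleton_iff, eq_comm, ← mul_inv_eq_iff_eq_mul, ← this,
      hf.eq_iff]
    rfl
  have k : ∀ h, Kh (zpowers y) (f h) = (closure {c : H | ∃ i : ℕ, c = h⁻¹ * (x ^ i) h}).map f := fun h => by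
    refine le_antisymm (Kh_le_iff.2 fun z hz => ?_) (map_le_iff_le_comap.2 ((closure_le _).2 ?_))
    · obtain ⟨i, rfl⟩ := mem_powers_iff_mem_zpowers.2 hz
      exact ⟨_, subset_closure ⟨i, rfl⟩, by rw [map_mul, map_inv, e]⟩
    · rintro _ ⟨i, rfl⟩
      rw [SetLike.mem_coe, mem_comap, map_mul, map_inv, e]; exact gen_mem (pow_mem (mem_zpowers y) i) _
  haveI : f.range.Normal := by
    rw [SemidirectProduct.range_inl_eq_ker_rightHom]; infer_instance
  intro a ha
  have := flavell hp2 _ G y f.range rfl (by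
    rw [← map_pow, ← map_one SemidirectProduct.inr]; exact congrArg _ (Subtype.ext (hx ▸ pow_orderOf_eq_one x)))
    (by rwa [← Nat.card_congr (MonoidHom.ofInjective hf).toEquiv]) (nn inferInstance _)
    (mem_inf.2 ⟨(closure_le (K := ⁅f.range, zpowers y⁆.comap f)).2 (by
      rintro _ ⟨h, i, rfl⟩
      rw [SetLike.mem_coe, mem_comap, map_mul, map_inv, e]
      exact Kh_le (MonoidHom.mem_range.2 ⟨h, rfl⟩) (gen_mem (pow_mem (mem_zpowers y) i) _)) ha.1,
      (c a).2 ha.2⟩)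
  refine (mem_map_iff_mem hf).1 (iSup_le (α := Subgroup G) ?_ this)
  rintro ⟨_, h, rfl⟩ w hw
  obtain ⟨b, hb, rfl⟩ := (k h).le hw.1
  exact mem_map_of_mem f (le_iSup (fun h : H => closure {c : H | ∃ i : ℕ, c = h⁻¹ * (x ^ i) h} ⊓
    (x : H →* H).eqLocus (MonoidHom.id H)) h ⟨hb, (c b).1 hw.2⟩)

end Cfsg.Agent.H23F
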