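import Cfsg.Agent.L0.JThm
import Cfsg.Agent.L0.Sec
import Cfsg.Agent.H9.PCons

/-!
# Thompson factorization for class two Sylow 2-subgroups of S4-free groups
-/

set_option autoImplicit false

namespace Cfsg.Agent.H23

open Subgroup Cfsg.Agent.H24 Cfsg.Agent.H3 Cfsg.Agent.L0
open scoped Pointwise commutatorElement

variable {G : Type*} [Group G]

/-- elements of an abelian subgroup whose square lies in `C` -/
def sqIn (A C : Subgroup G) (hA : A ≤ 𝐂[A]) : Subgroup G where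
  carrier := {w | w ∈ A ∧ w * w ∈ C}
  one_mem' := ⟨one_mem _, by simp⟩
  mul_mem' := by
    rintro x y ⟨hx, hx'⟩ ⟨hy, hy'⟩
    refine ⟨mul_mem hx hy, ?_⟩
    have h := mem_centralizer_iff'.1 (hA hx) y hy
    have : x * y * (x * y) = x * x * (y * y) := by
      rw [mul_assoc x y, ← mul_assoc y x, h]; simp only [mul_assoc]
    rw [this]
    exact mul_mem hx' hy'
  inv_mem' := by
    rintro x ⟨hx, hx'⟩
    exact ⟨inv_mem hx, by rw [← mul_inv_rev]; exact inv_mem hx'⟩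

theorem le_normalizer_sqIn [Finite G] {A C H : Subgroup G} (hA : A ≤ 𝐂[A]) (h1 : H ≤ 𝐍[A]) (h2 : H ≤ 𝐍[C]) :
    H ≤ 𝐍[sqIn A C hA] := fun g hg => H24.mem_normalizer_of_conj_mem fun x hx =>
  ⟨conj_mem_of_mem_normalizer (h1 hg) hx.1, by
    have := conj_mem_of_mem_normalizer (h2 hg) hx.2
    rwa [show g * (x * x) * g⁻¹ = g * x * g⁻¹ * (g * x * g⁻¹) by group] at this⟩

theorem j_normal_of_class_two [Finite G] (hG : 𝐂[pCore 2 G] ≤ pCore 2 G)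
    (h4 : ¬ Involves (Equiv.Perm (Fin 4)) G) {S : Subgroup G} (hS : SylIn 2 S ⊤) (hcl : ⁅S, S⁆ ≤ 𝐂[S]) :
    𝐍[thompsonSubgroupOf 2 S] = ⊤ := by
  haveI : Fact (Nat.Prime 2) := ⟨Nat.prime_two⟩
  by_contra hM
  obtain ⟨H, ⟨hSH, hH⟩, hmin⟩ := exists_min_card (P := fun H => S ≤ H ∧ ¬ H ≤ 𝐍[thompsonSubgroupOf 2 S])
    ⟨⊤, le_top, fun h => hM (top_le_iff.1 h)⟩
  have hu : ∀ K, S ≤ K → K < H → K ≤ 𝐍[thompsonSubgroupOf 2 S] := fun K h1 h2 => by
    by_contra h3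
    exact absurd (hmin K ⟨h1, h3⟩) (not_le.2 (card_lt_of_lt h2))
  have hT : SylIn 2 S H := hS.of_le hSH le_top
  have hNS : 𝐍[S] ≤ 𝐍[thompsonSubgroupOf 2 S] := H9.normalizer_le_normalizer_thompsonOf 2 S
  have hQ0 : pCore 2 G ≤ S := hS.le_of_normalizes (isPGroup_pCore 2 G) le_top (le_norm_of_normal _ _)
  have hQ1 : pCore 2 G ≤ pCoreOf 2 H := pCore_le_pCoreOf (hQ0.trans hSH)
  have hQS : pCoreOf 2 H ≤ S := hT.pCoreOf_le
  have hCQ : 𝐂[pCoreOf 2 H] ≤ pCoreOf 2 H := (centralizer_anti hQ1).trans (hG.trans hQ1)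
  have hnQ := le_normalizer_pCoreOf 2 H
  have hZQ : 𝐂[S] ≤ pCoreOf 2 H := (centralizer_anti hQS).trans hCQ
  have hZp : IsPGroup 2 𝐂[S] := (isPGroup_pCoreOf 2 H).to_le hZQ
  by_cases hc : H ≤ 𝐂[𝐂[S]]
  · have hK : IsPGroup 2 (H ⊓ centMod (pCoreOf 2 H) 𝐂[S] : Subgroup G) := by
      refine H9.isPGroup_of_forall_coprime fun x hx hx' => ?_
      have h1 : x ∈ 𝐂[pCoreOf 2 H] := mem_centralizer_of_stabilizes hZp hx'
        ((commutator_mono le_rfl (zpowers_le.2 hx.2)).trans commutator_centMod_le) (hc hx.1)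
      obtain ⟨k, hk⟩ := isPGroup_iff.1 (isPGroup_pCoreOf 2 H) x (hCQ h1)
      have h2 := orderOf_dvd_of_pow_eq_one hk
      exact orderOf_eq_one_iff.1 (Nat.Coprime.eq_one_of_dvd (hx'.pow_right k) h2)
    have h1 : S ≤ H ⊓ centMod (pCoreOf 2 H) 𝐂[S] := le_inf hSH (le_centMod_iff.2
      ⟨le_normalizer_centralizer le_normalizer, (commutator_mono hQS le_rfl).trans hcl⟩)
    have h2 := hT.max _ hK h1 inf_le_left
    refine hH (le_trans ?_ hNS)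
    rw [← h2]
    exact le_normalizer_inf le_normalizer (le_normalizer_centMod hnQ (le_normalizer_of_le_centralizer hc))
  · have hc' : ¬ 𝐂[S] ≤ 𝐂[H] := fun h => hc (le_centralizer_iff.1 h)
    obtain ⟨z, hz, hz'⟩ := SetLike.not_le_iff_exists.1 hc'
    obtain ⟨k, hk⟩ := isPGroup_iff.1 hZp z hz
    obtain ⟨m, h1, h2⟩ := exists_sq_mem k hz' (by rw [hk]; exact one_mem _)
    have hA : pCoreOf 2 H ⊓ 𝐂[pCoreOf 2 H] ≤ 𝐂[pCoreOf 2 H ⊓ 𝐂[pCoreOf 2 H]] :=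
      inf_le_right.trans (centralizer_anti inf_le_left)
    have hnA : H ≤ 𝐍[pCoreOf 2 H ⊓ 𝐂[pCoreOf 2 H]] := le_normalizer_inf hnQ (le_normalizer_centralizer hnQ)
    have hWA : ∀ C, sqIn _ C hA ≤ pCoreOf 2 H ⊓ 𝐂[pCoreOf 2 H] := fun C _ h => h.1
    have hnV : H ≤ 𝐍[sqIn _ ⊥ hA] := le_normalizer_sqIn hA hnA (normalizer_bot' (G := G) ▸ le_top)
    have hnW : H ≤ 𝐍[sqIn _ 𝐂[H] hA] := le_normalizer_sqIn hA hnA (le_normalizer_centralizer le_normalizer)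
    have hc2 : ∀ C, sqIn _ C hA ≤ 𝐂[sqIn _ C hA] := fun C => (hWA C).trans (hA.trans (centralizer_anti (hWA C)))
    obtain ⟨B, b1, b2, -, -, b3⟩ := exists_quad_offender (p := 2) (n := 2) (W := sqIn _ ⊥ hA)
      (O := pCoreOf 2 H) hS.pgrp ⟨isMulCommutative_iff_le_centralizer.2 (hc2 ⊥), fun a ha => by
        rw [pow_two]; exact ha.2⟩ ((hWA _).trans (inf_le_left.trans hQS)) (hSH.trans hnV)
      (le_centralizer_iff.1 ((hWA _).trans inf_le_right)) (j_not_le ⟨hT.le, hT.pgrp, hT.not_dvd_relIndex⟩ hH)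
    refine h4 (ff_min (Z := zpowers (z ^ m)) hT (le_normalizer.trans hNS) hH hu b1 b2 hnW (hc2 _)
      ((isPGroup_pCoreOf 2 H).to_le ((hWA _).trans inf_le_left)) (zpowers_le.2 ⟨⟨hZQ (pow_mem hz m),
        centralizer_anti hQS (pow_mem hz m)⟩, h2⟩) (zpowers_le.2 (pow_mem hz m))
      (fun h => h1 (zpowers_le.1 (le_centralizer_iff.1 h)))
      ((commutator_mono ((hWA _).trans (inf_le_left.trans hQS)) b1).trans (hcl.trans (centralizer_anti b1)))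
      fun Y hY => b3 Y (hY.trans ?_))
    rw [commutator_le]
    intro w hw g hg
    have h5 : g * w⁻¹ * g⁻¹ ∈ pCoreOf 2 H ⊓ 𝐂[pCoreOf 2 H] := conj_mem_of_mem_normalizer (hnA hg) (inv_mem hw.1)
    refine ⟨by rw [commutatorElement_def, mul_assoc, mul_assoc, ← mul_assoc g]; exact mul_mem hw.1 h5, ?_⟩
    have h6 := mem_centralizer_iff'.1 (hA hw.1) _ h5
    have h7 := mem_centralizer_iff'.1 hw.2 g hg
    rw [mem_bot, commutatorElement_def]
    calc w * g * w⁻¹ * g⁻¹ * (w * g * w⁻¹ * g⁻¹) = w * (g * w⁻¹ * g⁻¹ * w) * (g * w⁻¹ * g⁻¹) := by group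
      _ = w * w * g * (w * w)⁻¹ * g⁻¹ := by rw [h6]; group
      _ = 1 := by rw [← h7]; group

end Cfsg.Agent.H23
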