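import Cfsg.Agent.H23.Park

/-! Paths in a graph with a group action, inside the free group on the edges. -/

set_option autoImplicit false
set_option linter.style.haveILetI false
set_option linter.unusedSectionVars false

namespace Cfsg.Agent.H23.LS

open FreeGroup hiding map_mul map_inv map_one
open SemidirectProduct

section
variable (Γ E : Type*) [Group Γ] [MulAction Γ E]

/-- permuting the free generators -/
def ac : Γ →* MulAut (FreeGroup E) where
  toFun γ := freeGroupCongr (MulAction.toPerm γ)
  map_one' := MulEquiv.toMonoidHom_injective (by ext; simp [freeGroupCongr])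
  map_mul' a b := MulEquiv.toMonoidHom_injective (by ext; simp [freeGroupCongr, mul_smul])

variable {Γ E}

/-- the action on letters -/
def al (γ : Γ) (l : E × Bool) : E × Bool := (γ • l.1, l.2)

theorem ac_mk (γ : Γ) (L : List (E × Bool)) : ac Γ E γ (mk L) = mk (L.map (al γ)) := rfl

variable [DecidableEq E]

theorem toWord_ac (γ : Γ) (w : FreeGroup E) : (ac Γ E γ w).toWord = w.toWord.map (al γ) := by
  conv_lhs => rw [← mk_toWord (x := w), ac_mk, toWord_mk]
  refine IsReduced.reduce_eq ((List.isChain_map _).2 (isReduced_toWord.imp fun a b h e => h ?_))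
  exact MulAction.injective γ e

theorem norm_ac (γ : Γ) (w : FreeGroup E) : (ac Γ E γ w).norm = w.norm := by
  simp [FreeGroup.norm, toWord_ac]

theorem norm_add {u v : FreeGroup E} {l m : E × Bool} {A B : List (E × Bool)} (hu : u.toWord = l :: A)
    (hv : v.toWord = m :: B) (h : l ≠ m) : (u⁻¹ * v).norm = u.norm + v.norm := by
  have : IsReduced (u⁻¹.toWord ++ v.toWord) := by
    refine List.IsChain.append isReduced_toWord isReduced_toWord fun a ha b hb e => ?_
    rw [toWord_inv, hu, invRev_cons] at ha
    rw [hv] at hb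
    simp only [invRev, List.map_cons, List.map_nil, List.reverse_singleton, List.getLast?_append,
      List.getLast?_singleton, Option.some_or, Option.mem_def, Option.some.injEq, List.head?_cons] at ha hb
    subst ha hb
    by_contra k
    exact h (Prod.ext e (by revert k; cases l.2 <;> cases m.2 <;> simp))
  rw [← norm_inv_eq (x := u), FreeGroup.norm, toWord_mul, this.reduce_eq, List.length_append]
  rfl

theorem norm_lt {w : FreeGroup E} {l m : E × Bool} {A B : List (E × Bool)} (h1 : w.toWord = l :: A)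
    (h2 : w⁻¹.toWord = m :: B) (h : l.2 = m.2) : ((mk [l])⁻¹ * w * mk [m]).norm < w.norm := by
  rw [toWord_inv, ← invRev_injective.eq_iff, invRev_invRev, invRev_cons, h1] at h2
  generalize invRev B = C at h2
  cases C with
  | nil =>
    have := congrArg Prod.snd (List.cons.inj h2).1
    rw [h] at this
    simp at this
  | cons c C =>
    obtain ⟨rfl, rfl⟩ := List.cons.inj h2
    have : w = mk [l] * mk C * (mk [m])⁻¹ := by rw [← mk_toWord (x := w), h1]; rfl
    rw [show (mk [l])⁻¹ * w * mk [m] = mk C by rw [this]; group]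
    refine norm_mk_le.trans_lt ?_
    rw [FreeGroup.norm, h1]
    simp

variable {H : Type*} [Group H]

/-- one step towards a fixed vertex -/
theorem step [Finite H] (f : H →* FreeGroup E ⋊[ac Γ E] Γ) (h0 : ∃ h, (f h).left ≠ 1) :
    ∃ k l A, (f k).left.toWord = l :: A ∧ ∀ h, ((inl (mk [l]))⁻¹ * f h * inl (mk [l])).left = 1 ∨
      ((inl (mk [l]))⁻¹ * f h * inl (mk [l])).left.norm < (f h).left.norm := by
  obtain ⟨k, hk⟩ := Finite.exists_max fun h => (f h).left.norm
  have ex : ∀ w : FreeGroup E, w ≠ 1 → ∃ l A, w.toWord = l :: A := fun w hw =>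
    List.exists_cons_of_ne_nil (mt toWord_eq_nil_iff.1 hw)
  have k0 : (f k).left ≠ 1 := fun e => by
    obtain ⟨h, hh⟩ := h0
    have := hk h
    rw [e, FreeGroup.norm_one, Nat.le_zero, FreeGroup.norm_eq_zero] at this
    exact hh this
  obtain ⟨l, A, hl⟩ := ex _ k0
  have co : ∀ a b, (f (a * b)).left = (f a).left * ac Γ E (f a).right (f b).left := fun a b => by
    rw [map_mul, mul_left]
  have st : ∀ h, (f h).left ≠ 1 → ∃ B, (f h).left.toWord = l :: B := fun h hh => by
    obtain ⟨m, B, hm⟩ := ex _ hh
    by_contra! c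
    have e := norm_add hm hl fun e => c B (e ▸ hm)
    have := co h (h⁻¹ * k)
    rw [mul_inv_cancel_left, ← inv_mul_eq_iff_eq_mul] at this
    rw [this, norm_ac] at e
    have := hk (h⁻¹ * k)
    exact hh (norm_eq_zero.1 (by omega))
  refine ⟨k, l, A, hl, fun h => ?_⟩
  have e : ((inl (mk [l]))⁻¹ * f h * inl (mk [l])).left =
      (mk [l])⁻¹ * (f h).left * mk [al (f h).right l] := by simp [← map_inv, ac_mk]
  rw [e]
  have := co h k
  by_cases hh : (f h).left = 1
  · rw [hh, one_mul] at this
    obtain ⟨B, hB⟩ := st (h * k) (by rwa [this, Ne, map_eq_one_iff _ (MulEquiv.injective _)])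
    rw [this, toWord_ac, hl] at hB
    exact .inl (by rw [hh, (List.cons.inj hB).1, mul_one, inv_mul_cancel])
  · have i := co h h⁻¹
    rw [mul_inv_cancel, map_one, one_left, eq_comm, mul_eq_one_iff_inv_eq] at i
    obtain ⟨B, hB⟩ := st h hh
    obtain ⟨C, hC⟩ := st h⁻¹ fun a => hh (by rwa [a, map_one, inv_eq_one] at i)
    exact .inr (norm_lt hB (by rw [i, toWord_ac, hC]; rfl) rfl)

end

variable {Γ V C : Type*} [Group Γ] [MulAction Γ V] [MulAction Γ C]

/-- initial vertex of a letter -/
def src (l : (V × V × C) × Bool) : V := if l.2 then l.1.1 else l.1.2.1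

/-- terminal vertex of a letter -/
def tgt (l : (V × V × C) × Bool) : V := src (l.1, !l.2)

theorem src_al (γ : Γ) (l : (V × V × C) × Bool) : src (al γ l) = γ • src l := by
  unfold src al; split_ifs <;> rfl

variable {Gd : V × V × C → Prop}

variable (Gd) in
/-- a word is a path of good edges -/
def PL : V → List ((V × V × C) × Bool) → V → Prop
  | x, [], y => x = y
  | x, l :: L, y => Gd l.1 ∧ src l = x ∧ PL (tgt l) L y

theorem PL_append {L M : List ((V × V × C) × Bool)} {x z : V} :
    PL Gd x (L ++ M) z ↔ ∃ y, PL Gd x L y ∧ PL Gd y M z := by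
  induction L generalizing x with
  | nil => simp [PL]
  | cons l L ih => simp [PL, ih, and_assoc]

theorem PL.inv {L : List ((V × V × C) × Bool)} {x y : V} (h : PL Gd x L y) : PL Gd y (invRev L) x := by
  induction L generalizing x with
  | nil => exact h.symm
  | cons l L ih => rw [invRev_cons, PL_append]; exact ⟨_, ih h.2.2, h.1, rfl, by simpa [tgt, PL] using h.2.1⟩

theorem PL.act (hG : ∀ (γ : Γ) e, Gd e → Gd (γ • e)) (γ : Γ) {L : List ((V × V × C) × Bool)} {x y : V}
    (h : PL Gd x L y) : PL Gd (γ • x) (L.map (al γ)) (γ • y) := by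
  induction L generalizing x with
  | nil => exact congrArg _ h
  | cons l L ih => exact ⟨hG _ _ h.1, by rw [src_al, h.2.1], by
      have := ih h.2.2; rwa [tgt, ← src_al] at this⟩

theorem PL.red {L M : List ((V × V × C) × Bool)} (r : Red L M) {x y : V} (h : PL Gd x L y) : PL Gd x M y := by
  induction r with
  | refl => exact h
  | tail _ s ih =>
    obtain ⟨⟩ := s
    obtain ⟨z, h1, -, h2, -, -, h3⟩ := PL_append.1 ih
    exact PL_append.2 ⟨z, h1, by simpa [tgt, h2] using h3⟩

variable [DecidableEq (V × V × C)]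

variable (Gd) in
/-- an element of the free group is a path -/
def Pa (x : V) (w : FreeGroup (V × V × C)) (y : V) : Prop := PL Gd x w.toWord y

theorem PL.pa {L : List ((V × V × C) × Bool)} {x y : V} (h : PL Gd x L y) : Pa Gd x (mk L) y :=
  h.red reduce.red

theorem Pa.mul {u v : FreeGroup (V × V × C)} {x y z : V} (h : Pa Gd x u y) (k : Pa Gd y v z) :
    Pa Gd x (u * v) z := by
  rw [← mk_toWord (x := u), ← mk_toWord (x := v)]
  exact (PL_append.2 ⟨y, h, k⟩).pa

theorem Pa.inv {u : FreeGroup (V × V × C)} {x y : V} (h : Pa Gd x u y) : Pa Gd y u⁻¹ x := by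
  rw [Pa, toWord_inv]; exact PL.inv h

variable (hG : ∀ (γ : Γ) e, Gd e → Gd (γ • e))
include hG

theorem Pa.act (γ : Γ) {u : FreeGroup (V × V × C)} {x y : V} (h : Pa Gd x u y) :
    Pa Gd (γ • x) (ac Γ _ γ u) (γ • y) := by
  rw [Pa, toWord_ac]; exact PL.act hG γ h

/-- the fundamental group of the quotient graph of groups -/
def grp (x : V) : Subgroup (FreeGroup (V × V × C) ⋊[ac Γ _] Γ) where
  carrier := {g | Pa Gd x g.left (g.right • x)}
  one_mem' := (one_smul Γ x).symm
  mul_mem' := fun {a b} ha hb => by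
    have := Pa.mul ha (Pa.act hG a.right hb)
    rwa [← mul_smul] at this
  inv_mem' := fun {a} ha => by
    have := Pa.act hG a.right⁻¹ (Pa.inv ha)
    rwa [inv_smul_smul] at this

theorem fixpt {H : Type*} [Group H] [Finite H] (n : ℕ) (x : V) (f : H →* FreeGroup (V × V × C) ⋊[ac Γ _] Γ)
    (h1 : ∀ h, (f h).left.norm ≤ n) (h2 : ∀ h, f h ∈ grp hG x) :
    ∃ v y, Pa Gd x v y ∧ ∀ h, ((inl v)⁻¹ * f h * inl v).left = 1 := by
  induction n generalizing x f with
  | zero => exact ⟨1, x, rfl, fun h => by simpa using h1 h⟩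
  | succ n ih =>
    by_cases h0 : ∃ h, (f h).left ≠ 1
    swap
    · exact ⟨1, x, rfl, fun h => by simpa using not_exists.1 h0 h⟩
    obtain ⟨k, l, A, hl, hs⟩ := step f h0
    have p : Pa Gd x (mk [l]) (tgt l) := by
      have : PL Gd x _ _ := h2 k
      rw [hl] at this
      exact PL.pa ⟨this.1, this.2.1, rfl⟩
    obtain ⟨v, y, a, b⟩ := ih (tgt l) ((MulAut.conj (inl (mk [l]))⁻¹).toMonoidHom.comp f)
      (fun h => by
        have := h1 h
        rcases hs h with e | e <;> simp only [MonoidHom.comp_apply, MulEquiv.coe_toMonoidHom,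
          MulAut.conj_apply, inv_inv]
        · rw [e, FreeGroup.norm_one]; omega
        · omega)
      fun h => by
        have := (p.inv.mul (h2 h)).mul (p.act hG (f h).right)
        show Pa Gd _ _ _
        simpa [← map_inv] using this
    refine ⟨_, y, p.mul a, fun h => ?_⟩
    rw [← b h]
    simp only [MonoidHom.comp_apply, MulEquiv.coe_toMonoidHom, MulAut.conj_apply, inv_inv, map_mul,
      mul_inv_rev, mul_assoc]

end Cfsg.Agent.H23.LS
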