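import Cfsg.Agent.H23.LS1

/-! The Leary–Stancu realization of a fusion system. -/

set_option autoImplicit false
set_option linter.style.haveILetI false
set_option linter.unusedSectionVars false

namespace Cfsg.Agent.H23.LS

open FreeGroup hiding map_mul map_inv map_one
open SemidirectProduct MulAction Subgroup
open scoped Pointwise

universe u

variable {Ω : Type u} [Group Ω] {S : Subgroup Ω} {F : FusionSystem S} {Γ : Type u} [Group Γ]
  {lam : S →* Γ}

variable (F lam) in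
/-- the transition between two charts is a map of the system, on the part inside `Q` -/
def Rl (Q : Subgroup Γ) (a b : Γ) : Prop := ∀ P ≤ S, (∀ x ∈ P, a * ext lam x * a⁻¹ ∈ Q) →
  ∃ f, Mor F P f ∧ ∀ x ∈ P, a * ext lam x * a⁻¹ = b * ext lam (f x) * b⁻¹

theorem Rl.mono {Q R : Subgroup Γ} {a b : Γ} (h : Rl F lam Q a b) (hR : R ≤ Q) : Rl F lam R a b :=
  fun P hP k => h P hP fun x hx => hR (k x hx)

theorem Rl.trans {Q : Subgroup Γ} {a b c : Γ} (h : Rl F lam Q a b) (h' : Rl F lam Q b c) :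
    Rl F lam Q a c := fun P hP k => by
  obtain ⟨f, f1, f2⟩ := h P hP k
  obtain ⟨g, g1, g2⟩ := h' _ f1.im_le fun y hy => by
    obtain ⟨x, hx, rfl⟩ := f1.mem_im.1 hy
    rw [← f2 x hx]; exact k x hx
  exact ⟨_, f1.comp g1 fun x hx => mem_im_of_mem f hx, fun x hx =>
    (f2 x hx).trans (g2 _ (mem_im_of_mem f hx))⟩

theorem rl_of_eq (Q : Subgroup Γ) {a b : Γ} (h : (a : Γ ⧸ lam.range) = b) : Rl F lam Q a b :=
  fun P hP _ => by
  obtain ⟨s, hs⟩ := QuotientGroup.eq.1 h.symm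
  refine ⟨_, mor_cj F hP s.2, fun x hx => ?_⟩
  rw [cj_apply, (homOn_ext lam).map_conj s.2 (hP hx), ext_coe, hs]
  group

theorem Rl.act {X : Type*} [MulAction Γ X] {e : X} {a b : Γ} (h : Rl F lam (stabilizer Γ e) a b) (γ : Γ) :
    Rl F lam (stabilizer Γ (γ • e)) (γ * a) (γ * b) := fun P hP k => by
  obtain ⟨f, f1, f2⟩ := h P hP fun x hx => by
    have := k x hx
    rw [mem_stabilizer_iff, ← mul_smul, ← inv_smul_eq_iff, ← mul_smul] at this
    rw [mem_stabilizer_iff]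
    convert this using 2
    group
  refine ⟨f, f1, fun x hx => ?_⟩
  calc _ = γ * (a * ext lam x * a⁻¹) * γ⁻¹ := by group
    _ = _ := by rw [f2 x hx]; group

variable (F lam) in
/-- the edges of the graph -/
def Gd (e : (Γ ⧸ lam.range) × (Γ ⧸ lam.range) × Set Γ) : Prop :=
  ∃ a b : Γ, e.1 = a ∧ e.2.1 = b ∧ Rl F lam (stabilizer Γ e) a b ∧ Rl F lam (stabilizer Γ e) b a

variable (F lam) in
theorem gd_act (γ : Γ) (e) (h : Gd F lam e) : Gd F lam (γ • e) := by
  obtain ⟨a, b, h1, h2, h3, h4⟩ := h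
  exact ⟨γ * a, γ * b, congrArg (γ • ·) h1, congrArg (γ • ·) h2, h3.act γ, h4.act γ⟩

theorem PL.rl {Q : Subgroup Γ} {L} {x y} (h : PL (Gd F lam) x L y) (hQ : ∀ l ∈ L, Q ≤ stabilizer Γ l.1)
    {a b : Γ} (ha : x = a) (hb : y = b) : Rl F lam Q a b := by
  induction L generalizing x a with
  | nil => exact rl_of_eq Q (ha.symm.trans (Eq.trans h hb))
  | cons l L ih =>
    obtain ⟨⟨c, d, h1, h2, h3, h4⟩, h5, h6⟩ := h
    have q := hQ l List.mem_cons_self
    have i := fun d => ih (a := d) h6 fun m hm => hQ m (List.mem_cons_of_mem _ hm)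
    obtain ⟨e, _ | _⟩ := l
    · exact ((rl_of_eq Q (ha.symm.trans (h5.symm.trans h2))).trans (h4.mono q)).trans (i c h1)
    · exact ((rl_of_eq Q (ha.symm.trans (h5.symm.trans h1))).trans (h3.mono q)).trans (i d h2)

theorem realize (hl : Function.Injective lam) [Finite Γ]
    (hσ : ∀ P f, Mor F P f → ∃ σ, ∀ x ∈ P, ext lam x * σ = σ * ext lam (f x)) :
    ∃ (G : Type u) (_ : Group G) (ι : S →* G), F.IsRealizedBy ι ∧
      (∀ H : Subgroup G, Finite H → ∃ g : G, ∀ h ∈ H, g * h * g⁻¹ ∈ ι.range) ∧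
      ∃ N : Subgroup G, N.Normal ∧ IsFreeGroup N ∧ N.index ∣ Nat.card Γ := by
  classical
  have st : ∀ γ : Γ, γ • ((1 : Γ) : Γ ⧸ lam.range) = (1 : Γ) ↔ γ ∈ lam.range := fun γ => by
    rw [← mem_stabilizer_iff, stabilizer_quotient]
  have hi : ∀ x ∈ S, ∀ y ∈ S, ext lam x = ext lam y → x = y := fun x hx y hy e => by
    rw [ext_of_mem _ hx, ext_of_mem _ hy] at e
    exact congrArg Subtype.val (hl e)
  have er : ∀ x ∈ S, ext lam x ∈ lam.range := fun x hx => ⟨⟨x, hx⟩, (ext_of_mem _ hx).symm⟩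
  let G := grp (gd_act F lam) ((1 : Γ) : Γ ⧸ lam.range)
  let ι : S →* G := (inr.comp lam).codRestrict G fun s => ((st _).2 ⟨s, rfl⟩).symm
  have hι : ∀ (k : G) (x y : S), ι y = k⁻¹ * ι x * k⁻¹⁻¹ ↔
      ac Γ _ (lam x) k.1.left = k.1.left ∧ lam x * k.1.right = k.1.right * lam y := fun k x y => by
    rw [inv_inv, mul_assoc, eq_inv_mul_iff_mul_eq, eq_comm, Subtype.ext_iff, SemidirectProduct.ext_iff]
    show (1 * ac Γ _ (lam x) k.1.left = k.1.left * ac Γ _ k.1.right 1 ∧ _) ↔ _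
    rw [one_mul, map_one, mul_one]; rfl
  refine ⟨G, inferInstance, ι, ⟨fun a b e => hl (congrArg (fun g : G => g.1.right) e),
    fun P hP φ hφ => ⟨fun h => ?_, fun ⟨g, hg⟩ => ?_⟩⟩, fun H _ => ?_,
    (rightHom.comp G.subtype).ker, inferInstance, ?_, ?_⟩
  · have m := mor_ext h
    obtain ⟨σ, h1⟩ := hσ P _ m
    obtain ⟨ψ, m', h2⟩ := m.exists_inv
    have ho := (homOn_ext lam).mono hP
    let e : (Γ ⧸ lam.range) × (Γ ⧸ lam.range) × Set Γ := ((1 : Γ), σ, (im (ext lam) P : Set Γ))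
    have se : ∀ γ ∈ stabilizer Γ e, ∃ x ∈ P, ext lam x = γ := fun γ k => by
      rw [← ho.mem_im, ← stabilizer_subgroup (im (ext lam) P)]
      exact congrArg (·.2.2) k
    have ge : Gd F lam e := ⟨1, σ, rfl, rfl, fun R hR k => ?_, fun R hR k => ?_⟩
    · refine ⟨(⟨⟨mk [(e, true)], σ⟩, PL.pa ⟨ge, rfl, ?_⟩⟩ : G)⁻¹, fun x => (hι _ _ _).2 ⟨?_, ?_⟩⟩
      · exact congrArg QuotientGroup.mk (mul_one σ).symm
      · refine congrArg (fun e => mk [(e, true)]) (Prod.ext ((st _).2 ⟨_, rfl⟩) (Prod.ext ?_ ?_))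
        · refine QuotientGroup.eq.2 ?_
          show (_ * σ)⁻¹ * σ ∈ _
          rw [← ext_of_mem, h1 x x.2]
          simpa using er _ (m.mem x.2)
        · refine mem_stabilizer_iff.1 ?_
          rw [stabilizer_subgroup, ← ext_of_mem]
          exact mem_im_of_mem _ x.2
      · rw [← ext_of_mem, ← ext_of_mem, h1 x x.2, ext_coe]
    · have : R ≤ P := fun x hx => by
        obtain ⟨y, hy, a⟩ := se _ (k x hx)
        rwa [← hi y (hP hy) x (hR hx) (by simpa using a)]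
      exact ⟨_, m.mono this, fun x hx => by rw [← h1 x (this hx)]; group⟩
    · have : ∀ x ∈ R, ∃ y ∈ P, ext φ y = x := fun x hx => by
        obtain ⟨y, hy, a⟩ := se _ (k x hx)
        refine ⟨y, hy, hi _ (m.mem hy) x (hR hx) (mul_left_cancel (a := σ) ?_)⟩
        rw [← h1 y hy, a, inv_mul_cancel_right]
      refine ⟨_, m'.mono fun x hx => m.mem_im.2 (this x hx), fun x hx => ?_⟩
      obtain ⟨y, hy, rfl⟩ := this x hx
      rw [h2 y hy, ← h1 y hy]; group
  · have hg' := fun x => (hι g⁻¹ _ _).1 (by rw [inv_inv g]; exact hg x)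
    have p : PL _ _ _ _ := g⁻¹.2
    let Q := (stabilizer (MulAut (FreeGroup ((Γ ⧸ lam.range) × (Γ ⧸ lam.range) × Set Γ)))
      g⁻¹.1.left).comap (ac Γ _)
    obtain ⟨f, f1, f2⟩ := p.rl (Q := Q) (fun l hl γ k => by
      have : ac Γ _ γ g⁻¹.1.left = g⁻¹.1.left := k
      rw [← toWord_inj, toWord_ac] at this
      exact congrArg Prod.fst (List.map_inj_left.1 (this.trans (List.map_id _).symm) l hl))
      rfl (b := g⁻¹.1.right) (congrArg QuotientGroup.mk (mul_one _)) P hP fun x hx => by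
        rw [one_mul, inv_one, mul_one, ext_of_mem _ (hP hx)]
        exact (hg' ⟨x, hx⟩).1
    refine f1.mem_hom fun x => hi _ (hφ x) _ (f1.mem x.2) (mul_left_cancel (a := g⁻¹.1.right) ?_)
    rw [ext_of_mem _ (hφ x), ← (hg' x).2, ← ext_of_mem, ← eq_mul_inv_iff_mul_eq, ← f2 x x.2]
    group
  · obtain ⟨n, hn⟩ := Finite.exists_max fun h : H => h.1.1.left.norm
    obtain ⟨v, y, h1, h2⟩ := fixpt (gd_act F lam) _ _ (G.subtype.comp H.subtype) hn fun h => h.1.2
    obtain ⟨b, rfl⟩ := QuotientGroup.mk_surjective y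
    let g : G := ⟨⟨v, b⟩, by rw [← mul_one b] at h1; exact h1⟩
    refine ⟨g⁻¹, fun h hh => ?_⟩
    have e : (g⁻¹ * h * g⁻¹⁻¹).1.left = 1 := by
      have : (g⁻¹ * h * g⁻¹⁻¹).1 = inr b⁻¹ * ((inl v)⁻¹ * h.1 * inl v) * inr b := by
        rw [inv_inv, coe_mul, coe_mul, coe_inv, show g.1 = inl v * inr b from mk_eq_inl_mul_inr _ _, map_inv]
        group
      have e : ((inl v)⁻¹ * h.1 * inl v).left = 1 := h2 ⟨h, hh⟩
      rw [this, mul_left, mul_left, e]
      simp
    generalize g⁻¹ * h * g⁻¹⁻¹ = k at e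
    have p : Pa _ _ _ _ := k.2
    rw [e] at p
    obtain ⟨s, hs⟩ := (st _).1 (Eq.symm p)
    exact ⟨s, Subtype.ext (SemidirectProduct.ext e.symm hs)⟩
  · let j : G.comap inl →* G := (inl.comp (G.comap inl).subtype).codRestrict G fun x => x.2
    have : j.range = (rightHom.comp G.subtype).ker := by
      ext k
      refine ⟨by rintro ⟨x, rfl⟩; rfl, fun h => ?_⟩
      have e : inl k.1.left = k.1 := SemidirectProduct.ext rfl (Eq.symm h)
      exact ⟨⟨k.1.left, by rw [mem_comap, e]; exact k.2⟩, Subtype.ext e⟩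
    rw [← this]
    exact IsFreeGroup.ofMulEquiv (MonoidHom.ofInjective fun a b e =>
      Subtype.ext (congrArg (fun g : G => g.1.left) e))
  · rw [index_ker]; exact card_subgroup_dvd_card _

theorem leary_stancu [Finite S] (F : FusionSystem S) :
    ∃ (G : Type u) (_ : Group G) (ι : S →* G), F.IsRealizedBy ι ∧
      (∀ H : Subgroup G, Finite H → ∃ g : G, ∀ h ∈ H, g * h * g⁻¹ ∈ ι.range) ∧
      ∃ N : Subgroup G, N.Normal ∧ IsFreeGroup N ∧ N.index ∣ (Nat.card S).factorial := by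
  rw [← Nat.card_perm]
  refine realize (lam := toPermHom S S) toPerm_injective fun P f m => ?_
  haveI := finite_of_le m.le
  have key : ∀ τ : P →* S, Function.Injective τ → ∀ H, Park.Fx ((toPermHom S S).comp τ) Set.univ H =
      {_x | H = ⊥} := fun τ hτ H => by
    ext x
    simp [Park.Fx, eq_bot_iff_forall, map_eq_one_iff τ hτ]
  obtain ⟨σ, h⟩ := Park.marks ((toPermHom S S).comp (m.homOn.hom.codRestrict S fun x => m.mem x.2))
    ((toPermHom S S).comp (inclusion m.le)) fun H => by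
      rw [key _ (inclusion_injective _), key _ fun a b e =>
        Subtype.ext (m.inj _ a.2 _ b.2 (congrArg Subtype.val e))]
  refine ⟨σ, fun x hx => ?_⟩
  rw [ext_of_mem _ (m.le hx), ext_of_mem _ (m.mem hx)]
  exact (h ⟨x, hx⟩).symm

end Cfsg.Agent.H23.LS
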