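import Cfsg.Agent.H23.PSt2
import Cfsg.Agent.L0.FSup

/-!
An axiomatic form of the ZJ-theorem and the corresponding nilpotency criterion for fusion systems.
-/

set_option autoImplicit false

namespace Cfsg.Agent.H23.PS

open Cfsg Cfsg.FusionSystem Subgroup Cfsg.Agent.H23.LF
open Equiv (Perm)

universe u

variable {p : ℕ}

section ax

variable {G : Type*} [Group G]

/-- intersection of the members of `𝒜` inside `Q` -/
def II (𝒜 : Set (Subgroup G)) (Q : Subgroup G) : Subgroup G := ⨅ A ∈ {A : Subgroup G | A ∈ 𝒜 ∧ A ≤ Q}, A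

theorem mem_II {𝒜 : Set (Subgroup G)} {Q : Subgroup G} {x : G} : x ∈ II 𝒜 Q ↔ ∀ A ∈ 𝒜, A ≤ Q → x ∈ A := by
  simp [II, mem_iInf]

/-- the axioms on the family -/
structure Ax (S : Subgroup G) (𝒜 : Set (Subgroup G)) : Prop where
  le : ∀ A ∈ 𝒜, A ≤ S
  comm : ∀ A ∈ 𝒜, IsMulCommutative A
  ne : 𝒜.Nonempty
  rep : ∀ B : Subgroup G, B ≤ S → ⁅⁅B, B⁆, B⁆ = ⊥ → (∃ A ∈ 𝒜, ⁅B, B⁆ ≤ A ∧ ¬ B ≤ A) →
    ∃ A ∈ 𝒜, ⁅B, B⁆ ≤ A ∧ ¬ B ≤ A ∧ B ≤ normalizer (A : Set G)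

variable {𝒜 : Set (Subgroup G)}

theorem Ax.II_le {S : Subgroup G} (h : Ax S 𝒜) {A : Subgroup G} (hA : A ∈ 𝒜) : II 𝒜 S ≤ A :=
  fun _ hx => mem_II.1 hx A hA (h.le A hA)

theorem Ax.II_le_top {S : Subgroup G} (h : Ax S 𝒜) : II 𝒜 S ≤ S :=
  let ⟨A, hA⟩ := h.ne; (h.II_le hA).trans (h.le A hA)

theorem Ax.II_comm {S : Subgroup G} (h : Ax S 𝒜) : IsMulCommutative (II 𝒜 S) :=
  let ⟨A, hA⟩ := h.ne; H9.isMulCommutative_of_le (h.comm A hA) (h.II_le hA)

variable [Finite G] [Fact p.Prime]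

theorem Ax.inf_normal (hst : ∀ (P : Subgroup G) [P.Normal], IsPGroup p P → IsPStableOn p P) (S : Sylow p G)
    (h : Ax (S : Subgroup G) 𝒜) (hinv : ∀ Q : Subgroup G, Q ≤ S → (∃ A ∈ 𝒜, A ≤ Q) →
      normalizer (Q : Set G) ≤ normalizer (II 𝒜 Q : Set G))
    (B : Subgroup G) (hBn : B.Normal) (hB : IsPGroup p B) : (II 𝒜 S ⊓ B).Normal := by
  induction B using WellFoundedLT.induction with
  | ind B ih =>
  by_contra hnot
  set Z := II 𝒜 S with hZ
  have hSZ : (S : Subgroup G) ≤ normalizer (Z : Set G) :=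
    Subgroup.le_normalizer.trans (hinv S le_rfl (let ⟨A, hA⟩ := h.ne; ⟨A, hA, h.le A hA⟩))
  have hBS : B ≤ S := hB.le_sylow_of_normal S
  set Y := Z ⊓ B with hY
  have hcl : normalClosure (Y : Set G) = B := by
    have h1 : normalClosure (Y : Set G) ≤ B := normalClosure_le_normal (inf_le_right : Y ≤ B)
    by_contra h
    have h2 := ih _ (lt_of_le_of_ne h1 h) inferInstance (hB.to_le h1)
    have h3 : Z ⊓ normalClosure (Y : Set G) = Y :=
      le_antisymm (inf_le_inf_left _ h1) (le_inf inf_le_left le_normalClosure)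
    exact hnot (h3 ▸ h2)
  have hB0 : B ≠ ⊥ := by
    rintro rfl; apply hnot; rw [hY, inf_bot_eq]; infer_instance
  have hFn := H9.phiOf_normal p B
  obtain ⟨hFZ, hBF⟩ := H9.phiOf_le_of_normalClosure h.II_comm (hBS.trans hSZ) hcl
    (ih _ (H9.phiOf_lt hB hB0) hFn (hB.to_le (H9.phiOf_le p B)))
  have hB' : ⁅B, B⁆ ≤ Z := (H9.commutator_le_phiOf p B).trans hFZ
  obtain ⟨A₀, hA₀, hA₀'⟩ : ∃ A ∈ 𝒜, ¬ B ≤ A := by
    by_contra hc
    push Not at hc
    apply hnot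
    rwa [hY, inf_eq_right.2 fun x hx => mem_II.2 fun A hA _ => hc A hA hx]
  obtain ⟨A, hA, -, hA1, hA2⟩ := h.rep B hBS (by
    rw [commutator_comm, commutator_eq_bot_iff_le_centralizer]
    exact hBF.trans (centralizer_le (H9.commutator_le_phiOf p B))) ⟨A₀, hA₀, hB'.trans (h.II_le hA₀), hA₀'⟩
  set L := (normalizer (Y : Set G)).normalCore with hL
  have hLY : L ≤ normalizer (Y : Set G) := normalCore_le _
  have hopL : H9.opMod p (centralizer (B : Set G)) ≤ L := by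
    rw [hL, normal_le_normalCore]
    refine (H9.opMod_le_sup_sylow _ S).trans (sup_le
      ((centralizer_le (inf_le_right : Y ≤ B)).trans (centralizer_le_normalizer _)) fun g hg => ?_)
    exact normalizer_inf_of (hSZ hg) (by rw [normalizer_eq_top]; trivial)
  have hAL : A ≤ L := by
    refine (H9.le_opMod_of_isPStableOn (hst B hB) ?_).trans hopL
    rw [commutator_eq_bot_iff_le_centralizer]
    exact (le_normalizer_iff_commutator_le_right.mp hA2).trans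
      (le_centralizer_iff_isMulCommutative.mpr (h.comm A hA))
  have hAT : A ≤ (S : Subgroup G) ⊓ L := le_inf (h.le A hA) hAL
  refine hA1 (le_trans ?_ fun x hx => mem_II.1 hx A hA hAT)
  rw [← hcl, normalClosure, closure_le]
  intro x hx
  obtain ⟨y, hy, hxy⟩ := Group.mem_conjugatesOfSet_iff.mp hx
  obtain ⟨g, rfl⟩ := _root_.isConj_iff.mp hxy
  obtain ⟨l, hl, m, hm, e⟩ := (H3.sylowIn_inf_normal S L).frattini
    (g := g⁻¹) (by rw [normalizer_eq_top]; trivial)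
  have h1 : g = m⁻¹ * l⁻¹ := by rw [← mul_inv_rev, ← e, inv_inv]
  have h2 : l⁻¹ * y * l ∈ Y := conj_mem_of_mem_normalizer' (hLY hl) hy
  have h3 := conj_mem_of_mem_normalizer' (hinv _ inf_le_left ⟨A, hA, hAT⟩ hm)
    (mem_II.2 fun A' hA' _ => h.II_le hA' h2.1)
  rw [h1]
  simpa [mul_assoc] using h3

theorem Ax.normal (hc : centralizer (pCore p G : Set G) ≤ pCore p G)
    (hst : ∀ (P : Subgroup G) [P.Normal], IsPGroup p P → IsPStableOn p P) (S : Sylow p G)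
    (h : Ax (S : Subgroup G) 𝒜) (hinv : ∀ Q : Subgroup G, Q ≤ S → (∃ A ∈ 𝒜, A ≤ Q) →
      normalizer (Q : Set G) ≤ normalizer (II 𝒜 Q : Set G)) : (II 𝒜 S).Normal := by
  have hSZ : (S : Subgroup G) ≤ normalizer (II 𝒜 S : Set G) :=
    Subgroup.le_normalizer.trans (hinv S le_rfl (let ⟨A, hA⟩ := h.ne; ⟨A, hA, h.le A hA⟩))
  have h1 : II 𝒜 S ≤ pCore p G := by
    rw [← H9.opMod_eq_pCore ((H1.isPGroup_pCore p G).to_le hc)]
    refine H9.le_opMod_of_isPStableOn (hst _ (H1.isPGroup_pCore p G)) ?_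
    rw [commutator_eq_bot_iff_le_centralizer]
    exact (le_normalizer_iff_commutator_le_right.mp ((H1.pCore_le_sylow S).trans hSZ)).trans
      (le_centralizer_iff_isMulCommutative.mpr h.II_comm)
  have := h.inf_normal hst S hinv _ inferInstance (H1.isPGroup_pCore p G)
  rwa [inf_eq_left.mpr h1] at this

theorem sylow_two_comm_of_coatom (hp2 : p ≠ 2) {T : Subgroup G} (hT : H3.SylowIn p T ⊤) (h : IsCoatom T)
    (R : Sylow 2 G) : IsMulCommutative R := by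
  refine L0.sylow_comm_of_reduced hp2 ?_ hT h R
  set f := QuotientGroup.mk' (pCore p G)
  have hf : Function.Surjective f := QuotientGroup.mk'_surjective _
  have h1 := hT.map f
  rw [map_top_of_surjective _ hf] at h1
  by_cases h0 : T.map f = ⊥
  · refine H3.hasNormalPComplement_of_not_dvd ?_
    rw [← card_top]
    exact h1.eq_bot_iff.1 h0
  refine L0.pnil_of_zj hp2 (dvd_zero p) h1 ?_
  have hk : f.ker ≤ T := by
    rw [QuotientGroup.ker_mk']
    exact hT.le_of_le_normalizer (H1.isPGroup_pCore p G) le_top (by rw [normalizer_eq_top])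
  have h2 : T ≤ (normalizer (centerThompsonOf 0 (T.map f) : Set (G ⧸ pCore p G))).comap f := by
    rw [← map_le_iff_le_comap, ← L0.ind_zjF]
    exact Subgroup.le_normalizer.trans (normalizer_le_ind (L0.isCharPFunctor_zjF (dvd_zero p)) h1.isPGroup)
  rcases h.le_iff.1 h2 with h3 | h3
  · exfalso
    have h4 : normalizer (centerThompsonOf 0 (T.map f) : Set (G ⧸ pCore p G)) = ⊤ := by
      rw [← map_comap_eq_self_of_surjective hf (normalizer _), h3, map_top_of_surjective _ hf]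
    haveI := normalizer_eq_top_iff.1 h4
    have h5 := H1.le_pCore (h1.isPGroup.to_le (H9.centerThompsonOf_le 0 (T.map f)))
    rw [H1.pCore_quotient_pCore, le_bot_iff, ← L0.ind_zjF] at h5
    exact ind_ne_bot (L0.isCharPFunctor_zjF (dvd_zero p)) h1.isPGroup h0 h5
  · rw [← map_comap_eq_self_of_surjective hf (normalizer _), h3]
    exact H3.hasNormalPComplement_of_isPGroup h1.isPGroup

end ax

section fus

variable [Fact p.Prime] {Ω : Type u} [Group Ω] {S : Subgroup Ω} [Finite S] {F : FusionSystem S}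
  {𝒜 : Set (Subgroup Ω)}

section
variable {G : Type*} [Group G] {θ : Ω → G}

omit [Fact p.Prime] [Finite S] in
theorem Ax.map_im (h : Ax S 𝒜) (hθ : Real F θ) : Ax (im θ S) (im θ '' 𝒜) := by
  refine ⟨?_, ?_, h.ne.image _, fun B hB h1 h2 => ?_⟩
  · rintro _ ⟨A, hA, rfl⟩; exact im_mono θ (h.le A hA)
  · rintro _ ⟨A, hA, rfl⟩
    have h1 := h.le A hA
    rw [← le_centralizer_iff_isMulCommutative, ← commutator_eq_bot_iff_le_centralizer,
      ← hθ.hom.im_commutator h1 h1, commutator_eq_bot_iff_le_centralizer.2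
        (le_centralizer_iff_isMulCommutative.2 (h.comm A hA)), hθ.im_bot]
  · obtain ⟨B, hB', rfl⟩ := hθ.exists_im_eq hB
    have h3 : ⁅B, B⁆ ≤ S := (commutator_le_self B).trans hB'
    rw [← hθ.hom.im_commutator hB' hB'] at h1 h2 ⊢
    rw [← hθ.hom.im_commutator h3 hB', hθ.im_eq_bot_iff ((commutator_mono h3 hB').trans
      (commutator_le_self S))] at h1
    obtain ⟨_, ⟨A, hA, rfl⟩, a, b⟩ := h2
    rw [hθ.im_le_im_iff h3 (h.le A hA)] at a
    rw [hθ.im_le_im_iff hB' (h.le A hA)] at b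
    obtain ⟨A', hA', c, d, e⟩ := h.rep B hB' h1 ⟨A, hA, a, b⟩
    refine ⟨_, ⟨A', hA', rfl⟩, im_mono θ c, by rwa [hθ.im_le_im_iff hB' (h.le A' hA')], fun y hy => ?_⟩
    obtain ⟨x, hx, rfl⟩ := (hθ.mem_im hB').1 hy
    exact (hθ.mem_normalizer_iff (h.le A' hA') (hB' hx)).2 (e hx)

omit [Fact p.Prime] [Finite S] in
theorem Ax.II_im (h : Ax S 𝒜) (hθ : Real F θ) {Q : Subgroup Ω} (hQ : Q ≤ S) (h1 : ∃ A ∈ 𝒜, A ≤ Q) :
    II (im θ '' 𝒜) (im θ Q) = im θ (II 𝒜 Q) := by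
  obtain ⟨A₀, hA₀, hA₀'⟩ := h1
  have h2 : II 𝒜 Q ≤ S := fun x hx => h.le _ hA₀ (mem_II.1 hx _ hA₀ hA₀')
  ext y
  rw [mem_II, hθ.mem_im h2]
  constructor
  · intro hy
    obtain ⟨x, hx, rfl⟩ := (hθ.mem_im (h.le _ hA₀)).1 (hy _ ⟨A₀, hA₀, rfl⟩ (im_mono θ hA₀'))
    exact ⟨x, mem_II.2 fun A hA hA' => (hθ.apply_mem_im (h.le A hA) (h.le _ hA₀ hx)).1
      (hy _ ⟨A, hA, rfl⟩ (im_mono θ hA')), rfl⟩
  · rintro ⟨x, hx, rfl⟩ _ ⟨A, hA, rfl⟩ hA'
    exact (hθ.apply_mem_im (h.le A hA) (h2 hx)).2 (mem_II.1 hx A hA ((hθ.im_le_im_iff (h.le A hA) hQ).1 hA'))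

theorem Ax.not_coatom [Finite G] (hp2 : p ≠ 2) (h : Ax S 𝒜) (hθ : Real F θ) (hS : H3.SylowIn p (im θ S) ⊤)
    (hc : centralizer (pCore p G : Set G) ≤ pCore p G)
    (hinv : ∀ Q ≤ S, (∃ A ∈ 𝒜, A ≤ Q) → ∀ σ ∈ AutF F Q, ∀ x ∈ II 𝒜 Q, σ x ∈ II 𝒜 Q)
    (hL : Loc F (II 𝒜 S) (innerFusionSystem S)) : ¬ IsCoatom (im θ S) := fun hco => by
  have hne : ∃ A ∈ 𝒜, A ≤ S := let ⟨A, hA⟩ := h.ne; ⟨A, hA, h.le A hA⟩
  have h1 := Ax.normal hc (fun P _ hP => H9.isPStableOn_of_sylow_two_comm hp2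
    (sylow_two_comm_of_coatom hp2 hS hco) P hP) hS.toSylowTop (h.map_im hθ) fun Q hQ hQ' g hg => by
      obtain ⟨Q, hQ1, rfl⟩ := hθ.exists_im_eq hQ
      obtain ⟨_, ⟨A, hA, rfl⟩, hA'⟩ := hQ'
      rw [hθ.im_le_im_iff (h.le A hA) hQ1] at hA'
      rw [h.II_im hθ hQ1 ⟨A, hA, hA'⟩]
      have h2 : II 𝒜 Q ≤ Q := fun x hx => hA' (mem_II.1 hx _ hA hA')
      obtain ⟨σ, a, b⟩ := hθ.exists_aut hQ1 hg
      refine H3.mem_normalizer_of_conj_mem fun y hy => ?_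
      obtain ⟨x, hx, rfl⟩ := (hθ.mem_im (h2.trans hQ1)).1 hy
      rw [← b x (h2 hx)]
      exact (hθ.mem_im (h2.trans hQ1)).2 ⟨_, hinv Q hQ1 ⟨A, hA, hA'⟩ σ a x hx, rfl⟩
  rw [H3.SylowIn.coe_toSylowTop, h.II_im hθ le_rfl hne] at h1
  have := finite_of_le h.II_le_top
  have h2 := hθ.pnil_normalizer hS h.II_le_top (fun g hg => cj_mem_stab.1 (mem_stab_of_mem (homOn_cj _ g)
    (hinv S le_rfl hne _ (autS_le_autF F le_rfl le_rfl (cj_mem_autS hg (Subgroup.le_normalizer hg)))))) hL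
  rw [normalizer_eq_top] at h2
  exact hco.1 (L0.eq_of_pnil_of_constrained hS le_top hc h2).symm

end

theorem Ax.sub_inner (hp2 : p ≠ 2) (h : Ax S 𝒜) (hF : Sat p F)
    (hinv : ∀ Q ≤ S, (∃ A ∈ 𝒜, A ≤ Q) → ∀ σ ∈ AutF F Q, ∀ x ∈ II 𝒜 Q, σ x ∈ II 𝒜 Q)
    (hL : Loc F (II 𝒜 S) (innerFusionSystem S)) : F.IsSubsystemOf (innerFusionSystem S) := by
  classical
  by_contra hne
  obtain ⟨E, h1, h2, h3⟩ := fs_exists_constrained hF (Or.inl hp2) hne
  have hE : Sat p E := ⟨hF.pg, h2.1⟩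
  obtain ⟨G, _, _, θ, hθ⟩ := Sat.exists_mdl hE (hE.constrained_iff.1 h2)
  have hS := hθ.sylowIn
  have h4 : im θ S < ⊤ := lt_top_iff_ne_top.2 fun e => h3 (hθ.sub_inner hS
    (H3.hasNormalPComplement_of_isPGroup ((e ▸ hS.isPGroup).of_equiv topEquiv)))
  obtain ⟨H, hH, -⟩ := exists_covBy_le_of_lt h4
  let θ' : Ω → H := fun x => if hx : θ x ∈ H then ⟨θ x, hx⟩ else 1
  have e : ∀ x ∈ S, (θ' x : G) = θ x := fun x hx => by
    simp only [θ', dif_pos (hH.le ((hθ.mem_im le_rfl).2 ⟨x, hx, rfl⟩))]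
  have h5 : HomOn S θ' := fun x hx y hy => Subtype.ext (by
    rw [coe_mul, e _ (mul_mem hx hy), e x hx, e y hy, hθ.hom x hx y hy])
  obtain ⟨D, hD⟩ := exists_real h5 fun x hx y hy a => hθ.inj x hx y hy (by rw [← e x hx, ← e y hy, a])
  have h6 : D.IsSubsystemOf E := isSubsystemOf_iff.2 fun P σ hσ => by
    obtain ⟨g, hg⟩ := hD.of_mor P σ hσ
    refine hθ.mor_of P σ g hσ.le (fun x hx => hσ.mem hx) fun x hx => ?_
    rw [← e _ (hσ.mem hx), hg x hx, ← e x (hσ.le hx)]; rfl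
  have h7 : im θ' S = (im θ S).subgroupOf H := by
    ext y
    rw [mem_subgroupOf, hD.mem_im le_rfl, hθ.mem_im le_rfl]
    exact exists_congr fun x => and_congr_right fun hx => by rw [← e x hx, Subtype.ext_iff]
  have h8 : pCore p G ≤ H := hθ.pCore_le.trans hH.le
  refine h.not_coatom hp2 hD ?_ ?_ (fun Q a b σ c => hinv Q a b σ (autF_mono (sub_trans h6 h1) c))
    (hL.sub (sub_trans h6 h1)) ?_
  · rw [h7, ← (hS.of_le hH.le le_top).coe_toSylow]
    exact H3.sylowIn_top _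
  · have a1 : (pCore p G).subgroupOf H ≤ pCore p H := H1.le_pCore (H1.isPGroup_pCore p G).comap_subtype
    exact fun g hg => a1 (hθ.con fun y hy => congrArg Subtype.val (hg ⟨y, h8 hy⟩ (a1 hy)))
  · rw [h7]
    refine ⟨fun a => hH.lt.not_ge (subgroupOf_eq_top.1 a), fun Y hY => ?_⟩
    have a1 : im θ S < Y.map H.subtype := by
      rw [← map_subgroupOf_eq_of_le hH.le]
      exact (map_subtype_lt_map_subtype).2 hY
    have a2 := (hH.eq_or_eq a1.le (map_subtype_le Y)).resolve_left a1.ne'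
    exact map_injective H.subtype_injective (by rw [a2, ← MonoidHom.range_eq_map, range_subtype])

end fus

end Cfsg.Agent.H23.PS
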