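import Cfsg.Agent.H23.Aff
import Cfsg.Agent.H12.Torus

/-! An affine group with element orders the divisors of `6, 9, q - 1, (q + 1) / 2`. -/

set_option autoImplicit false

namespace Cfsg.Agent.H23

open Matrix MatrixGroups H12

variable {K : Type*} [Field K] [CharP K 3]

/-- twisted action on matrices -/
def twE (K : Type*) [Field K] [CharP K 3] :
    SL(2, K) × ℤˣ →* Module.End K (Matrix (Fin 2) (Fin 2) K) where
  toFun x := ((x.2 : ℤ) : K) • (LinearMap.mulLeft K x.1.1 ∘ₗ
    LinearMap.mulRight K (x.1.1.map (frobenius K 3))ᵀ)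
  map_one' := by ext; simp
  map_mul' a b := by
    apply LinearMap.ext
    intro X
    simp [Matrix.map_mul, transpose_mul, Matrix.mul_assoc, smul_smul, mul_comm]

theorem twE_apply (g : SL(2, K)) (e : ℤˣ) (X : Matrix (Fin 2) (Fin 2) K) :
    twE K (g, e) X = ((e : ℤ) : K) • (g.1 * X * (g.1.map (frobenius K 3))ᵀ) := by
  simp [twE, Matrix.mul_assoc]

/-- the action as a hom to linear equivalences -/
def twR (K : Type*) [Field K] [CharP K 3] :
    SL(2, K) × ℤˣ →* (Matrix (Fin 2) (Fin 2) K ≃ₗ[K] Matrix (Fin 2) (Fin 2) K) :=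
  (LinearMap.GeneralLinearGroup.generalLinearEquiv K _).toMonoidHom.comp (twE K).toHomUnits

theorem twR_apply (x : SL(2, K) × ℤˣ) (X : Matrix (Fin 2) (Fin 2) K) : twR K x X = twE K x X := rfl

theorem twR_neg_one : twR K (-1, 1) = 1 := by
  ext1 X
  rw [twR_apply, twE_apply]
  have : ((-1 : SL(2, K)).1.map (frobenius K 3)) = -1 := by
    ext i j
    fin_cases i <;> fin_cases j <;> simp
  rw [this]
  simp

theorem twR_of {g : SL(2, K)} (h : g = 1 ∨ g = -1) : twR K (g, 1) = 1 := by
  rcases h with rfl | rfl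
  · exact map_one _
  · exact twR_neg_one

theorem two_ne_zero_three : (2 : K) ≠ 0 := fun h => by
  have h3 : ((3 : ℕ) : K) = 0 := CharP.cast_eq_zero K 3
  have : (1 : K) = 0 := by push_cast at h3; linear_combination h3 - h
  exact one_ne_zero this

theorem tw_fpf (hm : ¬ IsSquare (-1 : K)) {g : SL(2, K)} (h0 : g.1.trace ≠ 0)
    (h4 : g.1.trace ^ 2 ≠ 4) (e : ℤˣ) (X : Matrix (Fin 2) (Fin 2) K) (h : twR K (g, e) X = X) :
    X = 0 := by
  have h3 : (3 : K) = 0 := by exact_mod_cast CharP.cast_eq_zero K 3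
  have h1 : twR K (g * g, 1) X = X := by
    rw [show ((g * g, 1) : SL(2, K) × ℤˣ) = (g, e) * (g, e) by simp, map_mul, LinearEquiv.mul_apply,
      h, h]
  have h2 : twR K (g * g * (g * g), 1) X = X := by
    rw [show ((g * g * (g * g), 1) : SL(2, K) × ℤˣ) = (g * g, 1) * (g * g, 1) by simp, map_mul,
      LinearEquiv.mul_apply, h1, h1]
  have ht : (g * g).1.trace = g.1.trace ^ 2 - 2 := by
    rw [show (g * g).1 = g.1 * g.1 from rfl, sl2_mul_self]
    simp [pow_two]
  generalize g * g = a at h1 h2 ht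
  rw [twR_apply, twE_apply] at h1 h2
  have ha := sl2_mul_self a
  have hb : (a.1.map (frobenius K 3))ᵀ * (a.1.map (frobenius K 3))ᵀ =
      a.1.trace ^ 3 • (a.1.map (frobenius K 3))ᵀ - 1 := by
    rw [← transpose_mul, ← Matrix.map_mul, ha]
    ext i j
    fin_cases i <;> fin_cases j <;> simp [frobenius_def, mul_pow, sub_pow_char]
  rw [show (a * a).1 = a.1 * a.1 from rfl, Matrix.map_mul, transpose_mul] at h2
  simp only [Units.val_one, Int.cast_one, one_smul] at h1 h2
  generalize (a.1.map (frobenius K 3))ᵀ = b at h1 h2 hb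
  have h5 : (a.1.trace - a.1.trace ^ 3) • (X * b) = 0 := by
    have e1 : a.1 * a.1 * X * (b * b) = a.1.trace • (a.1 * X * b * b) - X * (b * b) := by
      rw [ha]; simp [sub_mul, Matrix.mul_assoc]
    rw [e1, h1, hb] at h2
    rw [sub_smul]
    simp only [mul_sub, Matrix.mul_smul, mul_one] at h2
    rw [← sub_eq_zero] at h2
    rw [← h2]; abel
  have h6 : a.1.trace - a.1.trace ^ 3 ≠ 0 := by
    rw [ht]
    have : g.1.trace ^ 2 - 2 - (g.1.trace ^ 2 - 2) ^ 3 =
        -(g.1.trace ^ 2 + 1) * (g.1.trace ^ 2) * (g.1.trace ^ 2 - 4) := by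
      linear_combination (2 + g.1.trace ^ 4 - 5 * g.1.trace ^ 2) * h3
    rw [this]
    refine mul_ne_zero (mul_ne_zero (neg_ne_zero.2 fun h => hm ⟨g.1.trace, ?_⟩) (pow_ne_zero _ h0))
      (sub_ne_zero.2 h4)
    linear_combination -h
  have h7 := (smul_eq_zero.1 h5).resolve_left h6
  rw [← h1, Matrix.mul_assoc, h7, Matrix.mul_zero]

/-- the affine group -/
abbrev RA (K : Type*) [Field K] [CharP K 3] : Type _ := Aff (twR K).range.subtype

instance [Finite K] : Finite (twR K).range := Finite.of_surjective _ (twR K).rangeRestrict_surjective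

theorem RA.upper [Fintype K] (hq : Fintype.card K % 4 = 3) (x : RA K) :
    x ^ 6 = 1 ∨ x ^ 9 = 1 ∨ x ^ (Fintype.card K - 1) = 1 ∨ x ^ ((Fintype.card K + 1) / 2) = 1 := by
  have hm : ¬ IsSquare (-1 : K) := by rw [FiniteField.isSquare_neg_one_iff]; omega
  obtain ⟨⟨g, e⟩, hx⟩ := x.right.2
  have hp : ∀ n, twR K (g ^ n, e ^ n) = 1 → x.right ^ n = 1 := fun n h => Subtype.ext (by
    rw [Subgroup.coe_pow, ← hx, ← map_pow]; exact h)
  have he : ∀ n, Even n → e ^ n = 1 := fun n ⟨k, hk⟩ => by rw [hk, ← two_mul, pow_mul]; simp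
  by_cases h4 : g.1.trace ^ 2 = 4
  · have h3 : g ^ 3 = 1 ∨ g ^ 3 = -1 := by
      have h3 : ((3 : ℕ) : K) = 0 := CharP.cast_eq_zero K 3
      have : (g.1.trace - 2) * (g.1.trace + 2) = 0 := by linear_combination h4
      rcases mul_eq_zero.1 this with h | h
      · left
        apply Subtype.ext
        rw [sl2_pow_of_trace_eq_two (by linear_combination h), h3]; simp
      · right
        have : (-g) ^ 3 = 1 := by
          apply Subtype.ext
          rw [sl2_pow_of_trace_eq_two (by
            simp only [Matrix.SpecialLinearGroup.coe_neg, trace_neg]; linear_combination -h), h3]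
          simp
        rw [← this, Odd.neg_pow (by decide), neg_neg]
    rcases Int.units_eq_one_or e with rfl | rfl
    · exact Or.inr (Or.inl (x.pow_of_char 3 (n := 3) (hp 3 (by rw [one_pow]; exact twR_of h3))))
    · refine Or.inl (x.pow_of_fpf (hp 6 ?_) fun v hv => ?_)
      · rw [he 6 (by decide), show 6 = 3 * 2 from rfl, pow_mul]
        refine twR_of (Or.inl ?_)
        rcases h3 with h | h <;> rw [h] <;> simp
      · have h1 : twR K (g, -1) v = v := by rw [hx]; exact hv
        have h2 : twR K (g ^ 3, 1) (twR K (1, -1) v) = v := by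
          rw [← LinearEquiv.mul_apply, ← map_mul, show ((g ^ 3, 1) * (1, -1) : SL(2, K) × ℤˣ) =
            (g, -1) * (g, -1) * (g, -1) by simp [pow_succ], map_mul, map_mul, LinearEquiv.mul_apply,
            LinearEquiv.mul_apply, h1, h1, h1]
        rw [twR_of h3, twR_apply, twE_apply] at h2
        have h5 : (2 : K) • v = 0 := by
          simp at h2
          rw [two_smul]; nth_rewrite 1 [← h2]; simp
        exact (smul_eq_zero.1 h5).resolve_left two_ne_zero_three
  by_cases h0 : g.1.trace = 0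
  · refine Or.inl (x.pow_of_char 3 (n := 2) (hp 2 ?_))
    rw [he 2 (by decide), pow_two]
    exact twR_of (Or.inr (sl2_mul_self_of_trace h0))
  have hf : ∀ v, (twR K).range.subtype x.right v = v → v = 0 := fun v hv =>
    tw_fpf hm h0 h4 e v (by rw [hx]; exact hv)
  rcases pow_eq_one_of_trace_ne h4 with h | h
  · refine Or.inr (Or.inr (Or.inl (x.pow_of_fpf (hp _ ?_) hf)))
    rw [h, he _ (by rw [Nat.even_iff]; omega)]
    exact map_one _
  · refine Or.inr (Or.inr (Or.inr (x.pow_of_fpf (hp _ ?_) hf)))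
    rw [he _ (by rw [Nat.even_iff]; omega)]
    refine twR_of (sl2_eq_of_mul_self two_ne_zero_three ?_)
    rw [← pow_add, ← h]; congr 1; omega

/-- an element of the affine group -/
def RA.mk (w : Matrix (Fin 2) (Fin 2) K) (g : SL(2, K)) (e : ℤˣ) : RA K :=
  ⟨Multiplicative.ofAdd w, ⟨twR K (g, e), ⟨_, rfl⟩⟩⟩

theorem RA.mk_lin (w : Matrix (Fin 2) (Fin 2) K) (g : SL(2, K)) (e : ℤˣ) :
    (RA.mk w g e).lin = twE K (g, e) := rfl

theorem RA.mk_pow {w : Matrix (Fin 2) (Fin 2) K} {g : SL(2, K)} {e : ℤˣ} {k : ℕ}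
    (h : RA.mk w g e ^ k = 1) : twE K (g, e) ^ k = 1 := by
  have := ((RA.mk w g e).pow_eq_one_iff k).1 h
  rw [← RA.mk_lin w, Aff.lin, ← lin_pow, this.1, map_one]
  rfl

theorem pow_apply_eigen {F V : Type*} [Field F] [AddCommGroup V] [Module F V] {f : Module.End F V}
    {v : V} {c : F} (h : f v = c • v) (k : ℕ) : (f ^ k) v = c ^ k • v := by
  induction k with
  | zero => simp
  | succ k ih => rw [pow_succ, Module.End.mul_apply, h, map_smul, ih, smul_smul, pow_succ']

theorem RA.lower [Fintype K] (hq : Fintype.card K % 4 = 3) {d : ℕ}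
    (h : d ∣ 6 ∨ d ∣ 9 ∨ d ∣ Fintype.card K - 1 ∨ d ∣ (Fintype.card K + 1) / 2) :
    d ∈ Set.range (orderOf : RA K → ℕ) := by
  have h3 : (3 : K) = 0 := by exact_mod_cast CharP.cast_eq_zero K 3
  have h2 : (2 : K) ≠ 0 := two_ne_zero_three
  let u : SL(2, K) := ⟨!![1, 1; 0, 1], by simp [det_fin_two]⟩
  have hu : u.1.map (frobenius K 3) = u.1 := by
    ext i j; fin_cases i <;> fin_cases j <;> simp [u]
  have hu' : ∀ e X, twE K (u, e) X = ((e : ℤ) : K) • (!![1, 1; 0, 1] * X * !![1, 0; 1, 1]) := by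
    intro e X
    rw [twE_apply, hu]
    congr 2
    ext i j; fin_cases i <;> fin_cases j <;> simp [u]
  have hu3 : u ^ 3 = 1 := by
    apply Subtype.ext
    rw [sl2_pow_of_trace_eq_two (by simp [u]; norm_num), CharP.cast_eq_zero]; simp
  rcases h with h | h | h | h
  · refine mem_range_orderOf_of_dvd (x := RA.mk 0 u (-1)) (h.trans (Eq.dvd (Eq.symm ?_)))
    refine orderOf_eq_of_pow_and_pow_div_prime (by norm_num) ?_ ?_
    · rw [Aff.pow_eq_one_iff]
      refine ⟨Subtype.ext ?_, map_zero _⟩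
      change twR K (u, -1) ^ 6 = 1
      rw [← map_pow, show ((u, -1) : SL(2, K) × ℤˣ) ^ 6 = ((u ^ 3) ^ 2, ((-1) ^ 2) ^ 3) by
        rw [← pow_mul, ← pow_mul]; rfl, hu3]
      rw [one_pow, neg_one_sq, one_pow]
      exact map_one _
    · intro p hp hd h
      have h := RA.mk_pow h
      have : p = 2 ∨ p = 3 := by
        have := Nat.le_of_dvd (by norm_num) hd
        interval_cases p <;> simp_all (config := {decide := true})
      rcases this with rfl | rfl
      · have := congrArg (fun f : Module.End K _ => f !![1, 0; 0, 0] 0 0) h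
        simp [pow_succ, hu', Matrix.mul_apply] at this
        exact h2 (by linear_combination -this)
      · have := congrArg (fun f : Module.End K _ => f !![0, 0; 0, 1] 0 1) h
        simp [pow_succ, hu', Matrix.mul_apply] at this
        exact h2 (by linear_combination this)
  · refine mem_range_orderOf_of_dvd (x := RA.mk !![0, 0; 0, 1] u 1) (h.trans (Eq.dvd (Eq.symm ?_)))
    haveI : Fact (Nat.Prime 3) := ⟨by norm_num⟩
    refine orderOf_eq_prime_pow (p := 3) (n := 1) (fun h => ?_) ?_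
    · have := congrArg (fun X : Matrix (Fin 2) (Fin 2) K => X 0 0) ((Aff.pow_eq_one_iff _ _).1 h).2
      rw [RA.mk_lin] at this
      simp [Finset.sum_range_succ, pow_succ, hu', Matrix.mul_apply, RA.mk] at this
      exact h2 (by linear_combination this - h3)
    · refine Aff.pow_of_char 3 (n := 3) _ (Subtype.ext ?_)
      change twR K (u, 1) ^ 3 = 1
      rw [← map_pow, Prod.pow_mk, hu3, one_pow]
      exact map_one _
  · obtain ⟨n, hn⟩ : ∃ n, Fintype.card K = 2 * (2 * n + 1) + 1 := ⟨Fintype.card K / 4, by omega⟩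
    obtain ⟨l, hl⟩ : ∃ l : Kˣ, orderOf l = 2 * n + 1 := by
      obtain ⟨l, hl⟩ := IsCyclic.exists_ofOrder_eq_natCard (α := Kˣ)
      refine mem_range_orderOf_of_dvd (x := l) ?_
      rw [hl, Nat.card_units, Nat.card_eq_fintype_card, hn]
      exact ⟨2, by omega⟩
    let g : SL(2, K) := ⟨!![l, 0; 0, l⁻¹], by simp [det_fin_two]⟩
    refine mem_range_orderOf_of (x := RA.mk 0 g (-1)) h fun k hk => ?_
    have h5 : twE K (g, -1) !![1, 0; 0, 0] = (-(l : K) ^ 4) • !![1, 0; 0, 0] := by
      rw [twE_apply]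
      ext i j; fin_cases i <;> fin_cases j <;> simp [g, vecMul, dotProduct, frobenius_def]
      ring
    have h6 := congrArg (fun X : Matrix (Fin 2) (Fin 2) K => X 0 0) (pow_apply_eigen h5 k)
    simp [RA.mk_pow hk] at h6
    have h7 : 2 * n + 1 ∣ k := by
      have : l ^ (8 * k) = 1 := Units.ext (by
        rw [Units.val_pow_eq_pow_val, Units.val_one, ← one_pow 2, h6, ← pow_mul, mul_comm k, pow_mul,
          pow_mul]
        congr 1; ring)
      rw [← orderOf_dvd_iff_pow_eq_one, hl] at this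
      exact Nat.Coprime.dvd_of_dvd_mul_left
        (Nat.Coprime.pow_right 3 (by simp [Nat.coprime_two_right]) : Nat.Coprime _ (2 ^ 3)) this
    have h8 : 2 ∣ k := by
      by_contra h8
      have h9 : l ^ k = 1 := by rw [← orderOf_dvd_iff_pow_eq_one, hl]; exact h7
      have h10 : (l : K) ^ k = 1 := by rw [← Units.val_pow_eq_pow_val, h9, Units.val_one]
      rw [Odd.neg_pow (by rw [Nat.odd_iff]; omega), ← pow_mul, mul_comm, pow_mul, h10] at h6
      exact h2 (by linear_combination h6)
    rw [hn, Nat.add_sub_cancel]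
    exact Nat.Coprime.mul_dvd_of_dvd_of_dvd (by simp [Nat.coprime_two_left]) h8 h7
  · obtain ⟨g, hg, -⟩ := exists_orderOf_eq (F := K) (Or.inr dvd_rfl) (by omega)
    refine mem_range_orderOf_of (x := RA.mk 0 g 1) h fun k hk => ?_
    have h5 := RA.mk_pow hk
    rw [← map_pow, Prod.pow_mk, one_pow] at h5
    have h6 : ∀ X, (g ^ k).1 * X * ((g ^ k).1.map (frobenius K 3))ᵀ = X := fun X => by
      simpa [twE_apply] using congrArg (fun f : Module.End K _ => f X) h5
    have h7 : g ^ k ∈ Subgroup.center SL(2, K) := by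
      rw [Subgroup.mem_center_iff]
      intro X
      apply Subtype.ext
      have h8 := h6 1
      rw [Matrix.mul_one] at h8
      have h9 := mul_eq_one_comm.1 h8
      change X.1 * (g ^ k).1 = (g ^ k).1 * X.1
      conv_lhs => rw [← h6 X.1]
      rw [Matrix.mul_assoc, h9, Matrix.mul_one]
    have h8 : g ^ (2 * k) = 1 := by
      rw [mul_comm, pow_mul]
      rcases mem_center_SL2.1 h7 with h | h <;> rw [h] <;> simp
    rw [← orderOf_dvd_iff_pow_eq_one, hg] at h8
    refine Nat.dvd_of_mul_dvd_mul_left two_pos ?_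
    rwa [Nat.mul_div_cancel' (by omega)]

end Cfsg.Agent.H23
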