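import Cfsg.Agent.H24.Base6
import Cfsg.Agent.BG.S04a
import Cfsg.Agent.H2.PCen

/-! The rank of a `p`-group of odd order in terms of its abelian normal subgroups. -/

set_option autoImplicit false
set_option linter.style.haveILetI false
set_option linter.unusedSectionVars false

namespace Cfsg.Agent.H23R

open Subgroup H24
open scoped commutatorElement

variable {G : Type*} [Group G] [Finite G] {p : ℕ} [hp : Fact p.Prime]

theorem one {A K U M : Subgroup G} {x : G} (hA : A ≤ 𝐍[U]) (hM : ∀ a ∈ A, ⁅x, a⁆ ∈ M)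
    (hK : ∀ a ∈ A, ⁅x, a⁆ ∈ U → a ∈ K) : K.relIndex A ≤ U.relIndex M := by
  refine Nat.card_le_card_of_injective
    (fun q : A ⧸ K.subgroupOf A => ((⟨_, hM _ q.out.2⟩ : M) : M ⧸ U.subgroupOf M)) fun q r e => ?_
  rw [← q.out_eq, ← r.out_eq]
  refine QuotientGroup.eq.2 (hK _ (q.out⁻¹ * r.out).2 ?_)
  have e' : ((⟨_, hM _ q.out.2⟩ : M) : M ⧸ U.subgroupOf M) = (⟨_, hM _ r.out.2⟩ : M) := e
  have := conj_mem_of_mem_normalizer' (hA q.out.2) (mem_subgroupOf.1 (QuotientGroup.eq.1 e'))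
  convert this using 1
  simp only [commutatorElement_def, coe_mul, coe_inv, coe_subtype]; group

/-- elements commuting with `a` modulo `Y` -/
def cm1 (a : G) (Y : Subgroup G) : Subgroup G where
  carrier := {t | t ∈ 𝐍[Y] ∧ ⁅t, a⁆ ∈ Y}
  one_mem' := ⟨one_mem _, by simp⟩
  mul_mem' := fun {t s} ht hs => ⟨mul_mem ht.1 hs.1, by
    convert mul_mem (conj_mem_of_mem_normalizer ht.1 hs.2) ht.2 using 1
    simp only [commutatorElement_def]; group⟩
  inv_mem' := fun {t} ht => ⟨inv_mem ht.1, by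
    convert inv_mem (conj_mem_of_mem_normalizer' ht.1 ht.2) using 1
    simp only [commutatorElement_def]; group⟩

theorem le_of_cov {M B K : Subgroup G} {x : G} (h : M ⋖ B) (hx : x ∈ B) (hx' : x ∉ M) (h1 : M ≤ K)
    (h2 : x ∈ K) : B ≤ K :=
  inf_eq_left.1 ((h.eq_or_eq (le_inf h.le h1) inf_le_left).resolve_left fun e => hx' (e ▸ ⟨hx, h2⟩))

theorem pair {A B Y Y1 : Subgroup G} (hB : IsPGroup p B) (h1 : A ≤ 𝐍[Y]) (h2 : B ≤ 𝐍[Y])
    (h : ⁅B, A⁆ ≤ Y1) (hY : Y.relIndex Y1 ≤ p) :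
    (centMod B Y).relIndex A ≤ (centMod A Y).relIndex B := by
  suffices ∀ C ≤ B, B ⊓ centMod A Y ≤ C → (centMod C Y).relIndex A ≤ (B ⊓ centMod A Y).relIndex C by
    rw [← inf_relIndex_left (H := B)]; exact this B le_rfl inf_le_left
  intro C
  induction hn : Nat.card C using Nat.strong_induction_on generalizing C with | _ n ih => ?_
  intro c1 c2
  rcases c2.eq_or_lt with e | e
  · rw [relIndex_eq_one.2 (le_centMod_iff.2 ⟨h1, ?_⟩)]
    · exact Nat.pos_of_ne_zero (relIndex_ne_zero _)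
    · rw [← e, commutator_comm]; exact (commutator_mono le_rfl inf_le_right).trans commutator_centMod_le
  obtain ⟨M, m1, m2⟩ := exists_covBy_of_lt e
  obtain ⟨x, x1, x2⟩ := SetLike.exists_of_lt m2.lt
  have i1 := ih _ (hn ▸ card_lt_of_lt m2.lt) M rfl (m2.le.trans c1) m1
  have i2 : (centMod C Y).relIndex (A ⊓ centMod M Y) ≤ _ := one (x := x) (inf_le_left.trans h1)
    (fun a ha => h (commutator_mem_commutator (c1 x1) ha.1)) fun a ha e => mem_centMod.2 ⟨h1 ha.1,
      fun t ht => (le_of_cov (K := cm1 a Y) m2 x1 x2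
        (fun s hs => ⟨h2 (c1 (m2.le hs)), (mem_centMod.1 ha.2).2 s hs⟩) ⟨h2 (c1 x1), e⟩ ht).2⟩
  rw [← relIndex_mul_relIndex _ _ _ m1 m2.le, relIndex_eq_of_covBy (hB.to_le c1) m2]
  calc _ ≤ (centMod C Y ⊓ (A ⊓ centMod M Y)).relIndex A :=
        relIndex_le_of_le_left inf_le_left (relIndex_ne_zero _)
    _ = _ := (relIndex_mul_relIndex _ _ _ inf_le_right inf_le_left).symm
    _ ≤ _ := by
      rw [inf_relIndex_right, inf_relIndex_left, mul_comm]
      exact Nat.mul_le_mul i1 (i2.trans hY)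

theorem gen {H : Subgroup G} (hH : IsPGroup p H) (m : ℕ) (K : Subgroup G) (hK : K ≤ H)
    (h : (K ⊔ frattiniOf H).relIndex H ≤ p ^ m) :
    ∃ S : Finset G, S.card ≤ m ∧ K ⊔ closure (S : Set G) = H := by
  classical
  induction m generalizing K with
  | zero =>
    refine ⟨∅, le_rfl, ?_⟩
    have := le_of_le_sup_frattiniOf hK (relIndex_eq_one.1
      (le_antisymm (by simpa using h) (Nat.pos_of_ne_zero (relIndex_ne_zero _))))
    simpa using hK.antisymm this
  | succ m ih =>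
    by_cases e : H ≤ K ⊔ frattiniOf H
    · exact ⟨∅, by simp, by simpa using hK.antisymm (le_of_le_sup_frattiniOf hK e)⟩
    obtain ⟨x, x1, x2⟩ := SetLike.not_le_iff_exists.1 e
    have l1 : K ⊔ zpowers x ≤ H := sup_le hK (zpowers_le.2 x1)
    have l2 := sup_le l1 (frattiniOf_le H)
    obtain ⟨S, s1, s2⟩ := ih _ l1 (by
      rw [← relIndex_mul_relIndex _ _ _ (sup_le_sup_right le_sup_left _) l2, pow_succ'] at h
      exact Nat.le_of_mul_le_mul_left ((Nat.mul_le_mul_right _ (Nat.le_of_dvd (Nat.pos_of_ne_zero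
        (relIndex_ne_zero _)) (dvd_relIndex_of_not_le (hH.to_le l2) fun a =>
          x2 (a (mem_sup_left (mem_sup_right (mem_zpowers x))))))).trans h) hp.out.pos)
    refine ⟨insert x S, (Finset.card_insert_le _ _).trans (by omega), ?_⟩
    rw [Finset.coe_insert, Set.insert_eq, Subgroup.closure_union, ← zpowers_eq_closure, ← sup_assoc, s2]

theorem card_clo {E : Subgroup G} (hE : IsElementaryAbelian p E) (S : Finset G) (h : ∀ x ∈ S, x ∈ E) :
    Nat.card (closure (S : Set G)) ≤ p ^ S.card := by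
  classical
  induction S using Finset.induction_on with
  | empty => simp
  | insert x S hx ih =>
    have h1 := h x (Finset.mem_insert_self _ _)
    have h2 := fun y hy => h y (Finset.mem_insert_of_mem hy)
    rw [Finset.coe_insert, Set.insert_eq, Subgroup.closure_union, ← zpowers_eq_closure,
      Finset.card_insert_of_notMem hx, pow_succ']
    refine (Nat.le_of_dvd (Nat.mul_pos Nat.card_pos Nat.card_pos) (card_sup_dvd
      (le_normalizer_of_le_centralizer (((zpowers_le.2 h1).trans (isEA_iff.1 hE).1).trans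
        (centralizer_anti ((closure_le _).2 h2)))))).trans (Nat.mul_le_mul ?_ (ih h2))
    rw [Nat.card_zpowers]
    exact orderOf_le_of_pow_eq_one hp.out.pos (hE.2 x h1)

variable {H E : Subgroup G}

theorem stp (hH : IsPGroup p H) {C D : Subgroup G} (h0 : C ≤ D) (h1 : D ≤ H) {b : ℕ}
    (h : (C ⊔ ⁅D, H⁆).relIndex D ≤ b) :
    (C ⊔ frattiniOf H).relIndex H ≤ b * (D ⊔ frattiniOf H).relIndex H := by
  have f := commutator_le_frattiniOf hH
  rw [← relIndex_mul_relIndex _ _ _ (sup_le_sup_right h0 _) (sup_le h1 (frattiniOf_le H))]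
  refine Nat.mul_le_mul_right _ (le_trans ?_ h)
  rw [show D ⊔ frattiniOf H = D ⊔ (C ⊔ frattiniOf H) by rw [← sup_assoc, sup_eq_left.2 h0],
    relIndex_sup_of_le_normalizer (h1.trans (le_normalizer_of_commutator_le
      (sup_le (h0.trans h1) (frattiniOf_le H)) (f.trans le_sup_right)))]
  exact relIndex_le_of_le_left (sup_le_sup_left ((commutator_mono h1 le_rfl).trans f) _)
    (relIndex_ne_zero _)

theorem drop {P X Y Z : Subgroup G} (hP : IsPGroup p P) (h1 : X < Y) (h2 : Y ≤ Z) (h3 : Z ≤ P) :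
    p ≤ X.relIndex Y ∧ X.relIndex Y * Y.relIndex Z = X.relIndex Z :=
  ⟨Nat.le_of_dvd (Nat.pos_of_ne_zero (relIndex_ne_zero _))
    (dvd_relIndex_of_not_le (hP.to_le (h2.trans h3)) h1.not_ge), relIndex_mul_relIndex _ _ _ h1.le h2⟩

theorem rel {H K L : Subgroup G} (h : L ≤ H) : (H ⊓ K).relIndex L = K.relIndex L := by
  rw [← inf_relIndex_right, inf_comm H, inf_assoc, inf_eq_right.2 h, inf_relIndex_right]

variable (hP : IsPGroup p G) (hE : IsElementaryAbelian p E) {b : ℕ}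
  (hb : ∀ U W : Subgroup G, U ≤ W → W ≤ E → ⁅W, H⁆ ≤ U → U.relIndex W ≤ b)
include hP hE hb

theorem line {U W : Subgroup G} (h1 : U ≤ W) (h2 : W ≤ E) (h3 : ⁅W, H⁆ ≤ U) (c : ℕ) (Y : Subgroup G)
    (hY : Y ≤ U) (hn : H ≤ 𝐍[Y]) (hc : Y.relIndex U ≤ p ^ c) :
    (H ⊓ centMod W Y ⊔ frattiniOf H).relIndex H ≤ b ^ c := by
  have hEn : ∀ A ≤ E, E ≤ 𝐍[A] := fun A h =>
    le_normalizer_of_le_centralizer ((isEA_iff.1 hE).1.trans (centralizer_anti h))
  have base : ∀ Y ≤ U, H ≤ 𝐍[Y] → U ≤ Y → (H ⊓ centMod W Y ⊔ frattiniOf H).relIndex H = 1 :=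
    fun Y _ a e => relIndex_eq_one.2 (le_sup_of_le_left (le_inf le_rfl (le_centMod_iff.2 ⟨a, h3.trans e⟩)))
  induction c generalizing Y with
  | zero => exact (base Y hY hn (relIndex_eq_one.1 (le_antisymm (by simpa using hc)
      (Nat.pos_of_ne_zero (relIndex_ne_zero _))))).le
  | succ c ih =>
    by_cases e : U ≤ Y
    · rw [base Y hY hn e]
      exact Nat.one_le_pow _ _ ((Nat.pos_of_ne_zero (relIndex_ne_zero _)).trans_le (hb U W h1 h2 h3))
    have hU := le_normalizer_of_commutator_le h1 h3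
    have hW := le_normalizer_of_commutator_le le_rfl (h3.trans h1)
    haveI := (hP.to_subgroup (H ⊔ E)).isNilpotent
    obtain ⟨V, v1, -, v2, v3⟩ := exists_not_le_commutator_le (K := H ⊔ E)
      (h1.trans (h2.trans le_sup_right)) (sup_le hU (hEn _ (h1.trans h2))) e
    obtain ⟨y, y1, y2⟩ := SetLike.not_le_iff_exists.1 v2
    have y3 := zpowers_le.2 (v1 y1)
    have hYE := hY.trans (h1.trans h2)
    have n1 := hEn Y hYE
    have z1 : ⁅zpowers y ⊔ Y, H⁆ ≤ Y := commutator_sup_left_le (y3.trans (h1.trans (h2.trans n1)))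
      le_normalizer ((commutator_mono (zpowers_le.2 y1) le_sup_left).trans v3)
      (commutator_le_left_of_le_normalizer hn)
    have z2 : Y.relIndex (zpowers y ⊔ Y) ≤ p := by
      rw [relIndex_sup_of_le_normalizer (y3.trans (h1.trans (h2.trans n1)))]
      refine (Nat.le_of_dvd Nat.card_pos (relIndex_dvd_card' _ _)).trans ?_
      rw [Nat.card_zpowers]
      exact orderOf_le_of_pow_eq_one hp.out.pos (hE.2 y (h2 (h1 (v1 y1))))
    have z3 : Y < zpowers y ⊔ Y := le_sup_right.lt_of_ne fun a => y2 (a ▸ mem_sup_left (mem_zpowers y))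
    have z4 := sup_le y3 hY
    generalize zpowers y ⊔ Y = Z at *
    have z5 := le_normalizer_of_commutator_le le_rfl (z1.trans z3.le)
    obtain ⟨d1, d2⟩ := drop (hP.to_subgroup ⊤) z3 z4 le_top
    have i := ih Z z4 z5 (Nat.le_of_mul_le_mul_left ((Nat.mul_le_mul_right _ d1).trans
      (by rwa [d2, ← pow_succ'])) hp.out.pos)
    have c0 : ∀ Y, ⁅W, H ⊓ centMod W Y⁆ ≤ Y := fun Y =>
      (commutator_mono le_rfl inf_le_right).trans commutator_centMod_le
    have c1 : H ⊓ centMod W Y ≤ H ⊓ centMod W Z :=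
      le_inf inf_le_left (le_centMod_iff.2 ⟨inf_le_left.trans z5, (c0 Y).trans z3.le⟩)
    rw [pow_succ']
    refine (stp (hP.to_subgroup H) c1 inf_le_left ?_).trans (Nat.mul_le_mul_left _ i)
    have c2 := sup_le c1 (commutator_le_left_of_le_normalizer
      (le_normalizer_inf le_normalizer (le_normalizer_centMod hW z5)))
    have c3 : ⁅H ⊓ centMod W Z, H⁆ ≤ H ⊓ centMod W Y ⊔ ⁅H ⊓ centMod W Z, H⁆ := le_sup_right
    have c4 : H ⊓ centMod W Y ≤ H ⊓ centMod W Y ⊔ ⁅H ⊓ centMod W Z, H⁆ := le_sup_left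
    have c5 := c0 Z
    have c6 : H ⊓ centMod W Z ≤ H := inf_le_left
    generalize H ⊓ centMod W Y ⊔ ⁅H ⊓ centMod W Z, H⁆ = K at *
    generalize H ⊓ centMod W Z = C at *
    have p1 := pair (hP.to_subgroup W) (c6.trans hn) (h2.trans n1) c5 z2
    have p2 := pair (hP.to_subgroup K) (h2.trans n1) (c2.trans (c6.trans hn))
      (by rw [commutator_comm]; exact (commutator_mono le_rfl c2).trans c5) z2
    have e1 : W ⊓ centMod C Y ≤ W ⊓ centMod K Y := le_inf inf_le_left (le_centMod_iff.2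
      ⟨inf_le_left.trans (h2.trans n1), (commutator_mono c2 inf_le_right).trans commutator_centMod_le⟩)
    have e2 := hb _ _ e1 (inf_le_left.trans h2) (le_inf ((commutator_mono inf_le_left le_rfl).trans
      (h3.trans h1)) (le_centMod_iff.2 ⟨(commutator_mono inf_le_left le_rfl).trans
        (h3.trans (h1.trans (h2.trans n1))), by
          rw [commutator_comm]
          refine three_subgroups (inf_le_left.trans (h2.trans n1)) hn (c6.trans hn) ?_ ?_
          · rw [commutator_comm H]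
            exact (commutator_mono c3 inf_le_right).trans commutator_centMod_le
          · rw [commutator_comm C]
            exact (commutator_mono ((commutator_mono inf_le_left le_rfl).trans c5) le_rfl).trans z1⟩))
    rw [← rel c6, ← relIndex_mul_relIndex _ _ _ c4 c2, ← inf_relIndex_left (H := W),
      ← relIndex_mul_relIndex _ _ _ e1 inf_le_left, inf_relIndex_left, mul_comm] at p1
    rw [← rel (c2.trans c6)] at p2
    exact Nat.le_of_mul_le_mul_right (p1.trans (Nat.mul_le_mul e2 p2))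
      (Nat.pos_of_ne_zero (relIndex_ne_zero _))

theorem plane {W : Subgroup G} (h0 : H ≤ 𝐍[W]) (a : ℕ) (X : Subgroup G) (h1 : W ≤ X) (h2 : X ≤ E)
    (hn : H ≤ 𝐍[X]) (hc : W.relIndex X ≤ p ^ a) (hb1 : 1 ≤ b) :
    (H ⊓ 𝐂[X] ⊔ frattiniOf H).relIndex H ≤ b ^ a * (H ⊓ 𝐂[W] ⊔ frattiniOf H).relIndex H := by
  have hEn : ∀ A ≤ E, E ≤ 𝐍[A] := fun A h =>
    le_normalizer_of_le_centralizer ((isEA_iff.1 hE).1.trans (centralizer_anti h))
  induction a generalizing X with
  | zero =>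
    rw [h1.antisymm (relIndex_eq_one.1 (le_antisymm (by simpa using hc)
      (Nat.pos_of_ne_zero (relIndex_ne_zero _)))), pow_zero, one_mul]
  | succ a ih =>
    rcases h1.eq_or_lt with rfl | e
    · exact Nat.le_mul_of_pos_left _ (Nat.one_le_pow _ _ hb1)
    obtain ⟨Z, z1, z2⟩ := exists_covBy_of_lt ((sup_le h1 (commutator_le_left_of_le_normalizer hn)).lt_of_ne
      fun k => e.not_ge (le_of_le_sup_commutator' (hP.to_subgroup X) (hP.to_subgroup H) hn h0
        (h2.trans (hEn _ (h1.trans h2))) k.ge))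
    obtain ⟨x, x1, x2⟩ := SetLike.exists_of_lt z2.lt
    have z3 := le_sup_right.trans z1
    have z4 := le_normalizer_of_commutator_le z2.le z3
    obtain ⟨d1, -⟩ := drop (hP.to_subgroup ⊤) z2.lt le_rfl le_top
    have i := ih Z (le_sup_left.trans z1) (z2.le.trans h2) z4 (Nat.le_of_mul_le_mul_right
      ((Nat.mul_le_mul_left _ d1).trans (by
        rwa [relIndex_mul_relIndex _ _ _ (le_sup_left.trans z1) z2.le, ← pow_succ])) hp.out.pos)
    have c1 : H ⊓ 𝐂[X] ≤ H ⊓ 𝐂[Z] := inf_le_inf_left _ (centralizer_anti z2.le)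
    rw [pow_succ', mul_assoc]
    refine (stp (hP.to_subgroup H) c1 inf_le_left ?_).trans (Nat.mul_le_mul_left _ i)
    have n1 := le_normalizer_inf le_normalizer (le_normalizer_centralizer z4)
    have c2 := sup_le c1 (commutator_le_left_of_le_normalizer n1)
    have c3 : ⁅H ⊓ 𝐂[Z], H⁆ ≤ H ⊓ 𝐂[X] ⊔ ⁅H ⊓ 𝐂[Z], H⁆ := le_sup_right
    have c4 : H ⊓ 𝐂[X] ≤ H ⊓ 𝐂[X] ⊔ ⁅H ⊓ 𝐂[Z], H⁆ := le_sup_left
    have n2 := le_normalizer_commutator hn (le_normalizer_of_commutator_le c2 c3)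
    generalize H ⊓ 𝐂[X] ⊔ ⁅H ⊓ 𝐂[Z], H⁆ = K at *
    have m : ∀ k ∈ H, ⁅x, k⁆ ∈ Z := fun k hk => z3 (commutator_mem_commutator x1 hk)
    let T : Subgroup G :=
      { carrier := {u | ∃ k ∈ K, ⁅x, k⁆ = u}
        one_mem' := ⟨1, one_mem _, by simp⟩
        mul_mem' := by
          rintro _ _ ⟨k, hk, rfl⟩ ⟨l, hl, rfl⟩
          refine ⟨_, mul_mem hk hl, ?_⟩
          rw [← mem_centralizer_iff_conj.1 (c2 hk).2 _ (m l (c2 hl).1)]
          simp only [commutatorElement_def]; group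
        inv_mem' := by
          rintro _ ⟨k, hk, rfl⟩
          refine ⟨_, inv_mem hk, ?_⟩
          rw [← mem_centralizer_iff_conj.1 (c2 hk).2 _ (m _ (inv_mem (c2 hk).1))]
          simp only [commutatorElement_def]; group }
    have t1 := hEn T (by rintro _ ⟨k, hk, rfl⟩; exact h2 (z2.le (m k (c2 hk).1)))
    have t2 : ⁅X, K⁆ ≤ T := commutator_le.2 fun t ht k hk => (le_of_cov (K := cm1 k T) z2 x1 x2
      (fun s hs => ⟨t1 (h2 (z2.le hs)), by
        rw [commutatorElement_eq_one_iff_mul_comm.2 (mem_centralizer_iff'.1 (c2 hk).2 s hs)]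
        exact one_mem _⟩) ⟨t1 (h2 x1), k, hk, rfl⟩ ht).2
    have l1 := (commutator_mono le_rfl (inf_le_left : H ⊓ 𝐂[Z] ≤ H)).trans (z3.trans (z2.le.trans h2))
    refine (one (x := x) (inf_le_left.trans n2) (fun a ha => commutator_mem_commutator x1 ha)
      fun a ha k => ?_).trans (hb _ _ (commutator_mono le_rfl c2) l1 (three_subgroups
        (h2.trans (hEn _ ((commutator_mono le_rfl c2).trans l1))) (inf_le_left.trans n2) n2 ?_ ?_))
    · obtain ⟨k, hk, e⟩ := t2 k
      have hk' := mul_mem (inv_mem (c2 hk)) ha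
      refine (mul_mem_cancel_left (inv_mem hk)).1 (c4 ⟨hk'.1, mem_centralizer_iff'.2 fun t ht =>
        mem_centralizer_singleton_iff.1 (le_of_cov (K := centralizer {k⁻¹ * a}) z2 x1 x2 (fun s hs =>
          mem_centralizer_singleton_iff.2 (mem_centralizer_iff'.1 hk'.2 s hs))
            (mem_centralizer_singleton_iff.2 ?_) ht)⟩)
      calc _ = k⁻¹ * ⁅x, k⁆⁻¹ * ⁅x, a⁆ * a * x := by simp only [commutatorElement_def]; group
        _ = _ := by rw [e]; group
    · rw [commutator_comm]; exact commutator_mono le_rfl c3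
    · rw [commutator_comm H]
      exact (commutator_mono z3 inf_le_right).trans ((le_centralizer_iff_commutator'.1 le_rfl).le.trans bot_le)

omit hE hb in
theorem rank (hp2 : p ≠ 2) (k : ℕ) (hab : ∀ A : Subgroup G, A.Normal → IsMulCommutative A →
    ∃ S : Finset G, S.card ≤ k ∧ closure (S : Set G) = A) (H : Subgroup G) :
    ∃ S : Finset G, S.card ≤ k * (k + 4) / 4 ∧ closure (S : Set G) = H := by
  have hT := hP.to_subgroup ⊤
  obtain ⟨E, -, n, hE, hO⟩ := BG.exists_max_normal_abelem (A := ⊥) hT (by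
    obtain ⟨n, hn⟩ := exists_card_eq_pow hT
    exact hn ▸ (hp.out.odd_of_ne_two hp2).pow) ⟨bot_le, top_le_normalizer ⊥⟩ (BG.elem_bot p)
  obtain ⟨S, s1, s2⟩ := hab E (top_le_normalizer_iff.1 n.2) hE.1
  have e1 : Nat.card E ≤ p ^ k := s2 ▸ (card_clo hE S fun x hx => s2 ▸ subset_closure hx).trans
    (Nat.pow_le_pow_right hp.out.pos s1)
  obtain ⟨⟨U, W⟩, ⟨u1, u2, u3⟩, hb⟩ := Set.exists_max_image
    {x : Subgroup G × Subgroup G | x.1 ≤ x.2 ∧ x.2 ≤ E ∧ ⁅x.2, H⁆ ≤ x.1} (fun x => x.1.relIndex x.2)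
    (Set.toFinite _) ⟨(⊥, ⊥), le_rfl, bot_le, by simp⟩
  replace hb := fun U W a b c => hb (U, W) ⟨a, b, c⟩
  obtain ⟨r, hr⟩ := exists_relIndex_eq_pow (hP.to_subgroup W) U
  obtain ⟨a, ha⟩ := exists_relIndex_eq_pow (hP.to_subgroup E) W
  obtain ⟨c, hc⟩ := exists_relIndex_eq_pow (hP.to_subgroup U) ⊥
  have e2 : Nat.card E = p ^ (c + r + a) := by
    rw [pow_add, pow_add, ← hc, ← hr, ← ha, relIndex_mul_relIndex _ _ _ bot_le u1,
      relIndex_mul_relIndex _ _ _ bot_le u2, relIndex_bot_left]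
  have e3 := (Nat.pow_le_pow_iff_right hp.out.one_lt).1 (e2 ▸ e1)
  have l := line hP hE hb u1 u2 u3 c ⊥ bot_le (le_top.trans (top_le_normalizer ⊥)) hc.le
  rw [centMod_bot] at l
  have l2 := (plane hP hE hb (le_normalizer_of_commutator_le le_rfl (u3.trans u1)) a E u2 le_rfl
    (le_top.trans n.2) ha.le (Nat.pos_of_ne_zero (relIndex_ne_zero _))).trans (Nat.mul_le_mul_left _ l)
  have f : H ⊓ 𝐂[E] ≤ 𝐍[frattiniOf H] := le_normalizer_frattiniOf (le_normalizer_of_le inf_le_left)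
  haveI := normal_subgroupOf_of_le_normalizer' f
  have l3 := H2.PCen.relIndex_le hp2 (hP.to_subgroup (H ⊓ 𝐂[E])) (B := frattiniOf H)
    (fun x hx h => hO ▸ BG.mem_omegaOne ⟨mem_top x, hx.2⟩ h) inf_le_right
    fun x hx => pow_mem_frattiniOf (hP.to_subgroup H) hx.1
  obtain ⟨R, r1, r2⟩ := gen (hP.to_subgroup H) (k * (k + 4) / 4) ⊥ bot_le (by
    rw [bot_sup_eq, ← relIndex_mul_relIndex _ _ _ (le_sup_right (a := H ⊓ 𝐂[E]))
      (sup_le inf_le_left (frattiniOf_le H)), relIndex_sup_of_le_normalizer f]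
    refine (Nat.mul_le_mul l3 l2).trans ?_
    rw [e2, hr, ← pow_add, ← pow_mul, ← pow_add]
    refine Nat.pow_le_pow_right hp.out.pos ((Nat.le_div_iff_mul_le (by norm_num)).2 ?_)
    obtain ⟨d, rfl⟩ := Nat.exists_eq_add_of_le e3
    zify
    nlinarith [sq_nonneg ((r : ℤ) - a - c), Int.natCast_nonneg d, Int.natCast_nonneg r,
      Int.natCast_nonneg a, Int.natCast_nonneg c])
  exact ⟨R, r1, by simpa using r2⟩

end Cfsg.Agent.H23R
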