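import Cfsg.Agent.H24.Base6

/-! Sylow 2-subgroups of symmetric groups, intrinsically. -/

set_option autoImplicit false
set_option linter.style.haveILetI false
set_option linter.unusedSectionVars false

namespace Cfsg.Agent.H23S

open Subgroup H24 Equiv Equiv.Perm

variable {α : Type*} [Fintype α] [DecidableEq α] {T X : Subgroup (Perm α)} {U V : Finset α}
  {a b c : α} {g s t z : Perm α}

/-- permutations supported in `U` -/
def SU (U : Finset α) : Subgroup (Perm α) where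
  carrier := {g | ∀ a ∉ U, g a = a}
  one_mem' := fun _ _ => rfl
  mul_mem' := fun {g k} hg hk a ha => by rw [mul_apply, hk a ha, hg a ha]
  inv_mem' := fun {g} hg a ha => inv_eq_iff_eq.2 (hg a ha).symm

theorem SU_mem (hg : g ∈ SU U) : g a ∈ U ↔ a ∈ U :=
  ⟨fun h => by_contra fun k => k (hg a k ▸ h), fun h => by_contra fun k => k (by
    rw [g.injective (hg _ k)]; exact h)⟩

theorem SU_mono (h : U ⊆ V) : SU U ≤ SU V := fun _ hg a ha => hg a fun k => ha (h k)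

theorem SU_comm (hg : g ∈ SU U) (hs : s ∈ SU Uᶜ) : g * s = s * g :=
  Disjoint.commute fun a => (em (a ∈ U)).symm.imp (hg a) fun h => hs a (by simpa using h)

theorem swap_SU (ha : a ∈ U) (hb : b ∈ U) : swap a b ∈ SU U := fun _ hc =>
  swap_apply_of_ne_of_ne (fun e => hc (e ▸ ha)) fun e => hc (e ▸ hb)

/-- invariant sets -/
def Inv (T : Subgroup (Perm α)) (U : Finset α) : Prop := ∀ t ∈ T, ∀ a, t a ∈ U ↔ a ∈ U

theorem Inv.union (h : Inv T U) (k : Inv T V) : Inv T (U ∪ V) := fun t ht a => by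
  simp only [Finset.mem_union, h t ht, k t ht]

theorem Inv.compl (h : Inv T U) : Inv T Uᶜ := fun t ht a => by simp only [Finset.mem_compl, h t ht]

theorem Inv.norm (h : Inv T U) : T ≤ 𝐍[SU U] := fun t ht => mem_normalizer_of_conj_mem fun g hg a ha => by
  rw [mul_apply, mul_apply, hg _ (by rwa [h _ (inv_mem ht)])]; simp

/-- the permutations whose restriction to `U` lies in `X` -/
def Li (X : Subgroup (Perm α)) (U : Finset α) : Subgroup (Perm α) where
  carrier := {t | ∃ s ∈ X, s ∈ SU U ∧ ∀ b ∈ U, s b = t b}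
  one_mem' := ⟨1, one_mem _, one_mem _, fun _ _ => rfl⟩
  mul_mem' := by
    rintro t k ⟨s, a, b, c⟩ ⟨r, d, e, f⟩
    exact ⟨_, mul_mem a d, mul_mem b e, fun x hx => by
      rw [mul_apply, mul_apply, c _ ((SU_mem e).2 hx), f x hx]⟩
  inv_mem' := by
    rintro t ⟨s, a, b, c⟩
    exact ⟨_, inv_mem a, inv_mem b, fun x hx => eq_inv_iff_eq.2 (by
      rw [← c _ ((SU_mem (inv_mem b)).2 hx)]; simp)⟩

theorem rest (h1 : ∀ b ∈ U, s b = t b) : s⁻¹ * t ∈ SU Uᶜ := fun a ha => by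
  rw [mul_apply, ← h1 a (by simpa using ha)]; simp

theorem le_Li : SU Uᶜ ≤ Li X U := fun _ ht =>
  ⟨1, one_mem _, one_mem _, fun b hb => (ht b (by simpa using hb)).symm⟩

theorem Li_iff (ht : t ∈ SU U) : t ∈ Li X U ↔ t ∈ X :=
  ⟨fun ⟨s, h1, h2, h3⟩ => (Equiv.ext fun a => (em (a ∈ U)).elim (h3 a) fun k => by
    rw [h2 a k, ht a k] : s = t) ▸ h1, fun h => ⟨t, h, ht, fun _ _ => rfl⟩⟩

open Classical in
/-- orbits -/
noncomputable def orb (T : Subgroup (Perm α)) (a : α) : Finset α := Finset.univ.filter fun b => ∃ t ∈ T, t a = b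

theorem mem_orb : b ∈ orb T a ↔ ∃ t ∈ T, t a = b := by simp [orb]

theorem orb_self (a : α) : a ∈ orb T a := mem_orb.2 ⟨1, one_mem _, rfl⟩

theorem orb_inv (a : α) : Inv T (orb T a) := fun t ht b => by
  simp only [mem_orb]
  exact ⟨fun ⟨s, h, e⟩ => ⟨_, mul_mem (inv_mem ht) h, by simp [e]⟩,
    fun ⟨s, h, e⟩ => ⟨_, mul_mem ht h, by simp [e]⟩⟩

theorem Inv.orb_sub (h : Inv T U) (ha : a ∈ U) : orb T a ⊆ U := fun b hb => by
  obtain ⟨t, ht, rfl⟩ := mem_orb.1 hb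
  exact (h t ht a).2 ha

theorem orb_eq (h : b ∈ orb T a) : orb T b = orb T a := by
  refine ((orb_inv a).orb_sub h).antisymm ((orb_inv b).orb_sub ?_)
  obtain ⟨t, ht, rfl⟩ := mem_orb.1 h
  exact mem_orb.2 ⟨_, inv_mem ht, by simp⟩

theorem orb_dis (h : b ∉ orb T a) : orb T b ⊆ (orb T a)ᶜ := (orb_inv a).compl.orb_sub (by simpa using h)

theorem ind (h : ∀ a, t ∈ Li X (orb T a)) : t ∈ X := by
  induction hn : t.support.card using Nat.strong_induction_on generalizing t with | _ n ih => ?_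
  by_cases e : t = 1
  · exact e ▸ one_mem _
  obtain ⟨a, ha⟩ := Finset.nonempty_iff_ne_empty.2 (mt support_eq_empty_iff.1 e)
  obtain ⟨s, s1, s2, s3⟩ := h a
  have h1 : (s⁻¹ * t).support ⊆ t.support := fun b hb => by
    refine mem_support.2 fun k => mem_support.1 hb ?_
    by_cases c : b ∈ orb T a
    · exact rest s3 b (by simpa using c)
    · rw [mul_apply, k, inv_mem s2 b c]
  have h2 : ¬ t.support ⊆ (s⁻¹ * t).support := fun k =>
    mem_support.1 (k ha) (rest s3 a (by simpa using orb_self a))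
  have h3 : ∀ b, s⁻¹ * t ∈ Li X (orb T b) := fun b => by
    by_cases c : b ∈ orb T a
    · rw [orb_eq c]; exact le_Li (rest s3)
    · exact mul_mem (inv_mem (le_Li (SU_mono (by simpa using Finset.compl_subset_compl.2 (orb_dis c)) s2)))
        (h b)
  exact (X.mul_mem_cancel_left (inv_mem s1)).1 (ih _ (hn ▸ Finset.card_lt_card ⟨h1, h2⟩) h3 rfl)

theorem fixp (h : g * swap a b = swap a b * g) (hab : a ≠ b) : g a = a ∨ g a = b := by
  by_contra! k
  have := congrArg (· a) h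
  simp only [mul_apply, swap_apply_left, swap_apply_of_ne_of_ne k.1 k.2] at this
  exact hab (g.injective this).symm

theorem par (hab : a ≠ b) (t : Perm α) : t ∈ alternatingGroup α ∨ t * swap a b ∈ alternatingGroup α :=
  (Int.units_eq_one_or (sign t)).imp_right fun e => by simp [mem_alternatingGroup, e, hab]

theorem swap_odd (hab : a ≠ b) : swap a b ∉ alternatingGroup α := by simp [mem_alternatingGroup, hab]

theorem exz {G : Type*} [Group G] [Finite G] {T N : Subgroup G} (hT : IsPGroup 2 T) (h1 : IsPGroup 2 N)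
    (h2 : T ≤ 𝐍[N]) (h3 : N ≠ ⊥) : ∃ z ∈ N, z ∈ 𝐂[T] ∧ z ≠ 1 ∧ z * z = 1 := by
  obtain ⟨⟨x, hx⟩, h⟩ := ne_bot_iff_exists_ne_one.1 (inf_centralizer_ne_bot h1 hT h2 h3)
  obtain ⟨k, hk⟩ := isPGroup_iff.1 h1 x hx.1
  obtain ⟨y, y1, y2, y3⟩ := exists_pow_prime_of_ne_one hk fun e => h (Subtype.ext e)
  have := zpowers_le.2 hx y1
  exact ⟨y, this.1, this.2, y2, by rwa [← sq]⟩

theorem moves (h1 : z ∈ 𝐂[T]) (h2 : z a ≠ a) (hb : b ∈ orb T a) : z b ≠ b := by
  obtain ⟨t, ht, rfl⟩ := mem_orb.1 hb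
  rw [← mul_apply, ← mem_centralizer_iff'.1 h1 t ht, mul_apply]
  exact t.injective.ne h2

variable (hT : SylIn 2 T ⊤)
include hT

theorem card_orb (a : α) : ∃ k, (orb T a).card = 2 ^ k := by
  obtain ⟨k, hk⟩ := hT.pgrp.card_orbit a
  exact ⟨k, hk ▸ (Nat.subtype_card _ fun b => mem_orb.trans
    ⟨fun ⟨t, h, e⟩ => ⟨⟨t, h⟩, e⟩, fun ⟨t, e⟩ => ⟨t, t.2, e⟩⟩).symm⟩

theorem split (h : Inv T U) : T ≤ Li T U := fun t ht => by
  let φ : T →* Perm α := ofSubtype.comp (MonoidHom.mk' (fun t : T => t.1.subtypePerm (h t t.2)) fun _ _ => rfl)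
  have h1 : ∀ t, ∀ a ∈ U, φ t a = t.1 a := fun t a => ofSubtype_subtypePerm_of_mem (h t t.2)
  have h2 : ∀ t, φ t ∈ SU U := fun t a => ofSubtype_subtypePerm_of_not_mem (h t t.2)
  refine ⟨φ ⟨t, ht⟩, hT.le_of_normalizes (hT.pgrp.of_surjective _ φ.rangeRestrict_surjective) le_top
    (fun g hg => mem_normalizer_of_conj_mem ?_) ⟨_, rfl⟩, h2 _, h1 _⟩
  rintro _ ⟨s, rfl⟩
  refine ⟨⟨g, hg⟩ * s * ⟨g, hg⟩⁻¹, Equiv.ext fun a => ?_⟩
  by_cases e : a ∈ U
  · rw [h1 _ a e]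
    show _ = g (φ s (g⁻¹ a))
    rw [h1 _ _ ((h _ (inv_mem hg) a).2 e)]; rfl
  · rw [h2 _ a e, conj_mem_of_mem_normalizer (h.norm hg) (h2 s) a e]

theorem trans (h : Inv T U) {k : ℕ} (hk : U.card = 2 ^ k) (ha : a ∈ U) : U ⊆ orb T a := fun b hb => by
  have h1 : SylIn 2 (T ⊓ SU U) (SU U) := ⟨inf_le_right, hT.pgrp.to_inf_left, fun Q q1 q2 q3 => by
    refine le_antisymm (le_inf (le_sup_left.trans (hT.max (Q ⊔ T ⊓ SU Uᶜ)
      (isPGroup_sup_of_le_normalizer_left q1 hT.pgrp.to_inf_left (le_normalizer_of_le_centralizer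
        fun g hg => mem_centralizer_iff'.2 fun s hs => SU_comm (q3 hs) hg.2)) (fun t ht => ?_) le_top).le) q3) q2
    obtain ⟨s, s1, s2, s3⟩ := split hT h ht
    rw [← mul_inv_cancel_left s t]
    exact mul_mem (mem_sup_left (q2 ⟨s1, s2⟩)) (mem_sup_right ⟨T.mul_mem (T.inv_mem s1) ht, rest s3⟩)⟩
  obtain ⟨c, c1, c2⟩ := U.exists_cycleOn
  have c3 : c ∈ SU U := fun a ha => notMem_support.1 fun k => ha (c2 k)
  obtain ⟨g, hg, e⟩ := h1.exists_cj_le (isPGroup_zpowers (x := c) (k := k) (Equiv.ext fun a =>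
    (em (a ∈ U)).elim (fun x => hk ▸ c1.pow_card_apply x) (pow_mem c3 _ a))) (zpowers_le.2 c3)
  obtain ⟨i, -, hi⟩ := c1.exists_pow_eq ((SU_mem (inv_mem hg)).2 ha) ((SU_mem (inv_mem hg)).2 hb)
  exact mem_orb.2 ⟨_, (e (conj_mem_cj (pow_mem (mem_zpowers c) i) g)).1, by
    show g ((c ^ i) (g⁻¹ a)) = b
    rw [hi]; simp⟩

theorem uniq (h1 : swap a b ∈ T) (h2 : swap a c ∈ T) (ab : a ≠ b) (ac : a ≠ c) : b = c := by
  by_contra e
  obtain ⟨k, hk⟩ := isPGroup_iff.1 hT.pgrp _ (mul_mem h1 h2)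
  have := orderOf_dvd_of_pow_eq_one hk
  rw [(isThreeCycle_swap_mul_swap_same ab ac e).orderOf] at this
  exact absurd (Nat.prime_three.dvd_of_dvd_pow this) (by norm_num)

theorem swap_mem (h1 : z ∈ 𝐂[T]) (h2 : z * z = 1) (a : α) : swap a (z a) ∈ T := by
  have zz : ∀ a, z (z a) = a := fun a => by rw [← mul_apply, h2, one_apply]
  refine hT.le_of_normalizes (isPGroup_of_isElementaryAbelian (isEA_iSup
    (A := fun a => zpowers (swap a (z a))) (fun a => ?_) fun a b => ?_)) le_top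
    (le_normalizer_iff_cj_le.2 fun t ht => ?_) (mem_iSup_of_mem a (mem_zpowers _))
  · rintro _ ⟨j, rfl⟩
    rw [← zpow_natCast, ← zpow_mul, mul_comm, zpow_mul, zpow_natCast, sq, swap_mul_self, one_zpow]
  · rw [centralizer_zpowers, zpowers_le, mem_centralizer_singleton_iff, mul_swap_eq_swap_mul]
    by_cases e : b = a
    · rw [e, swap_apply_left, swap_apply_right, swap_comm]
    by_cases e' : b = z a
    · rw [e', zz, swap_apply_left, swap_apply_right, swap_comm]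
    rw [swap_apply_of_ne_of_ne e e', swap_apply_of_ne_of_ne (fun k => e' (by rw [← k, zz]))
      (z.injective.ne e)]
  · rw [cj_iSup]
    refine iSup_le fun a => le_trans ?_ (le_iSup _ (t a))
    rw [cj_zpowers, ← swap_apply_apply, ← mul_apply, mem_centralizer_iff'.1 h1 t ht, mul_apply]

theorem zeq {w : Perm α} (h1 : z ∈ 𝐂[T]) (h2 : z * z = 1) (h3 : w ∈ 𝐂[T]) (h4 : w * w = 1) (hz : z a ≠ a)
    (hb : b ∈ orb T a) (hw : w b ≠ b) : ∀ c ∈ orb T a, z c = w c := fun c hc =>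
  uniq hT (swap_mem hT h1 h2 c) (swap_mem hT h3 h4 c) (moves h1 hz hc).symm
    (moves h3 hw (by rwa [orb_eq hb])).symm

theorem partner (h : 2 ≤ (orb T a).card) : ∃ b ∈ orb T a, a ≠ b ∧ swap a b ∈ T := by
  obtain ⟨b, hb, e⟩ := Finset.exists_mem_ne h a
  obtain ⟨t, ht, rfl⟩ := mem_orb.1 hb
  obtain ⟨s, s1, s2, s3⟩ := split hT (orb_inv a) ht
  obtain ⟨z, z1, z2, z3, z4⟩ := exz hT.pgrp (hT.pgrp.to_inf_left (K := SU (orb T a)))
    (le_normalizer_inf le_normalizer (orb_inv a).norm) fun k => e (by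
      rw [← s3 a (orb_self a), (eq_bot_iff_forall _).1 k s ⟨s1, s2⟩, one_apply])
  obtain ⟨c, hc⟩ := not_forall.1 (mt Equiv.ext z3)
  have := moves z2 hc (b := a) (by rw [orb_eq (by_contra fun k => hc (z1.2 c k))]; exact orb_self a)
  exact ⟨z a, mem_orb.2 ⟨z, z1.1, rfl⟩, this.symm, swap_mem hT z2 z4 a⟩

theorem meet {N M : Subgroup (Perm α)} (n1 : N ≤ T ⊓ SU (orb T a)) (n2 : T ≤ 𝐍[N]) (n3 : N ≠ ⊥)
    (m1 : M ≤ T ⊓ SU (orb T a)) (m2 : T ≤ 𝐍[M]) (m3 : M ≠ ⊥) : N ⊓ M ≠ ⊥ := fun e => by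
  obtain ⟨z, z1, z2, z3, z4⟩ := exz hT.pgrp (hT.pgrp.to_le (n1.trans inf_le_left)) n2 n3
  obtain ⟨w, w1, w2, w3, w4⟩ := exz hT.pgrp (hT.pgrp.to_le (m1.trans inf_le_left)) m2 m3
  obtain ⟨c, hc⟩ := not_forall.1 (mt Equiv.ext z3)
  obtain ⟨d, hd⟩ := not_forall.1 (mt Equiv.ext w3)
  have c1 := orb_eq (by_contra fun k => hc ((n1 z1).2 c k))
  have : z = w := Equiv.ext fun x => (em (x ∈ orb T a)).elim (fun k => zeq hT z2 z4 w2 w4 hc
    (c1 ▸ by_contra fun k => hd ((m1 w1).2 d k)) hd x (c1 ▸ k)) fun k => by rw [(n1 z1).2 x k, (m1 w1).2 x k]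
  exact z3 ((eq_bot_iff_forall _).1 e z ⟨z1, this ▸ w1⟩)

variable (T) in
/-- points in orbits of length at least four -/
noncomputable def Bg : Finset α := Finset.univ.filter fun a => 4 ≤ (orb T a).card

omit hT in
theorem mem_Bg : a ∈ Bg T ↔ 4 ≤ (orb T a).card := by simp [Bg]

omit hT in
theorem Bg_inv : Inv T (Bg T) := fun t ht a => by
  rw [mem_Bg, mem_Bg, orb_eq (mem_orb.2 ⟨t, ht, rfl⟩)]

theorem four_dvd (h : Inv T U) (h1 : U ⊆ Bg T) : 4 ∣ U.card := by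
  induction hn : U.card using Nat.strong_induction_on generalizing U with | _ n ih => ?_
  rcases U.eq_empty_or_nonempty with rfl | ⟨a, ha⟩
  · exact hn ▸ dvd_zero 4
  have e := Finset.card_sdiff_add_card_eq_card (h.orb_sub ha)
  have c := mem_Bg.1 (h1 ha)
  obtain ⟨k, hk⟩ := card_orb hT a
  rw [← hn, ← e]
  refine dvd_add (ih _ (by omega) (fun t ht b => ?_) (Finset.sdiff_subset.trans h1) rfl) ?_
  · simp only [Finset.mem_sdiff, h t ht, orb_inv a t ht]
  · rw [hk] at c ⊢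
    exact pow_dvd_pow 2 ((Nat.pow_le_pow_iff_right (n := 2) one_lt_two).1 c)

theorem struct : ((Bg T)ᶜ.card ≤ 1 ∧ T ≤ SU (Bg T)) ∨ (2 ≤ (Bg T)ᶜ.card ∧ (Bg T)ᶜ.card ≤ 3 ∧
    ∃ c ∉ Bg T, ∃ d ∉ Bg T, c ≠ d ∧ swap c d ∈ T ∧ swap c d ∈ 𝐂[T] ∧
      ∀ t ∈ T ⊓ SU (Bg T)ᶜ, t = 1 ∨ t = swap c d) := by
  have f : ∀ a, (orb T a).card = 1 → ∀ t ∈ T, t a = a := fun a h t ht =>
    Finset.card_le_one.1 h.le _ (mem_orb.2 ⟨t, ht, rfl⟩) _ (orb_self a)
  have u : ∀ k a b, (orb T a).card = 2 ^ k → (orb T b).card = 2 ^ k → b ∈ orb T a := fun k a b h1 h2 => by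
    by_contra e
    have := Finset.card_union_of_disjoint (Finset.disjoint_right.2 fun x hx => by simpa using orb_dis e hx)
    exact e (trans hT ((orb_inv a).union (orb_inv b)) (k := k + 1) (by rw [this, h1, h2]; ring)
      (Finset.mem_union_left _ (orb_self a)) (Finset.mem_union_right _ (orb_self b)))
  have f1 : ∀ W : Finset α, (∀ a ∈ W, (orb T a).card = 1) → W.card ≤ 1 := fun W h =>
    Finset.card_le_one.2 fun a ha b hb => by
      obtain ⟨t, ht, e⟩ := mem_orb.1 (u 0 a b (h a ha) (h b hb))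
      rw [← e, f a (h a ha) t ht]
  have sm : ∀ a ∉ Bg T, (orb T a).card = 1 ∨ (orb T a).card = 2 := fun a ha => by
    obtain ⟨k, hk⟩ := card_orb hT a
    rw [mem_Bg, hk] at ha
    rw [hk]
    match k with
    | 0 => exact .inl rfl
    | 1 => exact .inr rfl
    | k + 2 => exact absurd (Nat.pow_le_pow_right (n := 2) two_pos (Nat.le_add_left 2 k)) ha
  by_cases h : ∃ c, (orb T c).card = 2
  swap
  · push Not at h
    exact .inl ⟨f1 _ fun a ha => (sm a (by simpa using ha)).resolve_right (h a),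
      fun t ht a ha => f a ((sm a ha).resolve_right (h a)) t ht⟩
  obtain ⟨c, hc⟩ := h
  obtain ⟨d, hd, cd, m⟩ := partner hT hc.ge
  have c1 : c ∉ Bg T := by rw [mem_Bg]; omega
  have c2 := Bg_inv.compl.orb_sub (Finset.mem_compl.2 c1)
  have c3 := Finset.card_sdiff_add_card_eq_card c2
  have c4 : ∀ a ∉ Bg T, a ∉ orb T c → (orb T a).card = 1 := fun a h1 h2 =>
    (sm a h1).resolve_right fun k => h2 (u 1 c a hc k)
  have c5 := f1 ((Bg T)ᶜ \ orb T c) fun a ha => c4 a (by simpa using (Finset.mem_sdiff.1 ha).1)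
    (Finset.mem_sdiff.1 ha).2
  have c6 : orb T c = {c, d} := (Finset.eq_of_subset_of_card_le (by
    simp [Finset.insert_subset_iff, orb_self, hd]) (by rw [hc, Finset.card_pair cd])).symm
  have c7 : ∀ t ∈ T, (t c = c ∧ t d = d) ∨ (t c = d ∧ t d = c) := fun t ht => by
    have a := (orb_inv c t ht c).2 (orb_self c)
    have b := (orb_inv c t ht d).2 hd
    have := t.injective.ne cd
    simp only [c6, Finset.mem_insert, Finset.mem_singleton] at a b
    rcases a with a | a <;> rcases b with b | b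
    exacts [absurd (a.trans b.symm) this, .inl ⟨a, b⟩, .inr ⟨a, b⟩, absurd (a.trans b.symm) this]
  refine .inr ⟨by omega, by omega, c, c1, d, by simpa using c2 hd, cd, m,
    mem_centralizer_iff'.2 fun t ht => ?_, fun t ht => ?_⟩
  · rw [mul_swap_eq_swap_mul]
    rcases c7 t ht with ⟨a, b⟩ | ⟨a, b⟩ <;> rw [a, b]
    rw [swap_comm]
  · have k : ∀ a, a ≠ c → a ≠ d → t a = a := fun a h1 h2 => (em (a ∈ Bg T)).elim
      (fun e => ht.2 a (by simpa using e)) fun e => f a (c4 a e (by simp [c6, h1, h2])) t ht.1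
    refine (c7 t ht.1).imp (fun e => Equiv.ext fun a => ?_) fun e => Equiv.ext fun a => ?_
    · by_cases h1 : a = c
      · rw [h1, e.1, one_apply]
      by_cases h2 : a = d
      · rw [h2, e.2, one_apply]
      rw [k a h1 h2, one_apply]
    · by_cases h1 : a = c
      · rw [h1, e.1, swap_apply_left]
      by_cases h2 : a = d
      · rw [h2, e.2, swap_apply_right]
      rw [k a h1 h2, swap_apply_of_ne_of_ne h1 h2]

end Cfsg.Agent.H23S
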