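import Cfsg.Agent.H23.Sa1
import Cfsg.Prelude.Def_TwoFusion

/-! Direct decompositions of Sylow 2-subgroups of alternating groups. -/

set_option autoImplicit false
set_option linter.style.haveILetI false
set_option linter.unusedSectionVars false

namespace Cfsg.Agent.H23S

open Subgroup H24 Equiv Equiv.Perm

section
variable {G : Type*} [Group G] {A B P : Subgroup G}

theorem idp_symm (h : IsInternalDirectProduct A B P) : IsInternalDirectProduct B A P :=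
  ⟨h.2.1, h.1, fun b hb a ha => (h.2.2.1 a ha b hb).symm, by rw [inf_comm, h.2.2.2.1],
    by rw [sup_comm, h.2.2.2.2]⟩

theorem idp_cen (h : IsInternalDirectProduct A B P) : B ≤ 𝐍[A] :=
  le_normalizer_of_le_centralizer fun b hb => mem_centralizer_iff'.2 fun a ha => h.2.2.1 a ha b hb

theorem idp_norm (h : IsInternalDirectProduct A B P) : P ≤ 𝐍[A] :=
  h.2.2.2.2.ge.trans (sup_le le_normalizer (idp_cen h))

theorem idp_mem (h : IsInternalDirectProduct A B P) {p : G} (hp : p ∈ P) : ∃ a ∈ A, ∃ b ∈ B, p = a * b :=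
  (mem_sup_of_le_normalizer_left (idp_cen h)).1 (h.2.2.2.2.ge hp)

/-- decomposable subgroups -/
def Dec (P : Subgroup G) : Prop := ∃ A B : Subgroup G, A ≠ ⊥ ∧ B ≠ ⊥ ∧ IsInternalDirectProduct A B P

theorem dec_map {H : Subgroup G} {P : Subgroup H} : Dec P ↔ Dec (P.map H.subtype) := by
  have i := H.subtype_injective
  constructor
  · rintro ⟨A, B, h1, h2, h3, h4, h5, h6, h7⟩
    refine ⟨A.map H.subtype, B.map H.subtype, by rwa [Ne, map_eq_bot_iff_of_injective _ i],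
      by rwa [Ne, map_eq_bot_iff_of_injective _ i], map_mono h3, map_mono h4, ?_,
      by rw [← map_inf _ _ _ i, h6, Subgroup.map_bot], by rw [← Subgroup.map_sup, h7]⟩
    rintro _ ⟨a, ha, rfl⟩ _ ⟨b, hb, rfl⟩
    rw [← map_mul, h5 a ha b hb, map_mul]
  · rintro ⟨A, B, h1, h2, h3, h4, h5, h6, h7⟩
    have a := map_subgroupOf_eq_of_le (h3.trans (map_subtype_le P))
    have b := map_subgroupOf_eq_of_le (h4.trans (map_subtype_le P))
    refine ⟨A.subgroupOf H, B.subgroupOf H, fun e => h1 (by rw [← a, e, Subgroup.map_bot]),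
      fun e => h2 (by rw [← b, e, Subgroup.map_bot]), map_subtype_le_map_subtype.1 (a.trans_le h3),
      map_subtype_le_map_subtype.1 (b.trans_le h4), fun x hx y hy => Subtype.ext (h5 _ hx _ hy),
      map_injective i (by rw [map_inf _ _ _ i, a, b, h6, Subgroup.map_bot]),
      map_injective i (by rw [Subgroup.map_sup, a, b, h7])⟩

theorem dec_four (h1 : Nat.card P = 4) (h2 : ∀ g ∈ P, g * g = 1) : Dec P := by
  haveI : Finite P := Nat.finite_of_card_ne_zero (by omega)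
  have o : ∀ g ∈ P, g ≠ 1 → Nat.card (zpowers g) = 2 := fun g hg e => by
    rw [Nat.card_zpowers, orderOf_eq_prime (by rw [sq, h2 g hg]) e]
  obtain ⟨⟨x, hx⟩, x1⟩ := ne_bot_iff_exists_ne_one.1 (show P ≠ ⊥ by rintro rfl; simp at h1)
  have x2 := o x hx fun e => x1 (Subtype.ext e)
  obtain ⟨y, hy, y1⟩ := SetLike.not_le_iff_exists.1 (show ¬ P ≤ zpowers x from fun k => by
    haveI : Finite (zpowers x) := Nat.finite_of_card_ne_zero (by omega)
    have := card_le_of_le k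
    omega)
  have y2 := o y hy fun e => y1 (e ▸ one_mem _)
  have iv : ∀ g ∈ P, g⁻¹ = g := fun g hg => inv_eq_of_mul_eq_one_right (h2 g hg)
  have l : zpowers x ⊔ zpowers y ≤ P := sup_le (zpowers_le.2 hx) (zpowers_le.2 hy)
  haveI : Finite (zpowers x ⊔ zpowers y : Subgroup G) := Finite.of_injective _ (inclusion_injective l)
  refine ⟨zpowers x, zpowers y, by rintro e; simp [e] at x2, by rintro e; simp [e] at y2, zpowers_le.2 hx,
    zpowers_le.2 hy, fun a ha b hb => ?_, ?_, ?_⟩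
  · have a1 := zpowers_le.2 hx ha
    have b1 := zpowers_le.2 hy hb
    rw [← iv _ (mul_mem a1 b1), mul_inv_rev, iv a a1, iv b b1]
  · haveI : Finite (zpowers y) := Nat.finite_of_card_ne_zero (by omega)
    have := card_dvd_of_le (inf_le_right : zpowers x ⊓ zpowers y ≤ _)
    rw [y2, Nat.dvd_prime Nat.prime_two] at this
    exact this.elim card_eq_one.1 fun k =>
      (y1 ((eq_of_le_of_card_ge inf_le_right (y2.trans k.symm).le).ge (mem_zpowers y)).1).elim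
  · have k1 := card_dvd_of_le l
    have k2 := card_le_of_le (le_sup_left : zpowers x ≤ zpowers x ⊔ zpowers y)
    have k3 : Nat.card (zpowers x ⊔ zpowers y : Subgroup G) ≠ 2 := fun k =>
      y1 ((eq_of_le_of_card_ge le_sup_left (k.trans x2.symm).le).ge (mem_sup_right (mem_zpowers y)))
    refine eq_of_le_of_card_ge l ?_
    rw [h1] at k1 ⊢
    have := Nat.le_of_dvd (by norm_num) k1
    generalize Nat.card (zpowers x ⊔ zpowers y : Subgroup G) = m at *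
    interval_cases m <;> omega

end

variable {α : Type*} [Fintype α] [DecidableEq α] {T X A B : Subgroup (Perm α)} {U V : Finset α}
  {a b c d : α} {g s t z : Perm α}

local notation "𝔸" => alternatingGroup α

theorem par' (hs : s ∉ 𝔸) (t : Perm α) : t ∈ 𝔸 ∨ t * s ∈ 𝔸 :=
  (Int.units_eq_one_or (sign t)).imp_right fun e => by
    simp [mem_alternatingGroup, e, (Int.units_eq_one_or (sign s)).resolve_left hs]

theorem sw2 (h1 : a ≠ b) (h2 : c ≠ d) : swap a b * swap c d ∈ 𝔸 := (par h2 _).resolve_left (swap_odd h1)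

theorem cen0 (hs : s ∈ T) (ho : s ∉ 𝔸) (h1 : z ∈ 𝐂[T ⊓ 𝔸]) (h2 : s * z = z * s) : z ∈ 𝐂[T] :=
  mem_centralizer_iff'.2 fun t ht => by
    rcases par' ho t with e | e
    · exact mem_centralizer_iff'.1 h1 t ⟨ht, e⟩
    · have := mem_centralizer_iff'.1 h1 _ ⟨mul_mem ht hs, e⟩
      rw [mul_assoc, h2, ← mul_assoc, ← mul_assoc] at this
      exact mul_right_cancel this

variable (hT : SylIn 2 T ⊤)
include hT

theorem part (ha : a ∈ Bg T) : ∃ b ∈ orb T a, a ≠ b ∧ swap a b ∈ T := partner hT (by have := mem_Bg.1 ha; omega)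

theorem apart (h1 : swap a b ∈ T) (ab : a ≠ b) (h2 : swap c d ∈ T) (ca : c ≠ a) (cb : c ≠ b) :
    swap c d a = a :=
  swap_apply_of_ne_of_ne ca.symm fun e => cb (uniq hT (by rwa [e, swap_comm]) h1 ca.symm ab)

theorem cen (h : 5 ≤ (Bg T).card) (hz : z ∈ T) (h1 : z ∈ 𝐂[T ⊓ 𝔸]) : z ∈ 𝐂[T] := by
  obtain ⟨a, ha⟩ := Finset.card_pos.1 (by omega : 0 < (Bg T).card)
  obtain ⟨b, -, ab, m⟩ := part hT ha
  obtain ⟨c, hc, e⟩ := Finset.exists_mem_notMem_of_card_lt_card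
    (Finset.card_le_four.trans_lt h : ({a, b, z a, z b} : Finset α).card < _)
  obtain ⟨d, -, cd, m'⟩ := part hT hc
  simp only [Finset.mem_insert, Finset.mem_singleton, not_or] at e
  have := congrArg (· a) (mem_centralizer_iff'.1 h1 _ ⟨mul_mem m m', sw2 ab cd⟩)
  simp only [mul_apply] at this
  rw [apart hT m ab m' e.1 e.2.1, swap_apply_left, apart hT (swap_apply_apply z a b ▸
    mul_mem (mul_mem hz m) (inv_mem hz)) (z.injective.ne ab) m' e.2.2.1 e.2.2.2] at this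
  refine cen0 m (swap_odd ab) h1 ?_
  rw [mul_swap_eq_swap_mul, ← this]
  by_cases k : z a = a
  · rw [k, swap_apply_left]
  by_cases k' : z a = b
  · rw [k', swap_apply_right, swap_comm]
  rw [swap_apply_of_ne_of_ne k k'] at this
  exact absurd (z.injective this) ab

theorem invol (hz : z ∈ T) (h1 : z ∈ 𝐂[T]) : z * z = 1 := Equiv.ext fun a => by
  rw [mul_apply, one_apply]
  by_cases e : z a = a
  · rw [e, e]
  obtain ⟨b, -, ab, m⟩ := partner hT (Finset.one_lt_card.2 ⟨_, mem_orb.2 ⟨z, hz, rfl⟩, a, orb_self a, e⟩)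
  have k := (mem_centralizer_iff'.1 h1 _ m).symm
  have k1 := (fixp k ab).resolve_left e
  rw [swap_comm] at k
  rw [k1]
  exact (fixp k ab.symm).resolve_left fun k2 => ab (z.injective (k1.trans k2.symm))

theorem ev (ha : a ∈ Bg T) (h1 : B ≤ T) (h2 : T ⊓ 𝔸 ≤ 𝐍[B]) (h3 : B ⊓ SU (orb T a) = ⊥) :
    B ≤ Li 𝔸 (orb T a) := fun y hy => by
  obtain ⟨s, s1, s2, s3⟩ := split hT (orb_inv a) (h1 hy)
  refine ⟨s, by_contra fun o => ?_, s2, s3⟩
  have c1 : s ∈ 𝐂[(T ⊓ SU (orb T a)) ⊓ 𝔸] := mem_centralizer_iff'.2 fun x hx => by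
    have : x * y * x⁻¹ * y⁻¹ = 1 := (eq_bot_iff_forall _).1 h3 _
      ⟨B.mul_mem (conj_mem_of_mem_normalizer (h2 ⟨hx.1.1, hx.2⟩) hy) (B.inv_mem hy), by
        rw [mul_assoc, mul_assoc, ← mul_assoc y]
        exact (SU _).mul_mem hx.1.2
          (conj_mem_of_mem_normalizer ((orb_inv a).norm (h1 hy)) ((SU _).inv_mem hx.1.2))⟩
    rw [mul_inv_eq_one, mul_inv_eq_iff_eq_mul, ← mul_inv_cancel_left s y, mul_assoc s,
      ← SU_comm hx.1.2 (rest s3), ← mul_assoc, ← mul_assoc s x] at this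
    exact mul_right_cancel this
  have c2 := cen0 (T := T ⊓ SU (orb T a)) ⟨s1, s2⟩ o c1 rfl
  have c3 : s ∈ 𝐂[T] := mem_centralizer_iff'.2 fun t ht => by
    obtain ⟨r, r1, r2, r3⟩ := split hT (orb_inv a) ht
    rw [← mul_inv_cancel_left r t, mul_assoc, ← SU_comm s2 (rest r3), ← mul_assoc,
      mem_centralizer_iff'.1 c2 r ⟨r1, r2⟩, mul_assoc]
  obtain ⟨b, hb, ab, m⟩ := part hT ha
  obtain ⟨c, hc, e⟩ := Finset.exists_mem_notMem_of_card_lt_card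
    (Finset.card_le_two.trans_lt (by have := mem_Bg.1 ha; omega) : ({a, b} : Finset α).card < (orb T a).card)
  obtain ⟨d, hd, cd, m'⟩ := part hT (Bg_inv.orb_sub ha hc)
  simp only [Finset.mem_insert, Finset.mem_singleton, not_or] at e
  refine meet hT (N := zpowers s) (M := (T ⊓ SU (orb T a)) ⊓ 𝔸) (zpowers_le.2 ⟨s1, s2⟩)
    (le_normalizer_of_le_centralizer (le_centralizer_iff.1 (zpowers_le.2 c3))) (fun k => o ?_) inf_le_left
    (le_normalizer_inf (le_normalizer_inf le_normalizer (orb_inv a).norm) (le_top.trans (top_le_normalizer _)))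
    (fun k => ab ?_) ((eq_bot_iff_forall _).2 ?_)
  · rw [zpowers_eq_bot.1 k]; exact one_mem _
  · have := congrArg (· a) ((eq_bot_iff_forall _).1 k _ ⟨⟨mul_mem m m', mul_mem (swap_SU (orb_self a) hb)
      (swap_SU hc (orb_eq hc ▸ hd))⟩, sw2 ab cd⟩)
    simpa [apart hT m ab m' e.1 e.2] using this.symm
  · rintro _ ⟨⟨j, rfl⟩, -, k⟩
    replace k : s ^ j ∈ 𝔸 := k
    show s ^ j = 1
    obtain ⟨i, rfl | rfl⟩ := j.even_or_odd'
    · rw [zpow_mul, zpow_two, invol hT s1 c3, one_zpow]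
    · rw [zpow_add_one, zpow_mul, zpow_two, invol hT s1 c3, one_zpow, one_mul] at k
      exact absurd k o

theorem one (h1 : ∀ z ∈ T, z ∈ 𝐂[T ⊓ 𝔸] → z ∈ 𝐂[T]) (h2 : ∀ t ∈ T ⊓ 𝔸, t ∈ SU (Bg T)ᶜ → t = 1)
    (h3 : Bg T ⊆ orb T a) : ¬ Dec (T ⊓ 𝔸) := by
  rintro ⟨A, B, a1, b1, h⟩
  have p := hT.pgrp.to_inf_left (K := 𝔸)
  obtain ⟨z, z1, z2, z3, z4⟩ := exz p (p.to_le h.1) (idp_norm h) a1
  obtain ⟨w, w1, w2, w3, w4⟩ := exz p (p.to_le h.2.1) (idp_norm (idp_symm h)) b1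
  have mv : ∀ z ∈ T ⊓ 𝔸, z ≠ 1 → ∃ c ∈ Bg T, z c ≠ c := fun z hz e => by
    by_contra! k
    exact e (h2 z hz fun c hc => k c (by simpa using hc))
  obtain ⟨c, c1, c2⟩ := mv z (h.1 z1) z3
  obtain ⟨d, d1, d2⟩ := mv w (h.2.1 w1) w3
  have e := orb_eq (h3 c1)
  have := h2 _ (mul_mem (inv_mem (h.1 z1)) (h.2.1 w1)) (rest fun b hb => zeq hT (h1 z (h.1 z1).1 z2) z4
    (h1 w (h.2.1 w1).1 w2) w4 c2 (e ▸ h3 d1) d2 b (e ▸ h3 hb))
  exact z3 ((eq_bot_iff_forall _).1 h.2.2.2.1 z ⟨z1, inv_mul_eq_one.1 this ▸ w1⟩)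

theorem oth (h : ∀ a ∈ Bg T, ∃ b ∈ Bg T, b ∉ orb T a) (ha : a ∈ Bg T) :
    ∃ c d, c ≠ d ∧ swap c d ∈ T ∧ swap c d ∈ SU (orb T a)ᶜ := by
  obtain ⟨c, hc, e⟩ := h a ha
  obtain ⟨d, hd, cd, m⟩ := part hT hc
  exact ⟨c, d, cd, m, swap_SU (orb_dis e (orb_self c)) (orb_dis e hd)⟩

theorem nrm (h : ∀ a ∈ Bg T, ∃ b ∈ Bg T, b ∉ orb T a) (h2 : T ⊓ 𝔸 ≤ 𝐍[A]) (ha : a ∈ Bg T) :
    T ≤ 𝐍[A ⊓ SU (orb T a)] := fun t ht => by
  have k : T ⊓ 𝔸 ≤ 𝐍[A ⊓ SU (orb T a)] := le_normalizer_inf h2 (inf_le_left.trans (orb_inv a).norm)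
  obtain ⟨c, d, cd, m, m'⟩ := oth hT h ha
  refine (par cd t).elim (fun e => k ⟨ht, e⟩) fun e => (mul_mem_cancel_right (centralizer_le_normalizer'
    (A ⊓ SU (orb T a)) (mem_centralizer_iff'.2 fun x hx => SU_comm hx.2 m'))).1 (k ⟨mul_mem ht m, e⟩)

omit hT in
theorem small (h : T ≤ SU (Bg T)) (ha : a ∉ Bg T) : T ≤ Li X (orb T a) :=
  h.trans ((SU_mono (by simpa using Finset.compl_subset_compl.2 (Bg_inv.compl.orb_sub
    (Finset.mem_compl.2 ha)))).trans le_Li)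

theorem typ (h0 : T ≤ SU (Bg T)) (h5 : 5 ≤ (Bg T).card) (h : ∀ a ∈ Bg T, ∃ b ∈ Bg T, b ∉ orb T a)
    (hB : B ≠ ⊥) (hd : IsInternalDirectProduct A B (T ⊓ 𝔸)) : ∃ a ∈ Bg T, A ⊓ SU (orb T a) = ⊥ := by
  by_contra! k
  have p := hT.pgrp.to_inf_left (K := 𝔸)
  obtain ⟨w, w1, w2, w3, w4⟩ := exz p (p.to_le hd.2.1) (idp_norm (idp_symm hd)) hB
  have w5 := (hd.2.1 w1).1
  refine w3 ((eq_bot_iff_forall _).1 hd.2.2.2.1 w ⟨ind (T := T) fun a => ?_, w1⟩)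
  by_cases ha : a ∈ Bg T
  swap
  · exact small h0 ha w5
  by_cases e : w ∈ SU (orb T a)ᶜ
  · exact le_Li e
  obtain ⟨b, hb⟩ := not_forall.1 e
  obtain ⟨z, z1, z2, z3, z4⟩ := exz hT.pgrp ((p.to_le hd.1).to_inf_left) (nrm hT h (idp_norm hd) ha) (k a ha)
  obtain ⟨c, hc⟩ := not_forall.1 (mt Equiv.ext z3)
  have c1 := orb_eq (by_contra fun k => hc (z1.2 c k))
  exact ⟨z, z1.1, z1.2, fun x hx => zeq hT z2 z4 (cen hT h5 w5 w2) w4 hc
    (c1 ▸ by simpa using (Classical.not_imp.1 hb).1) (Classical.not_imp.1 hb).2 x (c1 ▸ hx)⟩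

theorem two (h0 : T ≤ SU (Bg T)) (h5 : 5 ≤ (Bg T).card) (h : ∀ a ∈ Bg T, ∃ b ∈ Bg T, b ∉ orb T a) :
    ¬ Dec (T ⊓ 𝔸) := by
  rintro ⟨A, B, a1, b1, hd⟩
  have a2 := hd.1.trans inf_le_left
  have b2 := hd.2.1.trans inf_le_left
  have a3 := idp_norm hd
  have b3 := idp_norm (idp_symm hd)
  have h1 : ∀ x ∈ Bg T, A ⊓ SU (orb T x) ≠ ⊥ → B ⊓ SU (orb T x) = ⊥ := fun x hx k => by_contra fun k' =>
    meet hT (inf_le_inf_right _ a2) (nrm hT h a3 hx) k (inf_le_inf_right _ b2) (nrm hT h b3 hx) k'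
      (eq_bot_iff.2 ((inf_le_inf inf_le_left inf_le_left).trans hd.2.2.2.1.le))
  obtain ⟨x, x1, x2⟩ := typ hT h0 h5 h b1 hd
  obtain ⟨y, y1, y2⟩ := typ hT h0 h5 h a1 (idp_symm hd)
  obtain ⟨x', x3, x4, x5⟩ := part hT x1
  obtain ⟨y', y3, y4, y5⟩ := part hT y1
  have xy : x ∉ orb T y := fun k => by
    obtain ⟨c, d, cd, m, m'⟩ := oth hT h y1
    exact swap_odd y4 ((Li_iff (swap_SU (orb_self y) y3)).1 ((mul_mem_cancel_right (le_Li m')).1
      (sup_le (ev hT y1 a2 a3 (orb_eq k ▸ x2)) (ev hT y1 b2 b3 y2)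
        (hd.2.2.2.2.ge ⟨mul_mem y5 m, sw2 y4 cd⟩))))
  have sw : ∀ {x x' u}, x' ∈ orb T x → x ∉ orb T u → swap x x' ∈ Li 𝔸 (orb T u) := fun k k' =>
    le_Li (swap_SU (orb_dis k' (orb_self _)) (orb_dis k' k))
  obtain ⟨a, ha, b, hb, e⟩ := idp_mem hd ⟨mul_mem y5 x5, sw2 y4 x4⟩
  refine swap_odd y4 (((𝔸).mul_mem_cancel_right (hd.1 ha).2).1 (ind (T := T) fun u => ?_))
  by_cases hu : u ∈ Bg T
  swap
  · exact small h0 hu (mul_mem y5 (a2 ha))
  have e' : swap y y' * a = swap x x' * b⁻¹ := by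
    rw [eq_mul_inv_iff_mul_eq, mul_assoc, ← e, ← mul_assoc, swap_mul_self, one_mul]
  by_cases k : y ∈ orb T u
  · rw [e', ← orb_eq k]
    exact mul_mem (sw x3 xy) (inv_mem (ev hT y1 b2 b3 y2 hb))
  by_cases k' : A ⊓ SU (orb T u) = ⊥
  · exact mul_mem (sw y3 k) (ev hT hu a2 a3 k' ha)
  · rw [e']
    exact mul_mem (sw x3 fun k => k' (orb_eq k ▸ x2)) (inv_mem (ev hT hu b2 b3 (h1 u hu k') hb))

theorem yes (ha : a ∈ Bg T) (hb : b ∈ Bg T) (ab : b ∉ orb T a) (c1 : c ∉ Bg T) (d1 : d ∉ Bg T) (cd : c ≠ d)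
    (m : swap c d ∈ T) (m' : swap c d ∈ 𝐂[T]) (h : ∀ t ∈ T ⊓ SU (Bg T)ᶜ, t = 1 ∨ t = swap c d) :
    Dec (T ⊓ 𝔸) := by
  have o := Bg_inv.orb_sub ha
  have i : ∀ {t}, t ∈ SU (orb T a ∪ (Bg T)ᶜ) → t ∈ SU (orb T a)ᶜ → t ∈ SU (Bg T)ᶜ := fun h1 h2 x hx =>
    (em (x ∈ orb T a)).elim (fun k => h2 x (by simpa using k)) fun k => h1 x (by simpa using ⟨k, by simpa using hx⟩)
  have t1 : swap c d ∈ SU (Bg T)ᶜ := swap_SU (by simpa) (by simpa)
  have t2 := SU_mono (Finset.subset_union_right (s₁ := orb T a)) t1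
  have t3 := SU_mono (Finset.compl_subset_compl.2 o) t1
  have ne : ∀ {x y}, x ∈ Bg T → x ≠ y → swap x y * swap c d ≠ 1 := fun {x y} hx k e => k (by
    have := congrArg (· x) e
    simpa [t1 x (by simpa using hx)] using this.symm)
  obtain ⟨a', a1, a2, a3⟩ := part hT ha
  obtain ⟨b', b1, b2, b3⟩ := part hT hb
  have l := SU_mono (Finset.subset_union_left (s₁ := orb T a) (s₂ := (Bg T)ᶜ))
  refine ⟨(T ⊓ 𝔸) ⊓ SU (orb T a ∪ (Bg T)ᶜ), (T ⊓ 𝔸) ⊓ SU (orb T a)ᶜ, fun e => ne ha a2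
    ((eq_bot_iff_forall _).1 e _ ⟨⟨mul_mem a3 m, sw2 a2 cd⟩, mul_mem (l (swap_SU (orb_self a) a1)) t2⟩),
    fun e => ne hb b2 ((eq_bot_iff_forall _).1 e _ ⟨⟨mul_mem b3 m, sw2 b2 cd⟩,
      mul_mem (swap_SU (orb_dis ab (orb_self b)) (orb_dis ab b1)) t3⟩), inf_le_left, inf_le_left,
    fun x hx y hy => ?_, (eq_bot_iff_forall _).2 fun x hx => ?_,
    (sup_le inf_le_left inf_le_left).antisymm fun x hx => ?_⟩
  · obtain ⟨s, s1, s2, s3⟩ := split hT (orb_inv a) hx.1.1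
    have k : s⁻¹ * x * y = y * (s⁻¹ * x) := by
      rcases h _ ⟨T.mul_mem (T.inv_mem s1) hx.1.1, i ((SU _).mul_mem (inv_mem (l s2)) hx.2) (rest s3)⟩
        with e | e <;> rw [e]
      · rw [one_mul, mul_one]
      · exact (mem_centralizer_iff'.1 m' y hy.1.1).symm
    rw [← mul_inv_cancel_left s x, mul_assoc, k, ← mul_assoc, SU_comm s2 hy.2, mul_assoc]
  · exact (h x ⟨hx.1.1.1, i hx.1.2 hx.2.2⟩).resolve_right fun e => swap_odd cd (e ▸ hx.1.1.2)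
  · obtain ⟨s, s1, s2, s3⟩ := split hT (orb_inv a) hx.1
    rcases par cd s with e | e
    · rw [← mul_inv_cancel_left s x]
      exact mul_mem_sup ⟨⟨s1, e⟩, l s2⟩ ⟨(T ⊓ 𝔸).mul_mem ((T ⊓ 𝔸).inv_mem ⟨s1, e⟩) hx, rest s3⟩
    · rw [← mul_inv_cancel_left (s * swap c d) x]
      refine mul_mem_sup ⟨⟨mul_mem s1 m, e⟩, mul_mem (l s2) t2⟩
        ⟨(T ⊓ 𝔸).mul_mem ((T ⊓ 𝔸).inv_mem ⟨mul_mem s1 m, e⟩) hx, ?_⟩
      rw [mul_inv_rev, mul_assoc]
      exact (SU _).mul_mem ((SU _).inv_mem t3) (rest s3)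

theorem main {n : ℕ} (hn : Fintype.card α = n) (h6 : 6 ≤ n) :
    Dec (T ⊓ 𝔸) ↔ (n % 4 = 2 ∨ n % 4 = 3) ∧ ∀ r : ℕ, 4 * (n / 4) ≠ 2 ^ r := by
  have e1 := Finset.card_add_card_compl (Bg T)
  have e2 := four_dvd hT Bg_inv subset_rfl
  have st := struct hT
  have e3 : (Bg T).card = 4 * (n / 4) := by rcases st with h | h <;> omega
  by_cases h : ∀ a ∈ Bg T, ∃ b ∈ Bg T, b ∉ orb T a
  · rcases st with ⟨k, h0⟩ | ⟨k1, k2, c, c1, d, d1, cd, m, m', k⟩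
    · exact iff_of_false (two hT h0 (by omega) h) fun k => by omega
    · obtain ⟨a, ha⟩ := Finset.card_pos.1 (by omega : 0 < (Bg T).card)
      obtain ⟨b, hb, ab⟩ := h a ha
      exact iff_of_true (yes hT ha hb ab c1 d1 cd m m' k)
        ⟨by omega, fun r e => ab (trans hT Bg_inv (e3.trans e) ha hb)⟩
  push Not at h
  obtain ⟨a, ha, h⟩ := h
  obtain ⟨r, hr⟩ := card_orb hT a
  refine iff_of_false ?_ fun k => k.2 r (by rw [← e3, ← hr, Finset.Subset.antisymm h (Bg_inv.orb_sub ha)])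
  rcases st with ⟨k, h0⟩ | ⟨k1, k2, c, c1, d, d1, cd, m, m', k⟩
  · exact one hT (fun z => cen hT (by omega)) (fun t ht e => Equiv.ext fun x => (em (x ∈ Bg T)).elim
      (fun k => e x (by simpa using k)) (h0 ht.1 x)) h
  · exact one hT (fun z hz e => cen0 m (swap_odd cd) e (mem_centralizer_iff'.1 m' z hz).symm)
      (fun t ht e => (k t ⟨ht.1, e⟩).resolve_right fun e => swap_odd cd (e ▸ ht.2)) h

end Cfsg.Agent.H23S
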