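import Cfsg.Agent.H23.Simp
import Cfsg.Agent.H26.Taussky

/-!
# The 2-fusion system of `PSp₄(q)`: the group-theoretic part
-/

set_option autoImplicit false

namespace Cfsg.Agent.H23

open Cfsg Cfsg.FusionSystem Subgroup
open QuaternionGroup (a xa)
open scoped commutatorElement

namespace Q8

/-- the endomorphism candidate with prescribed images of the generators -/
def FF (x y : QuaternionGroup 2) : QuaternionGroup 2 → QuaternionGroup 2
  | a i => x ^ i.val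
  | xa i => y * x ^ i.val

/-- an automorphism of order three -/
def om : QuaternionGroup 2 → QuaternionGroup 2 := FF (xa 0)⁻¹ (a 1 * xa 0)

theorem FF_cases : ∀ x y : QuaternionGroup 2, (∀ u v, FF x y (u * v) = FF x y u * FF x y v) → Function.Injective (FF x y) →
    (∃ k : Fin 3, ∃ c, ∀ z, FF x y z = c * om^[k] z * c⁻¹) ∨ ∀ z, (FF x y)^[4] z = z := by decide +kernel

theorem eq_FF {H : Type*} [Group H] (f g : QuaternionGroup 2 →* H) (h1 : f (a 1) = g (a 1)) (h2 : f (xa 0) = g (xa 0)) :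
    f = g := by
  have e : ∀ z : QuaternionGroup 2, z = FF (a 1) (xa 0) z := by decide
  ext z
  rw [e z]
  cases z <;> simp only [FF, map_mul, map_pow, h1, h2]

theorem aut_cases (f : MulAut (QuaternionGroup 2)) : (∃ k : ℕ, ∃ c, ∀ z, f z = c * om^[k] z * c⁻¹) ∨ ∀ z, f^[4] z = z := by
  have e : ⇑f = FF (f (a 1)) (f (xa 0)) := by
    have e : ∀ z : QuaternionGroup 2, z = FF (a 1) (xa 0) z := by decide
    funext z
    conv_lhs => rw [e z]
    cases z <;> simp only [FF, map_mul, map_pow]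
  rcases FF_cases (f (a 1)) (f (xa 0)) (e ▸ map_mul f) (e ▸ f.injective) with ⟨k, c, h⟩ | h
  · exact .inl ⟨k, c, e ▸ h⟩
  · exact .inr (e ▸ h)

theorem om_mul : ∀ u v, om (u * v) = om u * om v := by decide +kernel

theorem comm_cases : ∀ u v : QuaternionGroup 2, ⁅u, v⁆ = 1 ∨ ⁅u, v⁆ = a 2 := by decide +kernel
theorem sq_cases : ∀ u : QuaternionGroup 2, u * u = 1 ∨ u * u = a 2 := by decide +kernel

end Q8

/-- the data of the subgroup `SL₂ ≀ 2` of `Sp₄` -/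
structure Sp4D {G L : Type*} [Group G] [Group L] (δ : L × L →* G) (t : G) (m : L) : Prop where
  inj : Function.Injective δ
  tt : t * t = 1
  tδ : ∀ x y, t * δ (x, y) = δ (y, x) * t
  tn : ∀ x y, δ (x, y) ≠ t
  mc : ∀ x, x * m = m * x
  mm : m * m = 1
  m1 : m ≠ 1
  uniq : ∀ x, x * x = 1 → x = 1 ∨ x = m
  ctr : ∀ z, z ∈ center G ↔ z = 1 ∨ z = δ (m, m)
  cent : ∀ g, g * δ (m, 1) = δ (m, 1) * g → ∃ x y, g = δ (x, y)
  cta : IsConj (δ (m, 1)) t
  c4 : ∀ x y, x * x = m → y * y = m → IsConj x y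
  exn : ∀ x, x * x = m → ∃ n : G, n ^ 2 ^ 3 = 1 ∧ n * δ (x, x) * n⁻¹ = δ (x, x) ∧
    (∀ y, x * y = m * (y * x) → n * δ (y, y) * n⁻¹ = δ (x * y, x * y)) ∧
    n * δ (m, 1) * n⁻¹ = δ (m, m) * t ∧ n * t * n⁻¹ = δ (m, 1)
  fac : (Nat.card G).factorization 2 = 2 * (Nat.card L).factorization 2 + 1

namespace Sp4D

variable {G L : Type*} [Group G] [Group L] {δ : L × L →* G} {t : G} {m : L} (D : Sp4D δ t m)
include D

theorem t_inv : t⁻¹ = t := inv_eq_of_mul_eq_one_right D.tt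

theorem tδt (x y : L) : t * δ (x, y) * t = δ (y, x) := by rw [D.tδ, mul_assoc, D.tt, mul_one]

theorem δt_ne (d e : L × L) : δ d * t ≠ δ e := fun h =>
  D.tn (d⁻¹ * e).1 (d⁻¹ * e).2 (by rw [Prod.mk.eta, map_mul, ← h, map_inv, inv_mul_cancel_left])

/-- extension of a swap-invariant subgroup by `t` -/
def ext (U : Subgroup (L × L)) (hU : ∀ d ∈ U, d.swap ∈ U) : Subgroup G where
  carrier := {g | ∃ d ∈ U, g = δ d ∨ g = δ d * t}
  mul_mem' := by
    rintro _ _ ⟨d, hd, rfl | rfl⟩ ⟨e, he, rfl | rfl⟩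
    · exact ⟨_, mul_mem hd he, .inl (map_mul _ _ _).symm⟩
    · exact ⟨_, mul_mem hd he, .inr (by rw [map_mul, mul_assoc])⟩
    · exact ⟨_, mul_mem hd (hU e he), .inr (by rw [map_mul, mul_assoc, mul_assoc, ← Prod.mk.eta (p := e), D.tδ]; rfl)⟩
    · exact ⟨_, mul_mem hd (hU e he), .inl (by
        rw [map_mul, mul_assoc, ← mul_assoc t, ← Prod.mk.eta (p := e), D.tδt]; rfl)⟩
  one_mem' := ⟨1, one_mem _, .inl (map_one _).symm⟩
  inv_mem' := by
    rintro _ ⟨d, hd, rfl | rfl⟩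
    · exact ⟨_, inv_mem hd, .inl (map_inv _ _).symm⟩
    · exact ⟨_, hU _ (inv_mem hd), .inr (by rw [mul_inv_rev, D.t_inv, ← map_inv, ← Prod.mk.eta (p := d⁻¹), D.tδ]; rfl)⟩

theorem δ_mem {U : Subgroup (L × L)} {hU : ∀ d ∈ U, d.swap ∈ U} {d : L × L} : δ d ∈ D.ext U hU ↔ d ∈ U :=
  ⟨fun ⟨e, he, h⟩ => h.elim (fun h => D.inj h ▸ he) fun h => absurd h.symm (D.δt_ne _ _), fun h => ⟨d, h, .inl rfl⟩⟩

theorem t_mem {U : Subgroup (L × L)} {hU : ∀ d ∈ U, d.swap ∈ U} : t ∈ D.ext U hU := ⟨1, one_mem _, .inr (by simp)⟩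

theorem card_ext (U : Subgroup (L × L)) (hU : ∀ d ∈ U, d.swap ∈ U) : Nat.card (D.ext U hU) = Nat.card U * 2 := by
  let f : U × Bool → D.ext U hU := fun x => ⟨if x.2 then δ x.1 * t else δ x.1, x.1, x.1.2, by cases x.2 <;> simp⟩
  have hf : Function.Bijective f := by
    constructor
    · rintro ⟨x, b⟩ ⟨y, c⟩ h
      have h := congrArg Subtype.val h
      cases b <;> cases c <;> simp only [f, Bool.false_eq_true, if_false, if_true] at h
      · rw [Subtype.ext (D.inj h)]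
      · exact absurd h.symm (D.δt_ne _ _)
      · exact absurd h (D.δt_ne _ _)
      · rw [Subtype.ext (D.inj (mul_right_cancel h))]
    · rintro ⟨_, d, hd, rfl | rfl⟩
      · exact ⟨(⟨d, hd⟩, false), rfl⟩
      · exact ⟨(⟨d, hd⟩, true), rfl⟩
  rw [← Nat.card_eq_of_bijective f hf, Nat.card_prod]; simp

theorem δ_ctr {x y : L} (h : δ (x, y) ∈ center G) : x = y ∧ (x = 1 ∨ x = m) := by
  rcases (D.ctr _).1 h with h | h
  · have := D.inj (h.trans (map_one δ).symm)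
    simp only [Prod.mk_eq_one] at this
    simp [this]
  · have := D.inj h
    simp only [Prod.mk.injEq] at this
    simp [this]

theorem mm_ctr : δ (m, m) ∈ center G := (D.ctr _).2 (.inr rfl)

/-- the Sylow subgroup -/
abbrev SS (Q : Subgroup L) : Subgroup G := D.ext (Q.prod Q) fun _ h => ⟨h.2, h.1⟩

theorem δ_SS {Q : Subgroup L} {x y : L} (hx : x ∈ Q) (hy : y ∈ Q) : δ (x, y) ∈ D.SS Q := D.δ_mem.2 ⟨hx, hy⟩

theorem z2 {Q : Subgroup L} (hu : ∃ u ∈ Q, u * u = m) (hZ : ∀ z ∈ Q, (∀ u ∈ Q, u * z = z * u) → z * z = 1) {z : G}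
    (hz : z ∈ D.SS Q) (h : ∀ s ∈ D.SS Q, ⁅s, z⁆ ∈ center G) : z ∈ center G ∨ z = δ (m, 1) ∨ z = δ (m, 1) * δ (m, m) := by
  obtain ⟨⟨x, y⟩, ⟨hx, hy⟩, rfl | rfl⟩ := hz
  · have h1 : x = 1 ∨ x = m := D.uniq x (hZ x hx fun u hu => by
      have := h _ (D.δ_SS hu (one_mem _))
      rw [← map_commutatorElement] at this
      have := (D.δ_ctr (x := ⁅u, x⁆) (y := ⁅(1 : L), y⁆) this).1
      rwa [commutatorElement_one_left, commutatorElement_eq_one_iff_mul_comm] at this)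
    have h2 : y = 1 ∨ y = m := D.uniq y (hZ y hy fun u hu => by
      have := h _ (D.δ_SS (one_mem _) hu)
      rw [← map_commutatorElement] at this
      have := (D.δ_ctr (x := ⁅(1 : L), x⁆) (y := ⁅u, y⁆) this).1
      rwa [commutatorElement_one_left, eq_comm, commutatorElement_eq_one_iff_mul_comm] at this)
    rcases h1 with rfl | rfl <;> rcases h2 with rfl | h2
    · exact .inl (by rw [show ((1 : L), (1 : L)) = 1 from rfl, map_one]; exact one_mem _)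
    · exact .inr (.inr (by rw [← map_mul, h2]; simp [D.mm]))
    · exact .inr (.inl rfl)
    · exact .inl (h2 ▸ D.mm_ctr)
  · obtain ⟨u, hu, e⟩ := hu
    have := h _ (D.δ_SS hu (one_mem _))
    have e' : ⁅δ (u, 1), δ (x, y) * t⁆ = δ (u, y * u⁻¹ * y⁻¹) := by
      have : δ (u, y * u⁻¹ * y⁻¹) = δ (u, 1) * δ (x, y) * δ (1, u⁻¹) * (δ (x, y))⁻¹ := by
        rw [← map_inv, ← map_mul, ← map_mul, ← map_mul]; simp
      rw [this, ← D.tδt u⁻¹ 1, commutatorElement_def, mul_inv_rev, D.t_inv, ← map_inv δ (u, 1)]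
      simp [mul_assoc]
    rw [e'] at this
    rcases (D.δ_ctr this).2 with rfl | rfl
    · exact absurd (by simpa using e.symm) D.m1
    · exact absurd (e.symm.trans D.mm) D.m1

theorem a_not_ctr : δ (m, 1) ∉ center G := fun h => D.m1 (D.δ_ctr h).1

theorem le_of_scl [Finite G] {Q : Subgroup L} (hQ : IsPGroup 2 (D.SS Q)) (hZ : ∀ z ∈ Q, (∀ u ∈ Q, u * z = z * u) → z * z = 1)
    (hg : ∀ u ∈ Q, ∃ y ∈ Q, ∃ y' ∈ Q, y * y = m ∧ y' * y' = m ∧ u = y * y'⁻¹) {T : Subgroup G} (h1 : T ≤ D.SS Q)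
    (h2 : ¬ T ≤ center G) (h3 : δ (m, m) ∈ T) (h4 : SCl (D.SS Q) T) : D.SS Q ≤ T := by
  haveI : Fact (Nat.Prime 2) := ⟨Nat.prime_two⟩
  obtain ⟨u, hu, -, -, e, -⟩ := hg 1 (one_mem _)
  obtain ⟨z, a1, a2, -, a3⟩ := h4.exists_central_mod hQ h1 le_rfl h2
  have ha : δ (m, 1) ∈ T := by
    rcases D.z2 ⟨u, hu, e⟩ hZ (h1 a1) a3 with h | h | h
    · exact absurd h a2
    · exact h ▸ a1
    · exact (mul_mem_cancel_right h3).1 (h ▸ a1)
  have ht : t ∈ T := h4.isConj ha D.t_mem D.cta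
  have h5 : δ (u, u⁻¹) ∈ T := by
    have := mul_mem (h4.nm h1 (D.δ_SS hu (one_mem _)) ht) ht
    rwa [mul_assoc, mul_assoc, ← mul_assoc t, ← map_inv, Prod.inv_mk, D.tδt, ← map_mul, Prod.mk_mul_mk, inv_one, mul_one,
      one_mul] at this
  have h6 : ∀ y ∈ Q, ∀ y' ∈ Q, y * y = m → y' * y' = m → δ (y, y') ∈ T := fun y hy y' hy' b b' => by
    obtain ⟨g, rfl⟩ := _root_.isConj_iff.1 (D.c4 u y e b)
    obtain ⟨k, rfl⟩ := _root_.isConj_iff.1 (D.c4 u⁻¹ y' (by rw [← mul_inv_rev, e, inv_eq_of_mul_eq_one_right D.mm]) b')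
    refine h4.isConj h5 (D.δ_SS hy hy') (_root_.isConj_iff.2 ⟨δ (g, k), ?_⟩)
    rw [← map_inv, ← map_mul, ← map_mul]; rfl
  have h7 : ∀ x ∈ Q, ∀ x' ∈ Q, δ (x, x') ∈ T := fun x hx x' hx' => by
    obtain ⟨y, b1, z, b2, b3, b4, rfl⟩ := hg x hx
    obtain ⟨y', c1, z', c2, c3, c4, rfl⟩ := hg x' hx'
    have := mul_mem (h6 y b1 y' c1 b3 c3) (inv_mem (h6 z b2 z' c2 b4 c4))
    rwa [← map_inv, ← map_mul] at this
  rintro _ ⟨⟨x, y⟩, ⟨hx, hy⟩, rfl | rfl⟩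
  · exact h7 x hx y hy
  · exact mul_mem (h7 x hx y hy) ht

theorem exists_δ [Finite G] {Q : Subgroup L} (hm : m ∈ Q) (hu : ∃ u ∈ Q, u * u = m)
    (hZ : ∀ z ∈ Q, (∀ u ∈ Q, u * z = z * u) → z * z = 1) {g : G} (hg : g ∈ normalizer (D.SS Q : Set G))
    (ho : (orderOf g).Coprime 2) : ∃ x y, g = δ (x, y) ∧ x ∈ normalizer (Q : Set L) ∧ y ∈ normalizer (Q : Set L) ∧
      x * y⁻¹ ∈ Q := by
  haveI : Finite L := Finite.of_injective _ (D.inj.comp (Prod.mk_left_injective 1))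
  have ha := D.δ_SS hm (one_mem Q)
  have h1 := D.z2 hu hZ (conj_mem_of_mem_normalizer hg ha) fun s hs => by
    obtain ⟨s, rfl⟩ : ∃ s', s = g * s' * g⁻¹ := ⟨g⁻¹ * s * g, by group⟩
    rw [← conjugate_commutatorElement]
    refine Normal.conj_mem inferInstance _ ?_ _
    obtain ⟨⟨x, y⟩, -, rfl | rfl⟩ := (mem_normalizer_iff.1 hg s).2 hs
    · rw [← map_commutatorElement, commutatorElement_eq_one_iff_mul_comm.2 (by simp [D.mc]), map_one]; exact one_mem _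
    · have : ⁅δ (x, y) * t, δ (m, 1)⁆ = δ (m, m) := by
        have e : δ (m, m) = δ (x, y) * δ (1, m) * (δ (x, y))⁻¹ * (δ (m, 1))⁻¹ := by
          rw [← map_inv, ← map_inv, ← map_mul, ← map_mul, ← map_mul]
          simp [D.mc y, inv_eq_of_mul_eq_one_right D.mm]
        rw [e, ← D.tδt m 1, commutatorElement_def, mul_inv_rev, D.t_inv]; simp [mul_assoc]
      exact this ▸ D.mm_ctr
  have h2 : g * δ (m, 1) = δ (m, 1) * g := by
    rcases h1 with h | h | h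
    · refine absurd ?_ D.a_not_ctr
      simpa [mul_assoc] using Normal.conj_mem inferInstance _ h g⁻¹
    · exact mul_inv_eq_iff_eq_mul.1 h
    · have c := mem_center_iff.1 D.mm_ctr
      have e : g ^ 2 * δ (m, 1) * (g ^ 2)⁻¹ = δ (m, 1) := by
        rw [show g ^ 2 * δ (m, 1) * (g ^ 2)⁻¹ = g * (g * δ (m, 1) * g⁻¹) * g⁻¹ by rw [sq]; group, h,
          show g * (δ (m, 1) * δ (m, m)) * g⁻¹ = g * δ (m, 1) * (δ (m, m) * g⁻¹) by group, ← c, ← mul_assoc, h, mul_assoc,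
          ← map_mul, ← map_mul]
        simp [D.mm]
      obtain ⟨k, hk⟩ := exists_pow_eq_self_of_coprime ho.symm
      rw [← hk]
      exact (Commute.pow_left (mul_inv_eq_iff_eq_mul.1 e) k).eq
  obtain ⟨x, y, rfl⟩ := D.cent g h2
  refine ⟨x, y, rfl, mem_normalizer_fintype fun u hu => ?_, mem_normalizer_fintype fun u hu => ?_, ?_⟩
  · have := conj_mem_of_mem_normalizer hg (D.δ_SS hu (one_mem _))
    rw [← map_inv, ← map_mul, ← map_mul] at this
    exact (D.δ_mem.1 this).1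
  · have := conj_mem_of_mem_normalizer hg (D.δ_SS (one_mem _) hu)
    rw [← map_inv, ← map_mul, ← map_mul] at this
    exact (D.δ_mem.1 this).2
  · have := mul_mem (conj_mem_of_mem_normalizer hg D.t_mem) (D.t_mem (U := Q.prod Q))
    rw [mul_assoc, mul_assoc, ← mul_assoc t, ← map_inv, Prod.inv_mk, D.tδt, ← map_mul] at this
    exact (D.δ_mem.1 this).1

theorem dd_cent {Q : Subgroup L} {x : L} (h : x ∈ centralizer (Q : Set L)) : δ (x, x) ∈ centralizer (D.SS Q : Set G) := by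
  rintro _ ⟨⟨u, v⟩, ⟨hu, hv⟩, rfl | rfl⟩
  · rw [← map_mul, ← map_mul, Prod.mk_mul_mk, h u hu, h v hv]; rfl
  · rw [mul_assoc, D.tδ, ← mul_assoc, ← mul_assoc, ← map_mul, ← map_mul, Prod.mk_mul_mk, h u hu, h v hv]; rfl

theorem dd_nm [Finite G] {Q : Subgroup L} {x : L} (h : x ∈ normalizer (Q : Set L)) :
    δ (x, x) ∈ normalizer (D.SS Q : Set G) := by
  refine mem_normalizer_fintype ?_
  have a : ∀ u ∈ Q, ∀ v ∈ Q, δ (x, x) * δ (u, v) * (δ (x, x))⁻¹ ∈ D.SS Q := fun u hu v hv => by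
    rw [← map_inv, ← map_mul, ← map_mul]
    exact D.δ_SS (conj_mem_of_mem_normalizer h hu) (conj_mem_of_mem_normalizer h hv)
  rintro _ ⟨⟨u, v⟩, ⟨hu, hv⟩, rfl | rfl⟩
  · exact a u hu v hv
  · have := mul_mem (a u hu v hv) (D.t_mem (U := Q.prod Q))
    rwa [mul_assoc, ← map_inv, Prod.inv_mk, ← D.tδ, ← Prod.inv_mk, map_inv, ← mul_assoc, mul_assoc _ _ t] at this

/-- the pairs that agree up to `m` -/
def D0 (Q : Subgroup L) : Subgroup (L × L) where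
  carrier := {d | d.1 ∈ Q ∧ (d.2 = d.1 ∨ d.2 = m * d.1)}
  mul_mem' := by
    rintro ⟨x, y⟩ ⟨u, v⟩ ⟨a, b⟩ ⟨c, d⟩
    refine ⟨mul_mem a c, ?_⟩
    dsimp only [Prod.mk_mul_mk] at *
    rcases b with rfl | rfl <;> rcases d with rfl | rfl
    · exact .inl rfl
    · exact .inr (by rw [← mul_assoc, D.mc, mul_assoc])
    · exact .inr (mul_assoc _ _ _)
    · exact .inl (by rw [← mul_assoc, ← D.mc x, mul_assoc x, D.mm, mul_one])
  one_mem' := ⟨one_mem _, .inl rfl⟩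
  inv_mem' := by
    rintro ⟨x, y⟩ ⟨a, b⟩
    refine ⟨inv_mem a, ?_⟩
    dsimp only [Prod.inv_mk] at *
    rcases b with rfl | rfl
    · exact .inl rfl
    · exact .inr (by rw [mul_inv_rev, inv_eq_of_mul_eq_one_right D.mm, D.mc])

theorem D0_swap {Q : Subgroup L} (hm : m ∈ Q) : ∀ d ∈ D.D0 Q, d.swap ∈ D.D0 Q := by
  rintro ⟨x, y⟩ ⟨a, h | h⟩ <;> dsimp only at h <;> subst h
  · exact ⟨a, .inl rfl⟩
  · exact ⟨mul_mem hm a, .inr (by simp [← mul_assoc, D.mm])⟩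

theorem nc_D0 [Finite G] {Q : Subgroup L} (hm : m ∈ Q) (h1 : ∀ u ∈ Q, ∀ v ∈ Q, ⁅u, v⁆ = 1 ∨ ⁅u, v⁆ = m)
    (h2 : ∀ u ∈ Q, u * u = 1 ∨ u * u = m) : NC (center G) (D.SS Q) (D.ext (D.D0 Q) (D.D0_swap hm)) := by
  have b : ∀ d ∈ D.D0 Q, d ∈ Q.prod Q := by
    rintro ⟨x, y⟩ ⟨a, h | h⟩ <;> dsimp only at h <;> subst h
    · exact ⟨a, a⟩
    · exact ⟨a, mul_mem hm a⟩
  have c : ∀ x ∈ Q, ∀ y, x * y⁻¹ = 1 ∨ x * y⁻¹ = m → (x, y) ∈ D.D0 Q := fun x hx y h => ⟨hx, h.imp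
    (fun h => (mul_inv_eq_one.1 h).symm) fun h => by rw [mul_inv_eq_iff_eq_mul.1 h, ← mul_assoc, D.mm, one_mul]⟩
  have n : ∀ u ∈ Q, δ (u, 1) ∈ normalizer (D.ext (D.D0 Q) (D.D0_swap hm) : Set G) := fun u hu => by
    have e : ∀ d ∈ D.D0 Q, δ (u, 1) * δ d * (δ (u, 1))⁻¹ ∈ D.ext (D.D0 Q) (D.D0_swap hm) := fun d hd => by
      have : δ (u, 1) * δ d * (δ (u, 1))⁻¹ = δ (⁅u, d.1⁆, 1) * δ d := by
        rw [← map_inv, ← map_mul, ← map_mul, ← map_mul]
        congr 1; ext <;> simp [commutatorElement_def]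
      rw [this]
      exact mul_mem (D.δ_mem.2 (c _ (Q.commutator_le_self (commutator_mem_commutator hu hd.1)) _ (by simpa using h1 u hu _ hd.1)))
        (D.δ_mem.2 hd)
    refine mem_normalizer_fintype ?_
    rintro _ ⟨d, hd, rfl | rfl⟩
    · exact e d hd
    · have : δ (u, 1) * t * (δ (u, 1))⁻¹ = δ (u, u⁻¹) * t := by
        rw [← map_inv, Prod.inv_mk, mul_assoc, D.tδ, ← mul_assoc, ← map_mul]; simp
      rw [show δ (u, 1) * (δ d * t) * (δ (u, 1))⁻¹ = δ (u, 1) * δ d * (δ (u, 1))⁻¹ * (δ (u, 1) * t * (δ (u, 1))⁻¹) by group, this]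
      exact mul_mem (e d hd) (mul_mem (D.δ_mem.2 (c _ hu _ (by simpa using h2 u hu))) D.t_mem)
  have n' : ∀ u ∈ Q, ∀ v ∈ Q, δ (u, v) ∈ normalizer (D.ext (D.D0 Q) (D.D0_swap hm) : Set G) := fun u hu v hv => by
    have : δ (u, v) = δ (u * v⁻¹, 1) * δ (v, v) := by rw [← map_mul]; simp
    rw [this]
    exact mul_mem (n _ (mul_mem hu (inv_mem hv))) (le_normalizer (D.δ_mem.2 ⟨hv, .inl rfl⟩))
  refine ⟨?_, ?_, fun x hx h => mem_sup_left ?_⟩
  · rintro _ ⟨d, hd, h⟩; exact ⟨d, b d hd, h⟩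
  · rintro _ ⟨⟨x, y⟩, ⟨hx, hy⟩, rfl | rfl⟩
    · exact n' x hx y hy
    · exact mul_mem (n' x hx y hy) (le_normalizer D.t_mem)
  · have e : ∀ u v, ⁅δ (u, v), t⁆ = δ (u * v⁻¹, v * u⁻¹) := fun u v => by
      rw [commutatorElement_def, D.t_inv, ← map_inv, Prod.inv_mk, mul_assoc, mul_assoc, ← mul_assoc t, D.tδt, ← map_mul]; rfl
    have h3 := h t D.t_mem
    obtain ⟨⟨u, v⟩, ⟨hu, hv⟩, rfl | rfl⟩ := hx
    · rw [e] at h3
      exact D.δ_mem.2 (c u hu v (D.δ_ctr h3).2)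
    · rw [show ⁅δ (u, v) * t, t⁆ = ⁅δ (u, v), t⁆ by simp [commutatorElement_def, mul_assoc], e] at h3
      exact mul_mem (D.δ_mem.2 (c u hu v (D.δ_ctr h3).2)) D.t_mem

theorem nm_D0 [Finite G] {Q : Subgroup L} (hm : m ∈ Q) {n : G} (h1 : ∀ u ∈ Q, ∃ v ∈ Q, n * δ (u, u) * n⁻¹ = δ (v, v))
    (h2 : n * δ (m, 1) * n⁻¹ = δ (m, m) * t) (h3 : n * t * n⁻¹ = δ (m, 1)) :
    n ∈ normalizer (D.ext (D.D0 Q) (D.D0_swap hm) : Set G) := by
  have a : δ (m, 1) ∈ D.ext (D.D0 Q) (D.D0_swap hm) := D.δ_mem.2 ⟨hm, .inr D.mm.symm⟩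
  have e : ∀ d ∈ D.D0 Q, n * δ d * n⁻¹ ∈ D.ext (D.D0 Q) (D.D0_swap hm) := by
    have b : ∀ u ∈ Q, n * δ (u, u) * n⁻¹ ∈ D.ext (D.D0 Q) (D.D0_swap hm) := fun u hu => by
      obtain ⟨v, hv, e⟩ := h1 u hu
      exact e ▸ D.δ_mem.2 ⟨hv, .inl rfl⟩
    rintro ⟨x, y⟩ ⟨hx, h | h⟩ <;> dsimp only at h <;> subst h
    · exact b _ hx
    · have : δ (x, m * x) = δ (m, 1) * δ (m * x, m * x) := by rw [← map_mul]; simp [← mul_assoc, D.mm]
      rw [this, ← conj_mul, h2]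
      exact mul_mem (mul_mem (D.δ_mem.2 ⟨hm, .inl rfl⟩) D.t_mem) (b _ (mul_mem hm hx))
  refine mem_normalizer_fintype ?_
  rintro _ ⟨d, hd, rfl | rfl⟩
  · exact e d hd
  · rw [← conj_mul, h3]; exact mul_mem (e d hd) a

theorem q8_good [Finite G] (φ : QuaternionGroup 2 →* L) (hφ : Function.Injective φ) {x : L}
    (hx : x ∈ normalizer (φ.range : Set L)) (ho : (orderOf x).Coprime 2)
    (hS : D.SS φ.range ≤ GoodN 2 (center G) (D.SS φ.range)) : δ (x, x) ∈ GoodN 2 (center G) (D.SS φ.range) := by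
  haveI : Finite L := Finite.of_injective _ (D.inj.comp (Prod.mk_left_injective 1))
  have e2 : φ (a 2) = m := (D.uniq _ (by rw [← map_mul, ← map_one φ]; congr 1)).resolve_left fun h =>
    absurd (hφ (h.trans (map_one φ).symm)) (by decide)
  have hm : m ∈ φ.range := ⟨_, e2⟩
  let dd : L →* G := δ.comp ((MonoidHom.id L).prod (MonoidHom.id L))
  have hdd : ∀ u, dd u = δ (u, u) := fun _ => rfl
  let K := (GoodN 2 (center G) (D.SS φ.range)).comap dd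
  have hC : ∀ u, (∀ z, u * φ z * u⁻¹ = φ z) → u ∈ K := fun u hu => by
    have : δ (u, u) ∈ centralizer (D.SS φ.range : Set G) := D.dd_cent (by
      rintro _ ⟨z, rfl⟩; exact (mul_inv_eq_iff_eq_mul.1 (hu z)).symm)
    exact mem_goodN_of_cent (centralizer_le_normalizer _ this) fun s hs => by
      rw [hdd, commutatorElement_eq_one_iff_mul_comm.2 (this s hs).symm]; exact one_mem _
  have hn : ∀ i j : QuaternionGroup 2, i * i = a 2 → i * j = a 2 * (j * i) → (∀ U : Subgroup (QuaternionGroup 2), i ∈ U → j ∈ U → U = ⊤) →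
      ∃ n ∈ PE 2 (D.ext (D.D0 φ.range) (D.D0_swap hm)), n * dd (φ i) * n⁻¹ = dd (φ i) ∧ n * dd (φ j) * n⁻¹ = dd (φ (i * j)) ∧
        n * δ (m, 1) * n⁻¹ = δ (m, m) * t ∧ n * t * n⁻¹ = δ (m, 1) := fun i j h1 h2 h3 => by
    obtain ⟨n, a1, a2, a3, a4, a5⟩ := D.exn (φ i) (by rw [← map_mul, h1, e2])
    have a6 := a3 (φ j) (by rw [← map_mul, h2, map_mul, map_mul, e2])
    rw [← map_mul] at a6
    refine ⟨n, mem_PE (D.nm_D0 hm ?_ a4 a5) a1, a2, a6, a4, a5⟩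
    rintro _ ⟨u, rfl⟩
    have : u ∈ ((dd.comp φ).range.comap (MulAut.conj n).toMonoidHom).comap (dd.comp φ) := by
      rw [h3 _ (show i ∈ ((dd.comp φ).range.comap (MulAut.conj n).toMonoidHom).comap (dd.comp φ) from ⟨i, a2.symm⟩)
        ⟨i * j, a6.symm⟩]; trivial
    obtain ⟨v, hv⟩ := this
    exact ⟨_, ⟨v, rfl⟩, hv.symm⟩
  have gen : ∀ U : Subgroup (QuaternionGroup 2), a 1 ∈ U → xa 0 ∈ U → U = ⊤ := fun U h1 h2 => by
    have e : ∀ z : QuaternionGroup 2, z = Q8.FF (a 1) (xa 0) z := by decide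
    refine (eq_top_iff' _).2 fun z => ?_
    rw [e z]
    cases z
    · exact pow_mem h1 _
    · exact mul_mem h2 (pow_mem h1 _)
  obtain ⟨n1, b1, b2, b3, b4, b5⟩ := hn (a 1) (xa 0) (by decide) (by decide) gen
  obtain ⟨n2, c1, c2, c3, c4, c5⟩ := hn (xa 0) (a 1 * xa 0) (by decide) (by decide) fun U h1 h2 =>
    gen U ((mul_mem_cancel_right h1).1 h2) h1
  have cj : ∀ {u v w : G}, n2 * u * n2⁻¹ = v → n1 * u * n1⁻¹ = w → n1 * n2⁻¹ * v * (n1 * n2⁻¹)⁻¹ = w := by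
    rintro u _ _ rfl rfl; group
  have d1 := cj c5 b5
  have d2 := cj c4 b4
  obtain ⟨w, w', hw⟩ := D.cent _ (mul_inv_eq_iff_eq_mul.1 d1)
  have d3 : n1 * n2⁻¹ * t * (n1 * n2⁻¹)⁻¹ = t := by
    rw [← conj_mul, mem_center_iff.1 D.mm_ctr, mul_inv_cancel_right] at d2
    exact mul_left_cancel d2
  obtain rfl : w = w' := by
    rw [mul_inv_eq_iff_eq_mul, hw, D.tδ] at d3
    exact (Prod.mk.inj (D.inj (mul_right_cancel d3))).1
  have d4 := cj c2 b3
  have d5 : n1 * dd (φ (a 1 * xa 0)) * n1⁻¹ = dd (φ (xa 0)⁻¹) := by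
    rw [map_mul, map_mul, ← conj_mul, b2, b3, ← map_mul, ← map_mul]; congr 2
  have d6 := cj c3 d5
  rw [hw, ← hdd, ← map_inv, ← map_mul, ← map_mul] at d4 d6
  have inj : Function.Injective dd := fun u v h => (Prod.mk.inj (D.inj h)).1
  have d7 : ∀ z, w * φ z * w⁻¹ = φ (Q8.om z) := fun z =>
    DFunLike.congr_fun (Q8.eq_FF ((MulAut.conj w).toMonoidHom.comp φ) (φ.comp (MonoidHom.mk' Q8.om Q8.om_mul))
      (inj d6) (inj d4)) z
  have hwK : w ∈ K := by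
    refine (D.nc_D0 hm ?_ ?_).mem (D.dd_nm (mem_normalizer_fintype ?_)) (show δ (w, w) ∈ _ from hw ▸ mul_mem b1 (inv_mem c1))
    · rintro _ ⟨u, rfl⟩ _ ⟨v, rfl⟩
      rw [← map_commutatorElement, ← e2]
      exact (Q8.comm_cases u v).imp (fun h => by rw [h, map_one]) fun h => by rw [h]
    · rintro _ ⟨u, rfl⟩
      rw [← map_mul, ← e2]
      exact (Q8.sq_cases u).imp (fun h => by rw [h, map_one]) fun h => by rw [h]
    · rintro _ ⟨z, rfl⟩; exact ⟨_, (d7 z).symm⟩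
  have d8 : ∀ (k : ℕ) z, w ^ k * φ z * (w ^ k)⁻¹ = φ (Q8.om^[k] z) := fun k z => by
    induction k with
    | zero => simp
    | succ k ih => rw [Function.iterate_succ_apply', ← d7, ← ih]; group
  let e := MonoidHom.ofInjective hφ
  let f : MulAut (QuaternionGroup 2) := e.trans ((φ.range.normalizerMonoidHom ⟨x, hx⟩).trans e.symm)
  have hf : ∀ z, φ (f z) = x * φ z * x⁻¹ := fun z => MonoidHom.apply_ofInjective_symm hφ _
  change x ∈ K
  rcases Q8.aut_cases f with ⟨k, c, h⟩ | h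
  · have : (φ c * w ^ k)⁻¹ * x ∈ K := hC _ fun z => by
      have := hf z
      rw [h, map_mul, map_mul, ← d8, map_inv] at this
      rw [show (φ c * w ^ k)⁻¹ * x * φ z * ((φ c * w ^ k)⁻¹ * x)⁻¹ = (φ c * w ^ k)⁻¹ * (x * φ z * x⁻¹) * (φ c * w ^ k) by group,
        ← this]; group
    have hc : φ c ∈ K := hS (D.δ_SS ⟨c, rfl⟩ ⟨c, rfl⟩)
    exact (mul_mem_cancel_left (inv_mem (mul_mem hc (pow_mem hwK k)))).1 this
  · have : x ^ 4 ∈ K := hC _ fun z => by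
      conv_rhs => rw [← h z]
      simp only [Function.iterate_succ_apply', Function.iterate_zero_apply, hf, pow_succ, pow_zero, one_mul, mul_inv_rev,
        mul_assoc]
    obtain ⟨k, hk⟩ := exists_pow_eq_self_of_coprime (ho.symm.pow_left 2)
    exact hk ▸ pow_mem this k

theorem simple [Finite G] (hq : ∀ Q : Sylow 2 L, ∃ k, 1 ≤ k ∧ Nonempty ((Q : Subgroup L) ≃* QuaternionGroup (2 ^ k)))
    (S' : Sylow 2 (G ⧸ center G)) : (groupFusionSystem (S' : Subgroup (G ⧸ center G))).IsSimple 2 := by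
  haveI : Finite L := Finite.of_injective _ (D.inj.comp (Prod.mk_left_injective 1))
  obtain ⟨Q⟩ : Nonempty (Sylow 2 L) := inferInstance
  obtain ⟨k, hk, ⟨e⟩⟩ := hq Q
  let φ : QuaternionGroup (2 ^ k) →* L := (Q : Subgroup L).subtype.comp e.symm.toMonoidHom
  have hφ : Function.Injective φ := (subtype_injective _).comp e.symm.injective
  have hr : φ.range = Q := by
    rw [MonoidHom.range_comp, MonoidHom.range_eq_top.2 e.symm.surjective, ← MonoidHom.range_eq_map, range_subtype]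
  obtain ⟨j, rfl⟩ : ∃ j, k = j + 1 := ⟨k - 1, by omega⟩
  have hn : ((2 ^ (j + 1) : ℕ) : ZMod (2 * 2 ^ (j + 1))) ≠ 0 := by
    rw [Ne, ZMod.natCast_eq_zero_iff]
    exact Nat.not_dvd_of_pos_of_lt (by positivity) (by have := Nat.two_pow_pos (j + 1); omega)
  have e2 : φ (a (2 ^ (j + 1) : ℕ)) = m := (D.uniq _ (by
    rw [← map_mul, ← map_one φ, QuaternionGroup.a_mul_a, ← two_mul, QuaternionGroup.one_def]
    congr 2; exact_mod_cast ZMod.natCast_self _)).resolve_left fun h => hn (by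
      have := hφ (h.trans (map_one φ).symm)
      rwa [QuaternionGroup.one_def, a.injEq] at this)
  have x2 : ∀ i, φ (xa i) * φ (xa i) = m := fun i => by rw [← map_mul, ← e2]; simp
  have hg : ∀ u ∈ (Q : Subgroup L), ∃ y ∈ (Q : Subgroup L), ∃ y' ∈ (Q : Subgroup L), y * y = m ∧ y' * y' = m ∧ u = y * y'⁻¹ := by
    rw [← hr]
    rintro _ ⟨i | i, rfl⟩
    · exact ⟨φ (xa (-i)), ⟨_, rfl⟩, φ (xa 0), ⟨_, rfl⟩, x2 _, x2 _, by rw [eq_mul_inv_iff_mul_eq, ← map_mul]; simp⟩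
    · refine ⟨φ (xa (i + (2 ^ j : ℕ))), ⟨_, rfl⟩, φ (a (2 ^ j : ℕ)), ⟨_, rfl⟩, x2 _, ?_, by rw [eq_mul_inv_iff_mul_eq, ← map_mul]; simp⟩
      rw [← map_mul, ← e2, QuaternionGroup.a_mul_a]; congr 2; push_cast; ring
  have hZ : ∀ z ∈ (Q : Subgroup L), (∀ u ∈ (Q : Subgroup L), u * z = z * u) → z * z = 1 := by
    rw [← hr]
    rintro _ ⟨i | i, rfl⟩ h
    · have := h _ ⟨xa 0, rfl⟩
      rw [← map_mul, ← map_mul] at this
      have := hφ this
      simp only [QuaternionGroup.xa_mul_a, QuaternionGroup.a_mul_xa, xa.injEq] at this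
      rw [← map_mul, ← map_one φ, QuaternionGroup.a_mul_a, QuaternionGroup.one_def]
      congr 2; linear_combination this
    · have := h _ ⟨a 1, rfl⟩
      rw [← map_mul, ← map_mul] at this
      have := hφ this
      simp only [QuaternionGroup.xa_mul_a, QuaternionGroup.a_mul_xa, xa.injEq] at this
      refine absurd ?_ hn
      push_cast
      linear_combination (-2 ^ j) * this
  have hu : ∃ u ∈ (Q : Subgroup L), u * u = m := ⟨_, hr ▸ ⟨xa 0, rfl⟩, x2 0⟩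
  have hm : m ∈ (Q : Subgroup L) := hr ▸ ⟨_, e2⟩
  let S : Sylow 2 G := Sylow.ofCard (D.SS Q) (by
    refine (D.card_ext _ _).trans ?_
    rw [Nat.card_congr (Subgroup.prodEquiv _ _).toEquiv, Nat.card_prod, D.fac, Q.card_eq_multiplicity]; ring)
  have hS : (S : Subgroup G) = D.SS Q := rfl
  refine simple_of_cover (QuotientGroup.mk' _) (QuotientGroup.mk'_surjective _) (QuotientGroup.ker_mk' _).le S ?_ ?_ ?_ S' <;>
    rw [QuotientGroup.ker_mk']
  · exact fun h => D.a_not_ctr (h (D.δ_SS hm (one_mem _)))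
  · exact fun T h1 h2 h3 h4 => D.le_of_scl S.isPGroup' hZ hg h1 h2 (h3 ⟨D.δ_SS hm hm, D.mm_ctr⟩) h4
  refine le_goodN_of_coprime S fun g hg ho => ?_
  obtain ⟨x, y, rfl, b1, b2, b3⟩ := D.exists_δ hm hu hZ hg ho
  have hy : (orderOf y).Coprime 2 := ho.coprime_dvd_left (by
    rw [orderOf_injective δ D.inj, Prod.orderOf_mk]; exact Nat.dvd_lcm_right _ _)
  have : δ (x, y) = δ (x * y⁻¹, 1) * δ (y, y) := by rw [← map_mul]; simp
  rw [this]
  refine mul_mem (sylow_le_goodN S _ (D.δ_SS b3 (one_mem _))) ?_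
  rcases Nat.eq_zero_or_pos j with rfl | hj
  · have := D.q8_good φ hφ (hr ▸ b2) hy (hr ▸ sylow_le_goodN S _)
    rwa [hr] at this
  obtain ⟨X, Y, hM⟩ := H11.exists_MC_quaternion hk
  have hA := (H26.MC_isPGroup_mulAut hM (Or.inr (by omega))).of_equiv (MulAut.congr e.symm)
  have : y ∈ centralizer ((Q : Subgroup L) : Set L) := by
    obtain ⟨l, hl⟩ := hA ((Q : Subgroup L).normalizerMonoidHom ⟨y, b2⟩)
    obtain ⟨r, hr⟩ := exists_pow_eq_self_of_coprime (hy.symm.pow_left l)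
    rw [← hr]
    refine pow_mem (fun u hu => ?_) r
    rw [← map_pow] at hl
    exact (mul_inv_eq_iff_eq_mul.1 (congrArg Subtype.val (DFunLike.congr_fun hl ⟨u, hu⟩))).symm
  have := D.dd_cent this
  exact mem_goodN_of_cent (centralizer_le_normalizer _ this) fun s hs => by
    rw [commutatorElement_eq_one_iff_mul_comm.2 (this s hs).symm]; exact one_mem _

end Sp4D

end Cfsg.Agent.H23
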