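import Cfsg.Agent.H23.Sp4a
import Cfsg.Agent.H27.GL2d
import Cfsg.Agent.H12.DicksonSL
import Cfsg.Agent.H12.SBridge

/-!
# The 2-fusion system of `PSp₄(q)`, `q` odd, is simple
-/

set_option autoImplicit false

namespace Cfsg.Agent.H23.Sp4

open Cfsg Subgroup Matrix
open scoped MatrixGroups

variable {F : Type*} [Field F]

/-- two by two block matrices -/
abbrev BM (F : Type*) := Matrix (Fin 2) (Fin 2) (Matrix (Fin 2) (Fin 2) F)

/-- block matrices as matrices in the symplectic indexing -/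
def bl (N : BM F) : Matrix (Fin 2 ⊕ Fin 2) (Fin 2 ⊕ Fin 2) F :=
  fromBlocks (of fun i j => N i j 0 0) (of fun i j => N i j 0 1) (of fun i j => N i j 1 0) (of fun i j => N i j 1 1)

theorem bl_mul (N M : BM F) : bl (N * M) = bl N * bl M := by
  ext (i | i) (j | j) <;> simp [bl, mul_apply, Fintype.sum_sum_type] <;> ring

theorem bl_one : bl (1 : BM F) = 1 := by
  ext (i | i) (j | j) <;> fin_cases i <;> fin_cases j <;> simp [bl]

theorem bl_inj : Function.Injective (bl (F := F)) := fun N M h => by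
  ext i j k l
  fin_cases k <;> fin_cases l
  · exact congrFun (congrFun h (.inl i)) (.inl j)
  · exact congrFun (congrFun h (.inl i)) (.inr j)
  · exact congrFun (congrFun h (.inr i)) (.inl j)
  · exact congrFun (congrFun h (.inr i)) (.inr j)

theorem bl_surj (A : Matrix (Fin 2 ⊕ Fin 2) (Fin 2 ⊕ Fin 2) F) : ∃ N, bl N = A :=
  ⟨of fun i j => !![A (.inl i) (.inl j), A (.inl i) (.inr j); A (.inr i) (.inl j), A (.inr i) (.inr j)], by
    ext (i | i) (j | j) <;> simp [bl]⟩

/-- the adjoint of a block matrix -/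
def st (N : BM F) : BM F := of fun i j => adjugate (N j i)

/-- the block form of `J` -/
def JB (F : Type*) [Field F] : BM F := !![!![0, -1; 1, 0], 0; 0, !![0, -1; 1, 0]]

theorem bl_J : bl (JB F) = J (Fin 2) F := by
  ext (i | i) (j | j) <;> fin_cases i <;> fin_cases j <;> simp [bl, JB, J]

theorem J_tr (N : BM F) : J (Fin 2) F * (bl N)ᵀ = bl (st N) * J (Fin 2) F := by
  ext (i | i) (j | j) <;> fin_cases i <;> fin_cases j <;>
    simp [bl, J, st, mul_apply, Fintype.sum_sum_type, adjugate_fin_two]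

theorem bl_mem {N : BM F} : bl N ∈ symplecticGroup (Fin 2) F ↔ N * st N = 1 := by
  rw [SymplecticGroup.mem_iff, Matrix.mul_assoc, J_tr, ← Matrix.mul_assoc, ← bl_mul]
  refine ⟨fun h => bl_inj ?_, fun h => by rw [h, bl_one, Matrix.one_mul]⟩
  have := congrArg (· * J (Fin 2) F) h
  simp only [Matrix.mul_assoc, J_squared] at this
  simpa [bl_one] using this

/-- an element of the symplectic group in block form -/
def mk (N : BM F) (h : N * st N = 1) : symplecticGroup (Fin 2) F := ⟨bl N, bl_mem.2 h⟩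

theorem mk_mul_mk {N M N' M' : BM F} {a : N * st N = 1} {b : M * st M = 1} {a' : N' * st N' = 1} {b' : M' * st M' = 1} :
    mk N a * mk M b = mk N' a' * mk M' b' ↔ N * M = N' * M' := by
  rw [Subtype.ext_iff]
  change bl N * bl M = bl N' * bl M' ↔ _
  rw [← bl_mul, ← bl_mul, bl_inj.eq_iff]

theorem mk_mul {N M K : BM F} {a : N * st N = 1} {b : M * st M = 1} {c : K * st K = 1} (h : N * M = K) :
    mk N a * mk M b = mk K c := Subtype.ext ((bl_mul N M).symm.trans (congrArg bl h))

theorem mk_one {a : (1 : BM F) * st 1 = 1} : mk 1 a = 1 := Subtype.ext bl_one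

theorem mk_inj {N M : BM F} {a : N * st N = 1} {b : M * st M = 1} (h : mk N a = mk M b) : N = M :=
  bl_inj (congrArg Subtype.val h)

theorem exists_mk (g : symplecticGroup (Fin 2) F) : ∃ N a, g = mk N a := by
  obtain ⟨N, h⟩ := bl_surj g.1
  exact ⟨N, bl_mem.1 (h ▸ g.2), Subtype.ext h.symm⟩

theorem st_two (A B C D : Matrix (Fin 2) (Fin 2) F) :
    st !![A, B; C, D] = !![adjugate A, adjugate C; adjugate B, adjugate D] := by
  ext i j : 2; fin_cases i <;> fin_cases j <;> rfl

theorem one_two : (1 : BM F) = !![1, 0; 0, 1] := one_fin_two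

theorem st_one : (1 : BM F) * st 1 = 1 := by rw [one_two, st_two]; simp

theorem diag_st (x y : SL(2, F)) : (!![x.1, 0; 0, y.1] : BM F) * st !![x.1, 0; 0, y.1] = 1 := by
  rw [st_two, one_two]; simp [mul_adjugate]

/-- the embedding of `SL₂ × SL₂` -/
def δ (F : Type*) [Field F] : SL(2, F) × SL(2, F) →* symplecticGroup (Fin 2) F :=
  MonoidHom.mk' (fun d => mk _ (diag_st d.1 d.2)) fun _ _ => (mk_mul (by simp)).symm

theorem δ_app (x y : SL(2, F)) : δ F (x, y) = mk _ (diag_st x y) := rfl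

theorem t_st : (!![0, 1; 1, 0] : BM F) * st !![0, 1; 1, 0] = 1 := by rw [st_two, one_two]; simp

/-- the swap -/
def tt (F : Type*) [Field F] : symplecticGroup (Fin 2) F := mk _ t_st

theorem adj_neg (A : Matrix (Fin 2) (Fin 2) F) : adjugate (-A) = -adjugate A := by
  simp only [adjugate_fin_two]; ext i j; fin_cases i <;> fin_cases j <;> simp

theorem cent (h2 : (2 : F) ≠ 0) (g : symplecticGroup (Fin 2) F) (h : g * δ F (-1, 1) = δ F (-1, 1) * g) :
    ∃ x y, g = δ F (x, y) := by
  obtain ⟨N, a, rfl⟩ := exists_mk g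
  rw [δ_app, mk_mul_mk] at h
  obtain ⟨A, B, C, D, rfl⟩ : ∃ A B C D, N = !![A, B; C, D] := ⟨_, _, _, _, eta_fin_two N⟩
  have z : ∀ X : Matrix (Fin 2) (Fin 2) F, X = -X → X = 0 := fun X h => by
    ext i j
    have : X i j = -X i j := congrFun (congrFun h i) j
    exact (mul_eq_zero.1 (by linear_combination this : (2 : F) * X i j = 0)).resolve_left h2
  have h1 := congrFun (congrFun h 0) 1
  have h3 := congrFun (congrFun h 1) 0
  simp at h1 h3
  obtain rfl := z _ h1
  obtain rfl := z _ h3.symm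
  have a' := a
  rw [st_two, one_two] at a'
  have h4 := congrFun (congrFun (congrFun (congrFun a' 0) 0) 0) 0
  have h5 := congrFun (congrFun (congrFun (congrFun a' 1) 1) 0) 0
  simp [mul_adjugate] at h4 h5
  exact ⟨⟨A, h4⟩, ⟨D, h5⟩, rfl⟩

theorem tδ (x y : SL(2, F)) : tt F * δ F (x, y) = δ F (y, x) * tt F := by
  rw [δ_app, δ_app]; exact mk_mul_mk.2 (by simp)

theorem δ_inj : Function.Injective (δ F) := fun x y h => by
  have := mk_inj (a := diag_st _ _) (b := diag_st _ _) h
  exact Prod.ext (Subtype.ext (congrFun (congrFun this 0) 0)) (Subtype.ext (congrFun (congrFun this 1) 1))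

theorem exn (h2 : (2 : F) ≠ 0) (x : SL(2, F)) (hx : x * x = -1) : ∃ n : symplecticGroup (Fin 2) F, n ^ 2 ^ 3 = 1 ∧
    n * δ F (x, x) * n⁻¹ = δ F (x, x) ∧ (∀ y, x * y = -1 * (y * x) → n * δ F (y, y) * n⁻¹ = δ F (x * y, x * y)) ∧
    n * δ F (-1, 1) * n⁻¹ = δ F (-1, -1) * tt F ∧ n * tt F * n⁻¹ = δ F (-1, 1) := by
  have h1 : x.1 * x.1 = -1 := congrArg Subtype.val hx
  have h3 : adjugate x.1 = -x.1 := by
    have : x⁻¹ = -x := inv_eq_of_mul_eq_one_right (by rw [mul_neg, hx, neg_neg])
    exact congrArg Subtype.val this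
  let u : Matrix (Fin 2) (Fin 2) F := (2 : F)⁻¹ • (1 + x.1)
  have h4 : adjugate u = (2 : F)⁻¹ • (1 - x.1) := by
    rw [sub_eq_add_neg, ← h3]
    simp only [u, adjugate_fin_two]
    ext i j; fin_cases i <;> fin_cases j <;> simp
  have h5 : u * adjugate u + u * adjugate u = 1 := by
    rw [h4]
    simp only [u, smul_mul_smul_comm, add_mul, mul_sub, h1, one_mul, mul_one]
    ext i j
    simp only [Matrix.add_apply, Matrix.smul_apply, Matrix.sub_apply, Matrix.neg_apply, smul_eq_mul]
    field_simp; ring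
  have h6 : u * u + u * u = x.1 := by
    simp only [u, smul_mul_smul_comm, add_mul, mul_add, h1, one_mul, mul_one]
    ext i j
    simp only [Matrix.add_apply, Matrix.smul_apply, Matrix.neg_apply, smul_eq_mul]
    field_simp; ring
  have a : (!![u, -u; u, u] : BM F) * st !![u, -u; u, u] = 1 := by
    rw [st_two, one_two, adj_neg]; simp [h5]
  have b : (!![0, -x.1; x.1, 0] : BM F) * st !![0, -x.1; x.1, 0] = 1 := by
    rw [st_two, one_two, adj_neg, h3]; simp [h1]
  simp only [δ_app, mul_inv_eq_iff_eq_mul]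
  refine ⟨mk _ a, ?_, mk_mul_mk.2 ?_, fun y hy => mk_mul_mk.2 ?_, ?_, mk_mul_mk.2 (by simp)⟩
  · have c : mk _ a * mk _ a = mk _ b := mk_mul (by simp [← h6])
    have d : mk _ b * mk _ b = mk 1 st_one := mk_mul (by rw [one_two]; simp [h1])
    rw [show 2 ^ 3 = 2 * 2 * 2 from rfl, pow_mul, pow_mul, sq (mk _ a), c, sq (mk _ b), d, mk_one, one_pow]
  · simp [u, mul_add, add_mul]
  · have : u * y.1 = x.1 * y.1 * u := by
      have e : y.1 * x.1 = -(x.1 * y.1) := by
        have : x.1 * y.1 = -1 * (y.1 * x.1) := congrArg Subtype.val hy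
        rw [this, neg_one_mul, neg_neg]
      simp only [u, Matrix.mul_smul, Matrix.smul_mul, mul_add, add_mul, mul_one, one_mul, mul_assoc, e, mul_neg]
      rw [← mul_assoc, h1, add_comm]; simp
    simp [this]
  · have c : (!![u, u; u, -u] : BM F) * st !![u, u; u, -u] = 1 := by
      rw [st_two, one_two, adj_neg]; simp [h5]
    rw [mul_assoc, show tt F * mk _ a = mk _ c from mk_mul (by simp)]
    exact mk_mul_mk.2 (by simp)

theorem sp4D [Fintype F] (hF : Odd (Fintype.card F)) : Sp4D (δ F) (tt F) (-1) := by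
  have h2 := H12.two_ne_zero_of_odd_card hF
  refine ⟨δ_inj, (mk_mul (c := st_one) (by rw [one_two]; simp)).trans mk_one, tδ, fun x y h => ?_, fun x => by simp, by simp,
    H12.sl2_neg_one_ne_one h2, fun x => H12.sl2_eq_of_mul_self h2, fun z => ⟨fun h => ?_, ?_⟩, cent h2, ?_, fun x y a b => ?_,
    exn h2, ?_⟩
  · simpa using congrFun (congrFun (mk_inj (a := diag_st _ _) (b := t_st) h) 0) 1
  · have c := mem_center_iff.1 h
    obtain ⟨x, y, rfl⟩ := cent h2 z (c _).symm
    obtain rfl : y = x := (Prod.mk.inj (δ_inj (mul_right_cancel ((tδ x y).symm.trans (c _))))).1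
    obtain ⟨r, h3, h4⟩ := Matrix.SpecialLinearGroup.mem_center_iff.1 (mem_center_iff.2 fun u : SL(2, F) => by
      have := c (δ F (u, 1))
      rw [← map_mul, ← map_mul] at this
      exact (Prod.mk.inj (δ_inj this)).1 : y ∈ center SL(2, F))
    rcases H12.sl2_eq_of_mul_self h2 (g := y) (Subtype.ext (by
      change y.1 * y.1 = 1
      rw [← h4, ← map_mul, ← sq, show r ^ 2 = 1 by simpa using h3]; simp)) with rfl | rfl
    · exact .inl (map_one _)
    · exact .inr rfl
  · rintro (rfl | rfl)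
    · exact one_mem _
    refine mem_center_iff.2 fun g => ?_
    obtain ⟨N, a, rfl⟩ := exists_mk g
    obtain ⟨A, B, C, D, rfl⟩ : ∃ A B C D, N = !![A, B; C, D] := ⟨_, _, _, _, eta_fin_two N⟩
    rw [δ_app]
    exact mk_mul_mk.2 (by simp)
  · obtain ⟨n, -, -, -, -, h⟩ := exn h2 ⟨!![0, -1; 1, 0], by simp⟩ (Subtype.ext (by
      change (!![0, -1; 1, 0] * !![0, -1; 1, 0] : Matrix _ _ F) = -1
      ext i j; fin_cases i <;> fin_cases j <;> simp))
    exact (_root_.isConj_iff.2 ⟨n, h⟩).symm
  · have tr : ∀ x : SL(2, F), x * x = -1 → x.1.trace = 0 := fun x hx => by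
      have : x⁻¹ = -x := inv_eq_of_mul_eq_one_right (by rw [mul_neg, hx, neg_neg])
      have := congrFun (congrFun (congrArg Subtype.val this) 0) 0
      simp [adjugate_fin_two] at this
      simp [trace_fin_two, this]
    have n : ∀ r : F, x.1.trace = r + r → x.1.det = r * r → False := fun r h3 h4 => by
      rw [tr x a] at h3
      rw [x.2, (mul_eq_zero.1 (by linear_combination -h3 : (2 : F) * r = 0)).resolve_left h2] at h4
      simp at h4
    refine H27.sl_isConj_of_trace (fun h => n (x.1 0 0) ?_ ?_) (fun ⟨_, r, h3, h4⟩ => n r h3 h4) ((tr x a).trans (tr y b).symm)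
    · rw [trace_fin_two, h.2.2]
    · rw [det_fin_two, h.1, h.2.2]; ring
  · rw [H12.card_sp, H12.card_SL2 rfl, H12.spOrd, Nat.card_eq_fintype_card]
    have hq : 1 < Fintype.card F := Fintype.one_lt_card
    generalize Fintype.card F = q at *
    obtain ⟨k, rfl⟩ := hF
    have e1 : (2 * k + 1) ^ 2 - 1 = 4 * (k * k + k) := Nat.sub_eq_of_eq_add (by ring)
    have e2 : (2 * k + 1) ^ 4 - 1 = 4 * (k * k + k) * 2 * (2 * (k * k + k) + 1) := Nat.sub_eq_of_eq_add (by ring)
    simp only [Fintype.card_fin, Finset.prod_range_succ, Finset.prod_range_zero, zero_add, mul_one, one_mul, Nat.reduceAdd,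
      Nat.reduceMul, Nat.reducePow, e1, e2]
    have o : ∀ n : ℕ, (2 * n + 1).factorization 2 = 0 := fun n => Nat.factorization_eq_zero_of_not_dvd (by omega)
    have p : 4 * (k * k + k) ≠ 0 := by omega
    generalize 4 * (k * k + k) = c at *
    simp [Nat.factorization_mul, p, o, Nat.prime_two.factorization]; ring

theorem main [Fintype F] (hF : Odd (Fintype.card F)) (S : Sylow 2 (PSp 2 F)) :
    (groupFusionSystem (S : Subgroup (PSp 2 F))).IsSimple 2 :=
  (sp4D hF).simple (fun P => (H12.isCyclic_or_quaternion_sl2 (H12.two_ne_zero_of_odd_card hF) (P : Subgroup SL(2, F)).subtype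
    (subtype_injective _) P.isPGroup').resolve_left (H12.not_isCyclic_sylow_two_sl2 hF P)) S

end Cfsg.Agent.H23.Sp4
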