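import Mathlib

/-! A concrete model of `D₈ ≀ C₂` and its automorphisms. -/

set_option autoImplicit false

namespace Cfsg.Agent.H23W

/-- dihedral group of order eight -/
@[ext] structure D where
  p : Bool
  q : Bool
  c : Bool
  deriving DecidableEq, Fintype

instance dfD (P : D → Prop) [DecidablePred P] : Decidable (∀ m, P m) :=
  decidable_of_iff (∀ a b c : Bool, P ⟨a, b, c⟩) ⟨fun h ⟨a, b, c⟩ => h a b c, fun h _ _ _ => h _⟩

instance : Mul D := ⟨fun x y => ⟨xor x.p y.p, xor x.q y.q, xor (xor x.c y.c) (x.q && y.p)⟩⟩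
instance : One D := ⟨⟨false, false, false⟩⟩
instance : Inv D := ⟨fun x => ⟨x.p, x.q, xor x.c (x.p && x.q)⟩⟩
instance : Group D := Group.ofLeftAxioms (by decide +kernel) (by decide +kernel) (by decide +kernel)

/-- the wreath product -/
@[ext] structure M where
  x : D
  y : D
  e : Bool
  deriving DecidableEq, Fintype

instance dfM (P : M → Prop) [DecidablePred P] : Decidable (∀ m, P m) :=
  decidable_of_iff (∀ a b : D, ∀ c : Bool, P ⟨a, b, c⟩) ⟨fun h ⟨a, b, c⟩ => h a b c, fun h _ _ _ => h _⟩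

instance : Mul M := ⟨fun m n => bif m.e then ⟨m.x * n.y, m.y * n.x, !n.e⟩ else ⟨m.x * n.x, m.y * n.y, n.e⟩⟩
instance : One M := ⟨⟨1, 1, false⟩⟩
instance : Inv M := ⟨fun m => bif m.e then ⟨m.y⁻¹, m.x⁻¹, true⟩ else ⟨m.x⁻¹, m.y⁻¹, false⟩⟩

theorem mul_def (m n : M) :
    m * n = bif m.e then ⟨m.x * n.y, m.y * n.x, !n.e⟩ else ⟨m.x * n.x, m.y * n.y, n.e⟩ := rfl

instance : Group M := Group.ofLeftAxioms (by
  rintro ⟨a, b, _ | _⟩ ⟨c, d, _ | _⟩ ⟨e, f, g⟩ <;> simp [mul_def, mul_assoc])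
  (by decide +kernel) (by decide +kernel)

/-- generators -/
def a : M := ⟨⟨true, false, false⟩, 1, false⟩
/-- generators -/
def b : M := ⟨⟨false, true, false⟩, 1, false⟩
/-- generators -/
def t : M := ⟨1, 1, true⟩
/-- the central involution -/
def z : M := ⟨⟨false, false, true⟩, ⟨false, false, true⟩, false⟩

/-- first central element of the base -/
def z1 : M := ⟨⟨false, false, true⟩, 1, false⟩
/-- second central element of the base -/
def z2 : M := ⟨1, ⟨false, false, true⟩, false⟩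
/-- generators -/
def a2 : M := ⟨1, ⟨true, false, false⟩, false⟩
/-- generators -/
def b2 : M := ⟨1, ⟨false, true, false⟩, false⟩

/-- first normal `E₁₆` -/
def iV (m : M) : Bool := !m.e && !m.x.q && !m.y.q
/-- second normal `E₁₆` -/
def iW (m : M) : Bool := !m.e && !m.x.p && !m.y.p
/-- centre of the base group -/
def iZ (m : M) : Bool := iV m && iW m

theorem cen : ∀ m : M, m * a = a * m → m * b = b * m → m * t = t * m → m = 1 ∨ m = z := by decide +kernel

theorem z_cen : ∀ m : M, m * z = z * m := by decide +kernel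

theorem cen2 : ∀ m : M, (∀ k : M, k * m * k⁻¹ = m ∨ k * m * k⁻¹ = m * z) → iZ m := by decide +kernel

theorem z1_cen : ∀ k : M, k * z1 * k⁻¹ = z1 ∨ k * z1 * k⁻¹ = z1 * z := by decide +kernel

theorem iZ_cases : ∀ m : M, iZ m → m = 1 ∨ m = z ∨ m = z1 ∨ m = z2 := by decide +kernel

theorem e_iff : ∀ m : M, (m * z1 = z1 * m ↔ m.e = false) ∧ (m * z2 = z2 * m ↔ m.e = false) := by
  decide +kernel

theorem good1 : ∀ m : M, m * m = 1 → (∀ k : M, m * (k * m * k⁻¹) = k * m * k⁻¹ * m) → iV m ∨ iW m := by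
  decide +kernel

theorem good2 : ∀ m : M, iV m ∨ iW m → m * m = 1 ∧ ∀ k : M, m * (k * m * k⁻¹) = k * m * k⁻¹ * m := by
  decide +kernel

set_option synthInstance.maxSize 4000 in
theorem lin : ∀ x : M, iV x → ∀ y : M, iW y → x * y = z1 * (y * x) → ∀ x' : M, iV x' → x' * y = y * x' →
    ∀ y' : M, iW y' → x * y' = y' * x → x' * y' = z2 * (y' * x') →
      iZ (x * a⁻¹) ∧ iZ (y * b⁻¹) ∧ iZ (x' * a2⁻¹) ∧ iZ (y' * b2⁻¹) := by
  decide +kernel

theorem comV : ∀ m : M, iV m → ∀ n : M, iV n → m * n = n * m := by decide +kernel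

theorem comW : ∀ m : M, iW m → ∀ n : M, iW n → m * n = n * m := by decide +kernel

theorem mulV : ∀ m : M, iV m → ∀ n : M, iV n → iV (m * n) := by decide +kernel

theorem mulW : ∀ m : M, iW m → ∀ n : M, iW n → iW (m * n) := by decide +kernel

theorem notgood : ∀ m : M, iV m → ¬ iW m → ∀ n : M, iW n → ¬ iV n → ¬ (iV (m * n) ∨ iW (m * n)) := by
  decide +kernel

theorem cjZ : ∀ m : M, iZ m → ∀ k : M, iZ (k * m * k⁻¹) := by decide +kernel

theorem cjt : ∀ m : M, iV (t * m * t⁻¹) = iV m ∧ iW (t * m * t⁻¹) = iW m := by decide +kernel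

theorem shZ : ∀ m : M, iZ m → m * m = 1 ∧ ∀ n : M, iV (m * n) = iV n := by decide +kernel

theorem nf : ∀ m : M, m.e = false → iZ (m * m) ∧ iZ (m * ((if m.x.p then a else 1) * (if m.x.q then b else 1) *
    (if m.y.p then a2 else 1) * if m.y.q then b2 else 1)⁻¹) := by decide +kernel

theorem cB : ∀ w : M, w * a = a * w → w * b = b * w → w * a2 = a2 * w → w * b2 = b2 * w → iZ w := by
  decide +kernel

theorem cO : ∀ w : M, w * t = t * w → w * (a * a2 * t) = a * a2 * t * w → w * (b * b2 * t) = b * b2 * t * w →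
    w * (a * b * (b2 * a2) * t) = a * b * (b2 * a2) * t * w → w = 1 ∨ w = z := by decide +kernel

/-- subgroups -/
def V0 : Subgroup M := ⟨⟨⟨{m | iV m}, fun h k => mulV _ h _ k⟩, rfl⟩, (by decide +kernel : ∀ m : M, iV m → iV m⁻¹) _⟩
/-- subgroups -/
def W0 : Subgroup M := ⟨⟨⟨{m | iW m}, fun h k => mulW _ h _ k⟩, rfl⟩, (by decide +kernel : ∀ m : M, iW m → iW m⁻¹) _⟩
/-- subgroups -/
def Z0 : Subgroup M := ⟨⟨⟨{m | iZ m}, fun h k => (by decide +kernel : ∀ m : M, iZ m → ∀ n : M, iZ n → iZ (m * n))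
  _ h _ k⟩, rfl⟩, (by decide +kernel : ∀ m : M, iZ m → iZ m⁻¹) _⟩
/-- subgroups -/
def B0 : Subgroup M := ⟨⟨⟨{m | m.e = false}, fun {m n} h k => by
  have h : m.e = false := h
  simp only [Set.mem_ofPred_eq, mul_def, h]; exact k⟩, rfl⟩,
  (by decide +kernel : ∀ m : M, m.e = false → m⁻¹.e = false) _⟩
/-- point stabilizer -/
def iU (m : M) : Bool := !m.e && !m.x.q && !m.x.c
/-- subgroups -/
def U0 : Subgroup M := ⟨⟨⟨{m | iU m}, fun h k => (by decide +kernel : ∀ m : M, iU m → ∀ n : M, iU n → iU (m * n))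
  _ h _ k⟩, rfl⟩, (by decide +kernel : ∀ m : M, iU m → iU m⁻¹) _⟩

instance : Z0.Normal := ⟨cjZ⟩

theorem coreU : ∀ m : M, (∀ k : M, iU (k * m * k⁻¹)) → m = 1 := by decide +kernel

theorem card_M : Nat.card M = 128 := by rw [Nat.card_eq_fintype_card]; decide +kernel

theorem card_sub (f : M → Prop) [DecidablePred f] {n : ℕ} (h : (Finset.univ.filter f).card = n) :
    Nat.card {m // f m} = n := by rw [Nat.card_eq_fintype_card, Fintype.card_subtype, h]

theorem card_V : Nat.card V0 = 16 := card_sub (iV ·) (by decide +kernel)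
theorem card_W : Nat.card W0 = 16 := card_sub (iW ·) (by decide +kernel)
theorem card_Z : Nat.card Z0 = 4 := card_sub (iZ ·) (by decide +kernel)
theorem card_B : Nat.card B0 = 64 := card_sub (·.e = false) (by decide +kernel)
theorem card_U : Nat.card U0 = 16 := card_sub (iU ·) (by decide +kernel)
theorem card_O : Nat.card {m : M // m.e = true ∧ m * m = 1} = 8 := card_sub _ (by decide +kernel)

end Cfsg.Agent.H23W
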