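import Cfsg.Agent.H23.Wr1
import Cfsg.Agent.H26.SRank2
import Cfsg.Agent.H24.Base6

/-! Automorphisms of `D₈ ≀ C₂` and overgroups of sectional rank four. -/

set_option autoImplicit false
set_option linter.style.haveILetI false

namespace Cfsg.Agent.H23W

open Subgroup H24

variable (α : M ≃* M)

theorem aut_z : α z = z :=
  have h : ∀ m, α z * m = m * α z := fun m => by
    rw [← α.apply_symm_apply m, ← map_mul, ← map_mul, z_cen]
  (cen _ (h a) (h b) (h t)).resolve_left (α.map_ne_one_iff.2 (by decide))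

theorem aut_z1 : α z1 = z1 ∨ α z1 = z2 := by
  have h := cen2 (α z1) fun k => by
    have := (z1_cen (α.symm k)).imp (congrArg α) (congrArg α)
    simpa only [map_mul, map_inv, α.apply_symm_apply, aut_z] using this
  exact ((iZ_cases _ h).resolve_left (α.map_ne_one_iff.2 (by decide))).resolve_left fun e =>
    absurd (α.injective (e.trans (aut_z α).symm)) (by decide)

theorem aut_e (m : M) : (α m).e = m.e := by
  have h : α m * α z1 = α z1 * α m ↔ m.e = false := by
    rw [← map_mul, ← map_mul, α.injective.eq_iff, (e_iff m).1]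
  rw [← Bool.not_inj_iff, Bool.eq_iff_iff, Bool.not_eq_true', Bool.not_eq_true', ← h]
  rcases aut_z1 α with e | e <;> rw [e]
  exacts [(e_iff _).1.symm, (e_iff _).2.symm]

theorem aut_good {m : M} (h : iV m ∨ iW m) : iV (α m) ∨ iW (α m) :=
  good1 _ (by rw [← map_mul, (good2 m h).1, map_one]) fun k => by
    simpa only [map_mul, map_inv, α.apply_symm_apply] using congrArg α ((good2 m h).2 (α.symm k))

theorem ncV {m n : M} (h : m * n ≠ n * m) (h1 : iV (α m)) : ¬ iV (α n) := fun k =>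
  h (α.injective (by rw [map_mul, map_mul, comV _ h1 _ k]))

theorem ncW {m n : M} (h : m * n ≠ n * m) (h1 : iW (α m)) : ¬ iW (α n) := fun k =>
  h (α.injective (by rw [map_mul, map_mul, comW _ h1 _ k]))

theorem toV {m n : M} (h1 : iV (α m)) (h2 : ¬ iW (α m)) (h3 : iV n ∨ iW n) (h4 : iV (m * n) ∨ iW (m * n)) :
    iV (α n) := by_contra fun k =>
  notgood _ h1 h2 _ ((aut_good α h3).resolve_left k) k (map_mul α m n ▸ aut_good α h4)

theorem notW (h : iV (α a)) : iW (α b) ∧ ¬ iW (α a) :=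
  have k := (aut_good α (m := b) (.inr rfl)).resolve_left (ncV α (by decide) h)
  ⟨k, ncW α (by decide) k⟩

theorem swapV (h : ¬ iV (α a)) : iV (α b) ∧ ¬ iW (α b) ∧ ∀ w, iW w → iV (α w) :=
  have k := ncW α (n := b) (by decide) ((aut_good α (.inl rfl)).resolve_left h)
  have k' := (aut_good α (m := b) (.inr rfl)).resolve_right k
  ⟨k', k, fun w hw => toV α k' k (.inr hw) (.inr (mulW _ rfl _ hw))⟩

theorem triv0 (h : iV (α a)) (h1 : α z1 = z1) : (∀ m ∈ B0, α m * m⁻¹ ∈ Z0) ∧ ∀ m ∈ Z0, α m = m := by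
  have h2 : α z2 = z2 := by rw [show z2 = z1 * z by decide, map_mul, h1, aut_z]
  have k1 := toV α (n := a2) h (notW α h).2 (.inl rfl) (.inl rfl)
  have c : ∀ {m n k}, m * n = k * (n * m) → α m * α n = α k * (α n * α m) := fun e => by
    simpa only [map_mul] using congrArg α e
  have c' : ∀ {m n}, m * n = n * m → α m * α n = α n * α m := fun e => by
    simpa only [map_mul] using congrArg α e
  obtain ⟨l1, l2, l3, l4⟩ := lin _ h _ (notW α h).1 (h1 ▸ c (by decide)) _ k1 (c' (by decide)) (α b2)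
    ((aut_good α (.inr rfl)).resolve_left (ncV α (by decide) k1)) (c' (by decide)) (h2 ▸ c (by decide))
  have hz : ∀ m ∈ Z0, α m = m := fun m hm => by
    rcases iZ_cases m hm with rfl | rfl | rfl | rfl
    exacts [map_one α, aut_z α, h1, h2]
  refine ⟨fun m hm => ?_, hz⟩
  let K := ((QuotientGroup.mk' Z0).comp α.toMonoidHom).eqLocus (QuotientGroup.mk' Z0)
  have e : ∀ m, m ∈ K ↔ α m * m⁻¹ ∈ Z0 := fun m => by
    rw [← div_eq_mul_inv, ← QuotientGroup.eq_iff_div_mem]; rfl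
  have i : ∀ {m} (p : Bool), α m * m⁻¹ ∈ Z0 → (if p then m else 1) ∈ K := fun p k => by
    cases p
    exacts [one_mem _, (e _).2 k]
  refine (e m).1 ((K.mul_mem_cancel_right (inv_mem (mul_mem (mul_mem (mul_mem (i m.x.p l1) (i m.x.q l2))
    (i m.y.p l3)) (i m.y.q l4)))).1 ((e _).2 ?_))
  rw [hz _ (nf m hm).2, mul_inv_cancel]; exact one_mem _

theorem triv (h : iV (α a)) : ∃ u : M, (∀ m ∈ B0, u * α m * u⁻¹ * m⁻¹ ∈ Z0) ∧ (∀ m ∈ Z0, u * α m * u⁻¹ = m) ∧
    ∀ m, iV (α m) = iV m := by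
  have f : ∀ β : M ≃* M, (∀ m ∈ B0, β m * m⁻¹ ∈ Z0) → ∀ m, iV (β m) = iV m := fun β k m => by
    cases e : m.e
    · rw [← (shZ _ (k m e)).2 m, inv_mul_cancel_right]
    · simp [iV, aut_e, e]
  rcases aut_z1 α with e | e
  · have := triv0 α h e
    exact ⟨1, by simpa using this.1, by simpa using this.2, f α this.1⟩
  · have := triv0 (α.trans (MulAut.conj t)) ((cjt _).1.trans h) (by
      show t * α z1 * t⁻¹ = z1
      rw [e]; decide)
    exact ⟨t, this.1, this.2, fun m => (cjt _).1.symm.trans (f _ this.1 m)⟩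

theorem syl8 {X β : Type*} [Group X] (φ : X →* Equiv.Perm β) (h1 : Nat.card β = 8) (h2 : Nat.card φ.range = 128) :
    ∃ T : Sylow 2 (Equiv.Perm (Fin 8)), Nonempty (φ.range ≃* (T : Subgroup (Equiv.Perm (Fin 8)))) := by
  haveI : Finite β := Nat.finite_of_card_ne_zero (by omega)
  let e := (Finite.equivFinOfCardEq h1).permCongrHom
  refine ⟨Sylow.ofCard (φ.range.map e.toMonoidHom) ?_, ⟨e.subgroupMap _⟩⟩
  rw [card_map_of_injective e.injective, h2, Nat.card_perm, Nat.card_fin,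
    show Nat.factorial 8 = 2 ^ 7 * 315 from rfl, Nat.factorization_mul (by norm_num) (by norm_num),
    Nat.prime_two.factorization_pow]
  simp [Nat.factorization_eq_zero_of_not_dvd]

theorem model : ∃ T : Sylow 2 (Equiv.Perm (Fin 8)), Nonempty (M ≃* (T : Subgroup (Equiv.Perm (Fin 8)))) := by
  have i : Function.Injective (MulAction.toPermHom M (M ⧸ U0)) := by
    rw [← MonoidHom.ker_eq_bot_iff, ← normalCore_eq_ker]
    exact (eq_bot_iff_forall _).2 fun m hm => coreU m hm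
  have := U0.index_mul_card
  rw [card_U, card_M] at this
  obtain ⟨T, ⟨e⟩⟩ := syl8 _ (show U0.index = 8 by omega)
    ((Nat.card_congr (MonoidHom.ofInjective i).toEquiv).symm.trans card_M)
  exact ⟨T, ⟨(MonoidHom.ofInjective i).trans e⟩⟩

theorem VW {V : Subgroup M} (h1 : ∀ g, ∀ v ∈ V, g * v * g⁻¹ ∈ V) (h2 : ∀ v ∈ V, ∀ w ∈ V, v * w = w * v)
    (h3 : ∀ v ∈ V, v * v = 1) (h4 : Nat.card V = 16) : V = V0 ∨ V = W0 := by
  have g : ∀ v ∈ V, iV v ∨ iW v := fun v hv => good1 v (h3 v hv) fun k => h2 _ hv _ (h1 k v hv)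
  by_cases e : V ≤ W0
  · exact .inr (eq_of_le_of_card_le e (card_W.trans h4.symm).le)
  obtain ⟨x, x1, x2⟩ := SetLike.not_le_iff_exists.1 e
  exact .inl (eq_of_le_of_card_le (fun y hy => by_contra fun k => notgood _ ((g x x1).resolve_right x2) x2 _
    ((g y hy).resolve_left k) k (g _ (mul_mem x1 hy))) (card_V.trans h4.symm).le)

variable {S : Type*} [Group S] [Finite S] {P : Subgroup S} (e : P ≃* M)

/-- the embedding -/
def io : M →* S := P.subtype.comp e.symm.toMonoidHom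

/-- the action of the normalizer -/
def cn : 𝐍[P] →* MulAut M := (MulAut.congr e).toMonoidHom.comp P.normalizerMonoidHom

omit [Finite S] in
theorem io_inj : Function.Injective (io e) := P.subtype_injective.comp e.symm.injective

omit [Finite S] in
theorem io_cn (g : 𝐍[P]) (m : M) : io e (cn e g m) = g * io e m * g.1⁻¹ := by
  simp [io, cn, MulAut.congr]

omit [Finite S] in
theorem io_mem (m : M) : io e m ∈ P := (e.symm m).2

omit [Finite S] in
theorem io_ex {x : S} (h : x ∈ P) : ∃ m, io e m = x := ⟨e ⟨x, h⟩, by simp [io]⟩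

omit [Finite S] in
theorem cn_io {g : 𝐍[P]} {u : M} (h : io e u = g) (m : M) : cn e g m = u * m * u⁻¹ :=
  io_inj e (by rw [io_cn, map_mul, map_mul, map_inv, h])

theorem big0 (hr : H11.SR 4 (⊤ : Subgroup S)) (h : 𝐍[P]) (h1 : h.1 * h.1 ∈ P)
    (h2 : ∀ m ∈ B0, cn e h m * m⁻¹ ∈ Z0) (h3 : ∀ m ∈ Z0, cn e h m = m) : h.1 ∈ P := by_contra fun h0 => by
  obtain ⟨w, hw⟩ := io_ex e h1
  have c : ∀ m ∈ B0, w * m = m * w := fun m hm => by
    rw [← mul_inv_eq_iff_eq_mul, ← cn_io e (g := h * h) hw, map_mul, MulAut.mul_apply,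
      ← inv_mul_cancel_right (cn e h m) m, map_mul, h3 _ (h2 m hm), ← inv_mul_cancel_right (cn e h m) m,
      inv_mul_cancel_right, ← mul_inv_eq_one]
    simpa only [mul_assoc] using (shZ _ (h2 m hm)).1
  have w1 : w ∈ Z0 := cB w (c a rfl) (c b rfl) (c a2 rfl) (c b2 rfl)
  have zb : Z0 ≤ B0 := fun m hm => by rcases iZ_cases m hm with rfl | rfl | rfl | rfl <;> rfl
  have n : zpowers h.1 ≤ 𝐍[B0.map (io e)] := zpowers_le.2 (mem_normalizer_of_conj_mem (by
    rintro _ ⟨m, hm, rfl⟩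
    exact ⟨_, (aut_e (cn e h) m).trans hm, io_cn e h m⟩))
  have k := hr (B0.map (io e) ⊔ zpowers h.1) le_top (Z0.map (io e)) ((map_mono zb).trans le_sup_left) fun x hx => by
    obtain ⟨_, ⟨m, hm, rfl⟩, _, ⟨j, rfl⟩, rfl⟩ := (mem_sup_of_le_normalizer_left n).1 hx
    obtain ⟨i, rfl | rfl⟩ := j.even_or_odd'
    · refine ⟨_, (nf (m * w ^ i) (B0.mul_mem hm (zpow_mem (zb w1) i))).1, ?_⟩
      simp only [map_mul, map_zpow, hw, zpow_mul, zpow_two]
    · have m1 := B0.mul_mem hm (zpow_mem (zb w1) i)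
      refine ⟨m * w ^ i * (cn e h (m * w ^ i) * (m * w ^ i)⁻¹) * (m * w ^ i)⁻¹ * (m * w ^ i * (m * w ^ i)) * w,
        Z0.mul_mem (Z0.mul_mem (cjZ _ (h2 _ m1) _) (nf _ m1).1) w1, ?_⟩
      simp only [map_mul (io e), map_inv, io_cn, map_zpow, hw, zpow_add_one, zpow_mul, zpow_two]
      group
  have k1 := H11.two_mul_card_le_of_lt (le_sup_left : B0.map (io e) ≤ _ ⊔ zpowers h.1)
    (mem_sup_right (mem_zpowers _)) fun ⟨m, _, q⟩ => h0 (q ▸ io_mem e m)
  have k2 := card_mul_relIndex ((map_mono (f := io e) zb).trans (le_sup_left (b := zpowers h.1)))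
  rw [card_map_of_injective (io_inj e), card_B] at k1
  rw [card_map_of_injective (io_inj e), card_Z] at k2
  omega

theorem big (h2 : IsPGroup 2 S) (hr : H11.SR 4 (⊤ : Subgroup S)) (g : 𝐍[P]) (h : iV (cn e g a)) : g.1 ∈ P := by
  let Y : Subgroup 𝐍[P] :=
    { carrier := {g | ∀ m, iV (cn e g m) = iV m}
      one_mem' := fun m => by rw [map_one]; rfl
      mul_mem' := fun {x y} hx hy m => by rw [map_mul, MulAut.mul_apply, hx, hy]
      inv_mem' := fun {x} hx m => by rw [← hx, map_inv, MulAut.apply_inv_self] }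
  by_contra k
  obtain ⟨r, r1, r2, r3⟩ := H11.exists_sq_mem_of_not_le (X := Y) (T := P.subgroupOf _)
    ((h2.to_subgroup _).to_subgroup _) fun q => k (q (triv _ h).choose_spec.2.2)
  obtain ⟨u, u1, u2, -⟩ := triv (cn e r) (r1 a)
  have hu := le_normalizer (io_mem e u)
  have c : ∀ m, cn e (⟨_, hu⟩ * r) m = u * cn e r m * u⁻¹ := fun m => by
    rw [map_mul, MulAut.mul_apply, cn_io e (u := u) rfl]
  refine r2 ((P.mul_mem_cancel_left (io_mem e u)).1 (big0 e hr (⟨_, hu⟩ * r) ?_ (fun m hm => c m ▸ u1 m hm)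
    fun m hm => c m ▸ u2 m hm))
  have := P.mul_mem (P.mul_mem (io_mem e u) (conj_mem_of_mem_normalizer r.2 (io_mem e u))) r3
  simpa [mul_assoc] using this

theorem nV (h2 : IsPGroup 2 S) (hr : H11.SR 4 (⊤ : Subgroup S)) {V : Subgroup M} [V.Normal]
    (h : V = V0 ∨ V = W0) : 𝐍[V.map (io e)] = P := by
  have l : P ≤ 𝐍[V.map (io e)] := fun x hx => mem_normalizer_of_conj_mem (by
    obtain ⟨u, rfl⟩ := io_ex e hx
    rintro _ ⟨m, hm, rfl⟩
    exact ⟨_, Normal.conj_mem ‹_› m hm u, by rw [map_mul, map_mul, map_inv]⟩)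
  refine (l.eq_or_lt.resolve_right fun k => ?_).symm
  haveI := (h2.to_subgroup 𝐍[V.map (io e)]).isNilpotent
  obtain ⟨g, ⟨g1, g2⟩, g3⟩ := SetLike.exists_of_lt (lt_inf_normalizer_of_isNilpotent k)
  have c : ∀ m ∈ V, cn e ⟨g, g2⟩ m ∈ V := fun m hm => by
    obtain ⟨n, hn, q⟩ := conj_mem_of_mem_normalizer g1 (mem_map_of_mem (io e) hm)
    rwa [← io_inj e (q.trans (io_cn e ⟨g, g2⟩ m).symm)]
  have k' := mt (big e h2 hr ⟨g, g2⟩) g3
  rcases h with rfl | rfl
  exacts [k' (c a rfl), (swapV _ k').2.1 (c b rfl)]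

theorem cz (h2 : IsPGroup 2 S) (hr : H11.SR 4 (⊤ : Subgroup S)) : center S = zpowers (io e z) := by
  haveI : V0.Normal := ⟨(by decide +kernel : ∀ m : M, iV m → ∀ k : M, iV (k * m * k⁻¹))⟩
  have c : ∀ x ∈ center S, x = 1 ∨ x = io e z := fun x hx => by
    obtain ⟨m, rfl⟩ := io_ex e ((nV e h2 hr (.inl rfl)).le (center_le_normalizer _ hx))
    have k : ∀ n, m * n = n * m := fun n => io_inj e (by rw [map_mul, map_mul, mem_center_iff.1 hx])
    exact (cen m (k _) (k _) (k _)).imp (fun q => by rw [q, map_one]) (congrArg _)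
  haveI : Nontrivial S := ⟨_, _, (io_inj e).ne (by decide : z ≠ 1)⟩
  obtain ⟨⟨x, hx⟩, x1⟩ := ne_bot_iff_exists_ne_one.1 ((nontrivial_iff_ne_bot _).1 h2.center_nontrivial)
  exact le_antisymm (fun y hy => (c y hy).elim (· ▸ one_mem _) (· ▸ mem_zpowers _))
    (zpowers_le.2 ((c x hx).resolve_left (fun q => x1 (Subtype.ext q)) ▸ hx))

omit [Finite S] in
theorem card_z : Nat.card (zpowers (io e z)) = 2 := by
  rw [Nat.card_zpowers, orderOf_injective _ (io_inj e), orderOf_eq_prime (p := 2) (by decide) (by decide)]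

include e in
theorem idx (h2 : IsPGroup 2 S) (hr : H11.SR 4 (⊤ : Subgroup S)) (h : P ≠ ⊤) : P.relIndex 𝐍[P] = 2 := by
  haveI := (h2.to_subgroup ⊤).isNilpotent
  obtain ⟨g, ⟨-, g2⟩, g3⟩ := SetLike.exists_of_lt (lt_inf_normalizer_of_isNilpotent h.lt_top)
  refine index_eq_two_iff.2 ⟨⟨g, g2⟩, fun x => (em (x.1 ∈ P)).elim
    (fun k => .inr ⟨k, fun q => g3 ((P.mul_mem_cancel_left k).1 q)⟩) fun k =>
      .inl ⟨mem_subgroupOf.2 (big e h2 hr _ ?_), k⟩⟩
  rw [map_mul, MulAut.mul_apply]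
  exact (swapV _ (mt (big e h2 hr x) k)).2.2 _
    ((aut_good _ (.inl rfl)).resolve_left (mt (big e h2 hr ⟨g, g2⟩) g3))

include e in
theorem quo (h2 : IsPGroup 2 S) (hr : H11.SR 4 (⊤ : Subgroup S)) (h : P ≠ ⊤) :
    ∃ T : Sylow 2 (Equiv.Perm (Fin 8)),
      Nonempty (𝐍[P] ⧸ (center S).subgroupOf 𝐍[P] ≃* (T : Subgroup (Equiv.Perm (Fin 8)))) := by
  let φ : 𝐍[P] →* Equiv.Perm {m : M // m.e = true ∧ m * m = 1} := MonoidHom.mk'
    (fun g => Equiv.Perm.subtypePerm (cn e g).toEquiv fun m => by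
      show (cn e g m).e = true ∧ cn e g m * cn e g m = 1 ↔ _
      rw [aut_e, ← map_mul, MulEquiv.map_eq_one_iff]) fun g k => Equiv.ext fun m => Subtype.ext (by
        show cn e (g * k) m = cn e g (cn e k m)
        rw [map_mul, MulAut.mul_apply])
  have k : φ.ker = (center S).subgroupOf 𝐍[P] := by
    refine Subgroup.ext fun g => ⟨fun q => ?_, fun q => Equiv.ext fun m => Subtype.ext (io_inj e ?_)⟩
    · have c : ∀ m : M, m.e = true ∧ m * m = 1 → cn e g m = m := fun m hm =>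
        congrArg Subtype.val (Equiv.ext_iff.1 q ⟨m, hm⟩)
      have g1 : g.1 ∈ P := by_contra fun w => by
        have := (swapV _ (mt (big e h2 hr g) w)).2.2 (b * b2 * t * t) rfl
        rw [map_mul, c _ (by decide), c _ (by decide)] at this
        exact absurd this (by decide)
      obtain ⟨u, hu⟩ := io_ex e g1
      have c' : ∀ m : M, m.e = true ∧ m * m = 1 → u * m = m * u := fun m hm => by
        rw [← mul_inv_eq_iff_eq_mul, ← cn_io e hu, c m hm]
      rw [mem_subgroupOf, ← hu, cz e h2 hr]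
      rcases cO u (c' _ (by decide)) (c' _ (by decide)) (c' _ (by decide)) (c' _ (by decide)) with rfl | rfl
      exacts [map_one (io e) ▸ one_mem _, mem_zpowers _]
    · exact (io_cn e g m).trans (by rw [← mem_center_iff.1 (show g.1 ∈ center S from q), mul_inv_cancel_right]; rfl)
  have c1 := φ.ker.index_mul_card
  have c2 := card_mul_relIndex (le_normalizer (H := P))
  rw [idx e h2 hr h, Nat.card_congr e.toEquiv, card_M] at c2
  rw [index_ker, ← c2, k, card_subgroupOf (center_le_normalizer _), cz e h2 hr, card_z] at c1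
  obtain ⟨T, ⟨f⟩⟩ := syl8 φ card_O (by omega)
  exact ⟨T, ⟨((QuotientGroup.quotientMulEquivOfEq k.symm).trans (QuotientGroup.quotientKerEquivRange φ)).trans f⟩⟩

end Cfsg.Agent.H23W
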