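import Cfsg.Agent.H15T.XS1
import Cfsg.Agent.H24.Base6

/-! Large extraspecial subgroups: commuting conjugates of the central involution. -/

set_option autoImplicit false
set_option linter.style.haveILetI false
set_option linter.unusedSectionVars false

namespace Cfsg.Agent.H23X

open Subgroup H24
open H10 (SymT XS LX LPr RR)
open scoped commutatorElement

variable {G : Type*} [Group G]

/-- the derived subgroup of `C(z)` -/
def Dr (z : G) : Subgroup G := ⁅centralizer {z}, centralizer {z}⁆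

theorem comm_mem_Dr {z a b : G} (ha : a * z = z * a) (hb : b * z = z * b) : ⁅a, b⁆ ∈ Dr z :=
  commutator_mem_commutator (mem_centralizer_singleton_iff.2 ha) (mem_centralizer_singleton_iff.2 hb)

/-- elements of `C(z)` whose square lies in the derived subgroup -/
def Nq (z : G) : Subgroup G where
  carrier := {x | x * z = z * x ∧ x * x ∈ Dr z}
  one_mem' := ⟨by simp, by simpa using one_mem _⟩
  mul_mem' := fun {x y} hx hy => ⟨by rw [mul_assoc, hy.1, ← mul_assoc, hx.1, mul_assoc], by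
    have : x * y * (x * y) = x * x * ⁅x⁻¹, y⁆ * (y * y) := by simp only [commutatorElement_def]; group
    rw [this]
    exact mul_mem (mul_mem hx.2 (comm_mem_Dr (Commute.inv_left hx.1) hy.1)) hy.2⟩
  inv_mem' := fun {x} hx => ⟨Commute.inv_left hx.1, by rw [← mul_inv_rev]; exact inv_mem hx.2⟩

theorem Dr_conj {z x : G} (h : x ∈ Dr z) (g : G) : g * x * g⁻¹ ∈ Dr (g * z * g⁻¹) := by
  have := conj_mem_cj h g
  rwa [Dr, cj_commutator, cj_centralizer_singleton] at this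

theorem Nq_conj {z x : G} (h : x ∈ Nq z) (g : G) : g * x * g⁻¹ ∈ Nq (g * z * g⁻¹) :=
  ⟨by rw [conj_mul, conj_mul, h.1], by rw [conj_mul]; exact Dr_conj h.2 g⟩

theorem Dr_le {z : G} : Dr z ≤ Nq z := fun _ hx =>
  ⟨mem_centralizer_singleton_iff.1 (commutator_le_of_le le_rfl le_rfl hx), mul_mem hx hx⟩

theorem z_mem_Dr {Q : Subgroup G} {z : G} (h : XS Q z) : z ∈ Dr z := by
  obtain ⟨a, ha, b, hb, e⟩ := h.exists_comm
  have := comm_mem_Dr (h.cent a ha) (h.cent b hb)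
  rwa [e] at this

theorem ab {P : Subgroup G} {t z a b : G} (h : SymT P t) (hn : t ∉ Dr z) (ha : a ∈ P) (hb : b ∈ P)
    (h1 : a * z = z * a) (h2 : b * z = z * b) : a * b = b * a := by
  by_contra h3
  refine hn ?_
  have := comm_mem_Dr h1 h2
  rwa [commutatorElement_def, h.mul_eq_of_ne ha hb h3, show t * (b * a) * a⁻¹ * b⁻¹ = t by group] at this

variable [Finite G]

theorem sqP {P : Subgroup G} {t z a : G} (h : XS P t) (hz : z ∈ P) (z2 : z * z = 1)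
    (h0 : z ∉ zpowers t) (hn : t ∉ Dr z) (ha : a ∈ P) (h1 : a * z = z * a) : a * a = 1 := by
  rcases h.mem_of_cent_cent' hz h0 ha fun r hr e => ab h.toSymT hn hr ha e h1 with e | e
  · exact h.sq_of_mem_z e
  · have := h.sq_of_mem_z e
    rwa [show a * z * (a * z) = a * (z * a) * z by group, ← h1, show a * (a * z) * z = a * a * (z * z) by group,
      z2, mul_one] at this

theorem f1 {Q P : Subgroup G} {z t x : G} (h : LPr Q P z t) (h1 : x * z = z * x) (h2 : x * t = t * x)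
    (hx : x ∈ Nq t) : x ∈ Nq z := by
  have hR : RR Q P z t ≤ Nq z := by
    refine sup_le (fun a ha => ⟨mem_centralizer_singleton_iff.1 ha.2, ?_⟩)
      fun a ha => ⟨h.hQ.cent a ha.1, zpowers_le.2 (z_mem_Dr h.hQ.toXS) (h.hQ.sq a ha.1)⟩
    by_cases e : t ∈ Dr z
    · exact zpowers_le.2 e (h.hP.sq a ha.1)
    · rw [sqP h.hP.toXS h.zP h.hQ.zz h.pr.symm.t_not e ha.1 (mem_centralizer_singleton_iff.1 ha.2)]
      exact one_mem _
  obtain ⟨q, hq, e⟩ := h.pr.exists_q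
  obtain ⟨a, ha, e'⟩ := h.pr.symm.exists_q
  have k := Nq_conj hx (q * a * q)
  rw [(h.pr.swap hq e ha e').2] at k
  have k' := hR (h.comm_X (commutator_mem_commutator (mul_mem (mul_mem (mem_sup_left hq)
    (mem_sup_right ha)) (mem_sup_left hq)) (H10.Pr.mem_cV.2 ⟨h1, h2⟩)))
  rw [commutatorElement_def] at k'
  exact inv_mem_iff.1 ((mul_mem_cancel_left k).1 k')

section
variable {Q : Subgroup G} {c s : G} (h : XS Q c) (s2 : s * s = 1) (hs : s ∈ 𝐍[Q])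
include h s2 hs

theorem cm {e : G} (he : e ∈ Q) : ⁅s, e⁆ ∈ Q := mul_mem (conj_mem_of_mem_normalizer hs he) (inv_mem he)

theorem bp {b e : G} (hb : b ∈ Q) (he : e ∈ Q) :
    b * ⁅s, e⁆ = ⁅s, e⁆ * b ↔ e * ⁅s, b⁆ = ⁅s, b⁆ * e := by
  rw [h.cent_comm_iff hs hb he, inv_eq_of_mul_eq_one_left s2]

theorem dcB {x : G} (hx : x ∈ Q) (h1 : ∀ b ∈ Q, ⁅s, b⁆ ∈ zpowers c → b * x = x * b) :
    ∃ e ∈ Q, ∃ w ∈ zpowers c, x = w * ⁅s, e⁆ := by
  have hn := h.le_normalizer_of_mem h.zpowers_le (mem_zpowers c)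
  let K : Subgroup G :=
    { carrier := {x | x ∈ Q ∧ ∃ e ∈ Q, x * ⁅s, e⁆⁻¹ ∈ zpowers c}
      one_mem' := ⟨one_mem _, 1, one_mem _, by simp⟩
      mul_mem' := by
        rintro x y ⟨hx, e, he, a⟩ ⟨hy, f, hf, b⟩
        refine ⟨mul_mem hx hy, e * f, mul_mem he hf, ?_⟩
        have : x * y * ⁅s, e * f⁆⁻¹ = x * ⁅s, e⁆⁻¹ *
            (⁅s, e⁆ * (y * ⁅s, f⁆⁻¹ * ⁅⁅s, f⁆, e⁆) * ⁅s, e⁆⁻¹) := by
          simp only [commutatorElement_def]; group
        rw [this]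
        exact mul_mem a (conj_mem_of_mem_normalizer (hn (cm h s2 hs he))
          (mul_mem b (h.comm_mem (cm h s2 hs hf) he)))
      inv_mem' := by
        rintro x ⟨hx, e, he, a⟩
        refine ⟨inv_mem hx, e, he, ?_⟩
        rw [show x⁻¹ * ⁅s, e⁆⁻¹ = (x * x)⁻¹ * (x * ⁅s, e⁆⁻¹) by group]
        exact mul_mem (inv_mem (h.sq x hx)) a }
  have k : K ⊔ zpowers c ≤ K := sup_le le_rfl fun w hw => ⟨h.zpowers_le hw, 1, one_mem _, by simpa using hw⟩
  obtain ⟨-, e, he, a⟩ := k (h.dc' (K := K) (fun _ a => a.1) ⟨hx, fun b hb => h1 b hb.1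
    (h.zc _ (cm h s2 hs hb.1) fun q hq => (bp h s2 hs hb.1 hq).1
      (hb.2 _ ⟨cm h s2 hs hq, q, hq, by rw [mul_inv_cancel]; exact one_mem _⟩).symm)⟩)
  exact ⟨e, he, _, a, by group⟩

theorem inv_cm (e : G) : s * ⁅s, e⁆ * s⁻¹ = ⁅s, e⁆⁻¹ := by
  have := inv_eq_of_mul_eq_one_left s2
  simp only [commutatorElement_def, mul_inv_rev, inv_inv, this]
  rw [← mul_assoc, ← mul_assoc, ← mul_assoc, s2]; group

theorem cmB {e : G} (he : e ∈ Q) : ⁅s, ⁅s, e⁆⁆ ∈ zpowers c := by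
  rw [commutatorElement_def s ⁅s, e⁆, inv_cm h s2 hs, ← mul_inv_rev]
  exact inv_mem (h.sq _ (cm h s2 hs he))

theorem sq_one {x e w : G} (he : e ∈ Q) (hw : w ∈ zpowers c) (e1 : x = w * ⁅s, e⁆)
    (h1 : x * s = s * x) : x * x = 1 := by
  have a := h.comm_of_mem_z hw (h.cent_of_normalizer hs).symm.symm
  have b := h.comm_of_mem_z hw (h.cent _ (cm h s2 hs he))
  have d : s * x * s⁻¹ = w * ⁅s, e⁆⁻¹ := by rw [e1, ← inv_cm h s2 hs, ← mul_assoc, a]; group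
  rw [← h1, mul_inv_cancel_right] at d
  calc x * x = w * ⁅s, e⁆ * (w * ⁅s, e⁆⁻¹) := by rw [← d, ← e1]
    _ = w * w := by rw [← mul_assoc, mul_assoc w, b]; group
    _ = 1 := h.sq_of_mem_z hw

theorem conj_of {b : G} (h1 : ⁅s, b⁆ ∈ zpowers c) (h2 : b * s ≠ s * b) : b * s * b⁻¹ = c * s := by
  have := (h.mem_z.1 h1).resolve_left fun e => h2 (commutatorElement_eq_one_iff_mul_comm.1 e).symm
  rw [← h.cent_of_normalizer hs, ← this, commutatorElement_def, inv_eq_of_mul_eq_one_left s2,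
    ← mul_assoc, ← mul_assoc, ← mul_assoc, s2, one_mul]

theorem two {b d : G} (hb : b ∈ Q) (h1 : b * s * b⁻¹ = c * s) (h2 : ⁅s, d⁆ ∈ zpowers c) :
    d * s = s * d ∨ b * d * s = s * (b * d) := by
  refine (em _).imp_right fun e => ?_
  have k := conj_of h s2 hs h2 e
  calc b * d * s = b * (d * s * d⁻¹) * b⁻¹ * (b * d) := by group
    _ = b * c * b⁻¹ * (b * s * b⁻¹) * (b * d) := by rw [k]; group
    _ = _ := by rw [h1, h.cent b hb, mul_inv_cancel_right, ← mul_assoc c c, h.zz, one_mul]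

variable (hA : ∀ a ∈ Q, ∀ b ∈ Q, a * s = s * a → b * s = s * b → a * b = b * a)
include hA

theorem cenB {b x : G} (hb : b ∈ Q) (h1 : b * s * b⁻¹ = c * s) (hx : x ∈ Q) (h2 : x * s = s * x)
    (h3 : b * x = x * b) : ∃ e ∈ Q, ∃ w ∈ zpowers c, x = w * ⁅s, e⁆ := by
  refine dcB h s2 hs hx fun d hd e => (two h s2 hs hb h1 e).elim (fun k => hA d hd x hx k h2) fun k => ?_
  have := hA _ (mul_mem hb hd) x hx k h2
  rwa [← mul_assoc, ← h3, mul_assoc, mul_assoc, mul_right_inj] at this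

theorem sideA {u : G} (hu : u ∈ Q) (u1 : u * s = s * u) (u2 : u * u ≠ 1) :
    (∃ b ∈ Q, b * s * b⁻¹ = c * s) ∧ (∀ e ∈ Q, ⁅s, e⁆ * s = s * ⁅s, e⁆) ∧
      ∀ i ∈ Q, i * s = s * i → i * i = 1 → ∃ e ∈ Q, e * s * e⁻¹ = i * s := by
  obtain ⟨b, hb, b1, b2⟩ : ∃ b ∈ Q, ⁅s, b⁆ ∈ zpowers c ∧ b * u ≠ u * b := by
    by_contra! k
    obtain ⟨e, he, w, hw, e1⟩ := dcB h s2 hs hu k
    exact u2 (sq_one h s2 hs he hw e1 u1)
  have b3 := conj_of h s2 hs b1 fun e => b2 (hA b hb u hu e u1)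
  have k : ∀ e ∈ Q, ⁅s, e⁆ * s = s * ⁅s, e⁆ := fun e he =>
    (two h s2 hs hb b3 (cmB h s2 hs he)).resolve_right fun k => b2 (by
      have a := hA _ (mul_mem hb (cm h s2 hs he)) u hu k u1
      have d := (bp h s2 hs hu he).2 (by
        rw [commutatorElement_eq_one_iff_mul_comm.2 u1.symm, mul_one, one_mul])
      rwa [mul_assoc, ← d, ← mul_assoc, ← mul_assoc, mul_left_inj] at a)
  refine ⟨⟨b, hb, b3⟩, k, fun i hi i1 i2 => ?_⟩
  have i3 : b * i = i * b := by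
    by_contra i3
    have i4 : i * u * s = s * (i * u) := by rw [mul_assoc, u1, ← mul_assoc, i1, mul_assoc]
    obtain ⟨e, he, w, hw, e1⟩ := cenB h s2 hs hA hb b3 (mul_mem hi hu) i4
      ((h.comm_mul_iff hb hi hu).2 ⟨fun a => absurd a i3, fun a => absurd a b2⟩)
    have := sq_one h s2 hs he hw e1 i4
    rw [mul_assoc, ← mul_assoc u, hA u hu i hi u1 i1, mul_assoc, ← mul_assoc i i, i2, one_mul] at this
    exact u2 this
  obtain ⟨e, he, w, hw, rfl⟩ := cenB h s2 hs hA hb b3 hi i1 i3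
  have e1 : e * s * e⁻¹ = ⁅s, e⁆ * s := by
    rw [k e he, commutatorElement_def, inv_eq_of_mul_eq_one_left s2, ← mul_assoc, ← mul_assoc,
      ← mul_assoc, s2, one_mul]
  rcases h.mem_z.1 hw with rfl | rfl
  · exact ⟨e, he, by rw [e1, one_mul]⟩
  · refine ⟨e * b, mul_mem he hb, ?_⟩
    calc _ = e * (b * s * b⁻¹) * e⁻¹ := by group
      _ = e * w * e⁻¹ * (e * s * e⁻¹) := by rw [b3]; group
      _ = _ := by rw [h.cent e he, e1]; group

theorem sideB {u : G} (hF : ¬ ∀ q ∈ Q, ⁅s, q⁆ ∈ zpowers c) (hu : u ∈ 𝐍[Q]) (u2 : u * u = s)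
    (u1 : ∀ a ∈ Q, a * s = s * a → u * a = a * u) :
    (∃ b ∈ Q, b * s * b⁻¹ = c * s) ∧ ¬ ∀ e ∈ Q, ⁅s, e⁆ * s = s * ⁅s, e⁆ := by
  obtain ⟨f, hf, f1, f2⟩ : ∃ f ∈ Q, (∀ a ∈ Q, a * s = s * a → a * f = f * a) ∧ f * s ≠ s * f := by
    by_contra! k
    refine hF fun e he => ?_
    have v : ⁅u, e⁆ ∈ Q := mul_mem (conj_mem_of_mem_normalizer hu he) (inv_mem he)
    have := u1 _ v (k _ v fun a ha a1 => (h.cent_comm_iff hu ha he).2 (by
      rw [commutatorElement_eq_one_iff_mul_comm.2 (Commute.inv_left (u1 a ha a1)), mul_one, one_mul]))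
    rw [← u2, show ⁅u * u, e⁆ = u * ⁅u, e⁆ * u⁻¹ * ⁅u, e⁆ by simp only [commutatorElement_def]; group,
      this, mul_inv_cancel_right]
    exact h.sq _ v
  have k : ∀ e ∈ Q, ∀ w ∈ zpowers c, f = w * ⁅s, e⁆ → ⁅s, e⁆ * s ≠ s * ⁅s, e⁆ := fun e _ w hw a b =>
    f2 (by rw [a, mul_assoc, b, ← mul_assoc, ← h.comm_of_mem_z hw (h.cent_of_normalizer hs), mul_assoc])
  constructor
  · by_contra! b
    have b' : ∀ d ∈ Q, ⁅s, d⁆ ∈ zpowers c → d * s = s * d := fun d hd e =>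
      by_contra fun a => b d hd (conj_of h s2 hs e a)
    obtain ⟨e, he, w, hw, e1⟩ := dcB h s2 hs hf fun d hd e => f1 d hd (b' d hd e)
    exact k e he w hw e1 (b' _ (cm h s2 hs he) (cmB h s2 hs he))
  · intro b
    have f3 := conj_of h s2 hs (h.zc _ (cm h s2 hs hf) fun q hq =>
      (bp h s2 hs hf hq).1 (f1 _ (cm h s2 hs hq) (b q hq)).symm) f2
    obtain ⟨e, he, w, hw, e1⟩ := dcB h s2 hs hf fun d hd e =>
      (two h s2 hs hf f3 e).elim (f1 d hd) fun a => by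
        have := f1 _ (mul_mem hf hd) a
        rwa [mul_assoc, mul_right_inj] at this
    exact k e he w hw e1 (b e he)

end

theorem loc {E : Subgroup G} {z g u : G} (h : LX E z) (hz : g * z * g⁻¹ * z = z * (g * z * g⁻¹))
    (hu : u ∈ cj E g) (u1 : u * z = z * u) : u ∈ Nq z := by
  have h' : LX (cj E g) _ := h.conj g
  by_contra h0
  have u2 : u * u = g * z * g⁻¹ :=
    (h'.mem_z.1 (h'.sq u hu)).resolve_left fun e => h0 ⟨u1, e ▸ one_mem _⟩
  have n1 : g * z * g⁻¹ ∉ Dr z := fun e => h0 ⟨u1, u2 ▸ e⟩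
  have zD := z_mem_Dr h.toXS
  have n2 : g * z * g⁻¹ ≠ z := fun e => n1 (e.symm ▸ zD)
  have n3 : g * z * g⁻¹ ∉ E := fun e => h0 (f1 (h.lpr e n2) u1 (h'.cent u hu)
    ⟨h'.cent u hu, by rw [u2]; exact z_mem_Dr h'.toXS⟩)
  have ce : ∀ k, k * z * k⁻¹ = g * z * g⁻¹ → cj E k = cj E g := fun k e => h.conj_eq e
  have n4 : z ∉ cj E g := fun e => n3 (by
    have := h'.mem_conj' (g := g⁻¹) (by simpa [mul_assoc] using e) (by simpa [mul_assoc] using n2.symm)
    rwa [map_conj_eq_cj, cj_cj_inv] at this)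
  generalize g * z * g⁻¹ = t at *
  generalize cj E g = P at *
  have hA' : ∀ a ∈ P, ∀ b ∈ P, a * z = z * a → b * z = z * b → a * b = b * a :=
    fun a ha b hb => ab h'.toSymT n1 ha hb
  have u3 : u * u ≠ 1 := u2 ▸ h'.ne_one
  obtain ⟨⟨b', hb', e1⟩, e2, e3⟩ := sideA h'.toXS h.zz (h'.mem_normalizer hz.symm) hA' hu u1 u3
  have hA : ∀ a ∈ E, ∀ b ∈ E, a * t = t * a → b * t = t * b → a * b = b * a := fun a ha b hb a1 b1 => by
    have k : ∀ x ∈ E, x * t = t * x → b' * x * b'⁻¹ * z = z * (b' * x * b'⁻¹) := fun x hx x1 => by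
      have i : z = b' * (t * z) * b'⁻¹ := by
        rw [← conj_mul, h'.cent b' hb', mul_inv_cancel_right, e1, ← mul_assoc, h'.zz, one_mul]
      rw [i, conj_mul, conj_mul, ← mul_assoc x, x1, mul_assoc t, h.cent x hx, mul_assoc t]
    have := ab (h.conj b').toSymT (z := z) (fun e => n1 ((mul_mem_cancel_right zD).1 (e1 ▸ e)))
      (conj_mem_cj ha b') (conj_mem_cj hb b') (k a ha a1) (k b hb b1)
    rwa [conj_mul, conj_mul, mul_left_inj, mul_right_inj] at this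
  by_cases hI : ∃ i ∈ E, i ∈ P ∧ i ≠ 1
  · obtain ⟨i, i1, i2, i3⟩ := hI
    have i4 : i * i = 1 := (h.mem_z.1 (h.sq i i1)).resolve_right fun e => n4 (e ▸ mul_mem i2 i2)
    have i5 : i ≠ z := fun e => n4 (e ▸ i2)
    obtain ⟨e, -, e4⟩ := e3 i i2 (h.cent i i1) i4
    obtain ⟨q, hq, e5⟩ := h.exists_ne_comm i1 fun a => (h.mem_z.1 a).elim i3 i5
    have e6 : q⁻¹ * e * z * (q⁻¹ * e)⁻¹ = i := by
      calc _ = q⁻¹ * (e * z * e⁻¹) * q := by group
        _ = _ := by rw [e4, h.cent i i1, ← h.conj_eq_of_ne hq i1 e5]; group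
    have ui := hA' u hu i i2 u1 (h.cent i i1)
    have l := h.lpr (g := q⁻¹ * e) (e6.symm ▸ i1) (e6.symm ▸ i5)
    rw [e6] at l
    exact u3 (sqP h'.toXS i2 i4 (fun a => (h'.mem_z.1 a).elim i3 fun e => n3 (e ▸ i1))
      (fun a => h0 (f1 l u1 ui ⟨ui, u2 ▸ a⟩)) hu ui)
  push Not at hI
  obtain ⟨⟨b, hb, e4⟩, e5⟩ := sideB h.toXS h'.zz (h.mem_normalizer hz) hA
    (fun k => n3 (h.hF t hz k)) (h.mem_normalizer u1) u2 fun a ha a1 =>
      commutatorElement_eq_one_iff_mul_comm.1 (hI _ (h.comm_mem' u1 ha) (by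
        rw [← commutatorElement_inv]; exact inv_mem (h'.comm_mem' a1 hu)))
  have c1 : b * z * b⁻¹ = z := by rw [h.cent b hb, mul_inv_cancel_right]
  have c2 : b' * t * b'⁻¹ = t := by rw [h'.cent b' hb', mul_inv_cancel_right]
  have c3 : b' * b * b' * z * (b' * b * b')⁻¹ = t := by
    calc _ = b' * (b * (b' * z * b'⁻¹) * b⁻¹) * b'⁻¹ := by group
      _ = _ := by rw [e1, ← conj_mul (a := t) (c := z), e4, c1, mul_assoc z, hz, ← mul_assoc z, h.zz, one_mul, c2]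
  have c4 : b' * b * b' * t * (b' * b * b')⁻¹ = z := by
    calc _ = b' * (b * (b' * t * b'⁻¹) * b⁻¹) * b'⁻¹ := by group
      _ = _ := by rw [c2, e4, ← conj_mul (a := z) (c := t), e1, c2, mul_assoc, ← hz, ← mul_assoc, h'.zz, one_mul]
  refine e5 fun e he => ?_
  have := e2 _ (ce _ c3 ▸ conj_mem_cj he (b' * b * b'))
  generalize b' * b * b' = k at *
  rw [← c4, ← conjugate_commutatorElement, conj_mul, conj_mul] at this
  simpa using this

end Cfsg.Agent.H23X
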