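import Cfsg.Agent.H23.Xs1

/-! An Alperin type induction, and the Sylow subgroup of `C(z)/C(z)'`. -/

set_option autoImplicit false
set_option linter.style.haveILetI false
set_option linter.unusedSectionVars false

namespace Cfsg.Agent.H23X

open Subgroup H24
open H10 (SymT XS LX LPr RR)
open scoped commutatorElement

variable {G : Type*} [Group G]

/-- normalizing elements acting trivially on the left cosets of `N` -/
def Stb (D N : Subgroup G) : Subgroup G where
  carrier := {g | g ∈ 𝐍[D] ∧ ∀ x ∈ D, x⁻¹ * (g * x * g⁻¹) ∈ N}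
  one_mem' := ⟨one_mem _, fun x _ => by simpa using one_mem N⟩
  mul_mem' := fun {g k} hg hk => ⟨mul_mem hg.1 hk.1, fun x hx => by
    have := mul_mem (hk.2 x hx) (hg.2 _ (conj_mem_of_mem_normalizer hk.1 hx))
    convert this using 1; group⟩
  inv_mem' := fun {g} hg => ⟨inv_mem hg.1, fun x hx => by
    have := inv_mem (hg.2 _ (conj_mem_of_mem_normalizer' hg.1 hx))
    convert this using 1; group⟩

theorem fus [Finite G] {p : ℕ} [Fact p.Prime] {T N : Subgroup G} (hT : SylIn p T ⊤) (hN : 𝐍[T] ≤ Stb T N)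
    (hl : ∀ D < T, 𝐍[D] ≤ Stb D N ∨
      ∃ A ≤ T ⊓ 𝐍[D], ¬ A ≤ D ∧ ∀ n ∈ 𝐍[D], cj A n ≤ Stb D N)
    (P : Subgroup G) (hP : P ≤ T) (g : G) (hg : cj P g ≤ T) : ∀ x ∈ P, x⁻¹ * (g * x * g⁻¹) ∈ N := by
  induction hn : Nat.card G - Nat.card P using Nat.strong_induction_on generalizing P g with | _ n ih => ?_
  have IH : ∀ Q : Subgroup G, Nat.card P < Nat.card Q → Q ≤ T → ∀ g, cj Q g ≤ T →
      ∀ x ∈ Q, x⁻¹ * (g * x * g⁻¹) ∈ N := fun Q h1 h2 g h3 =>
    ih _ (by have := card_le_card_group Q; omega) Q h2 g h3 rfl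
  rcases hP.eq_or_lt with rfl | hP'
  · exact (hN (mem_normalizer_of_cj_le hg)).2
  obtain ⟨S, hS⟩ := exists_sylIn p 𝐍[P]
  obtain ⟨k, -, hk⟩ := hT.exists_cj_le hS.pgrp le_top
  have hS' := hS.cj k
  have hPS : P ≤ S := hS.le_of_normalizes (hT.pgrp.to_le hP) le_normalizer hS.le
  rw [cj_normalizer] at hS'
  have hc := card_cj P k
  have hD : cj P k ≤ T := (cj_mono hPS k).trans hk
  have lt : ∀ Q ≤ T, Nat.card Q = Nat.card P → Q < T := fun Q h1 h2 =>
    h1.lt_of_ne fun e => (card_lt_of_lt hP').ne (by rw [← h2, e])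
  have e1 : P = cj (cj P k) k⁻¹ := (cj_cj_inv P k).symm
  have e2 : cj P g = cj (cj P k) (g * k⁻¹) := by rw [cj_cj, inv_mul_cancel_right]
  have e3 : ∀ x ∈ P, k * x * k⁻¹ ∈ cj P k := fun x hx => conj_mem_cj hx k
  generalize cj P k = D at *
  have hU : SylIn p (T ⊓ 𝐍[D]) 𝐍[D] := by
    rw [hS'.max _ (hT.pgrp.to_inf_left) (le_inf hk hS'.le) inf_le_right]; exact hS'
  have h1 : 𝐍[D] ≤ Stb D N := by
    refine (hl D (lt D hD hc)).elim id fun ⟨A, a1, a2, a3⟩ g hg => ?_
    have l1 : ncl A 𝐍[D] ≤ 𝐍[D] := ncl_le_self (a1.trans inf_le_right)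
    obtain ⟨l, hl, y, hy, rfl⟩ := (hU.inf_normal l1 (le_normalizer_ncl _ _)).frattini
      (le_normalizer_ncl _ _ hg)
    have hy' : y ∈ 𝐍[D] := (mul_mem_cancel_left (l1 hl)).1 hg
    refine mul_mem (ncl_le_iff.2 a3 hl) ⟨hy', fun x hx => ?_⟩
    have s1 : D ⊔ T ⊓ 𝐍[D] ⊓ ncl A 𝐍[D] ≤ T := sup_le hD (inf_le_left.trans inf_le_left)
    refine IH _ (hc ▸ card_lt_of_lt (le_sup_left.lt_of_ne fun e => a2 ?_)) s1 y
      (by rw [cj_sup, cj_eq_of_mem_normalizer hy', cj_eq_of_mem_normalizer hy]; exact s1) x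
      (mem_sup_left hx)
    rw [e]; exact le_sup_of_le_right (le_inf a1 (le_ncl _ _))
  have h2 : ∀ g, cj D g ≤ T → ∀ x ∈ D, x⁻¹ * (g * x * g⁻¹) ∈ N := fun g hg x hx => by
    have u1 := lt_inf_normalizer hT.pgrp (lt _ hg (by rw [card_cj, hc]))
    obtain ⟨n, hn, u2⟩ := hU.exists_cj_le (IsPGroup.cj (hT.pgrp.to_inf_left (K := 𝐍[cj D g])) g⁻¹)
      (by rw [cj_le_iff, inv_inv, cj_normalizer]; exact inf_le_right)
    rw [cj_cj] at u2
    have := IH _ (by rw [← hc, ← card_cj D g]; exact card_lt_of_lt u1) inf_le_left _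
      (u2.trans inf_le_left) _ (u1.le (conj_mem_cj hx g))
    have := mul_mem ((h1 hn).2 x hx) (inv_mem this)
    convert this using 1; group
  intro x hx
  have := mul_mem (inv_mem (h2 k⁻¹ (e1 ▸ hP) _ (e3 x hx))) (h2 _ (e2 ▸ hg) _ (e3 x hx))
  convert this using 1; group

theorem stb_of {z : G} {D : Subgroup G} (h1 : D ≤ centralizer {z}) (h2 : 𝐍[D] ≤ centralizer {z}) :
    𝐍[D] ≤ Stb D (Nq z) := fun g hg => ⟨hg, fun x hx => Dr_le (by
  have := commutator_mem_commutator (inv_mem (h1 hx)) (h2 hg)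
  rw [Dr]; convert this using 1; simp only [commutatorElement_def]; group)⟩

theorem syl_le [Finite G] (hres : pResidual 2 G = ⊤) {E T : Subgroup G} {z : G} (h : LX E z)
    (hT : SylIn 2 T (centralizer {z})) : T ≤ Nq z := by
  have hE : E ≤ T := hT.le_of_normalizes h.isPGroup h.le_centralizer (hT.le.trans h.nQ)
  have hn := h.normalizer_le_of_le hT.pgrp hE
  have hT' : SylIn 2 T ⊤ := sylIn_of_sylIn_inf_normalizer
    (hT.of_le (le_inf le_top le_normalizer) (inf_le_right.trans hn))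
  have key := fus hT' (stb_of hT.le hn) fun D hD => by
    have hDC := hD.le.trans hT.le
    by_cases hz : z ∈ D
    · by_cases hA : E ⊓ 𝐍[D] ≤ D
      · refine .inl (stb_of hDC (h.normalizer_le_of_le (hT.pgrp.to_le hD.le) (le_sup_right.trans
          (le_of_inf_normalizer_le (hT.pgrp.to_le (sup_le hD.le hE)) le_sup_left ?_))))
        rw [sup_inf_of_le_normalizer_right (hDC.trans h.nQ) le_normalizer]
        exact sup_le le_rfl hA
      · refine .inr ⟨_, inf_le_inf_right _ hE, hA, fun n hn y hy => ?_⟩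
        rw [cj_inf, cj_normalizer, cj_eq_of_mem_normalizer hn] at hy
        refine ⟨hy.2, fun x hx => loc h (g := n)
          (mem_centralizer_singleton_iff.1 (hDC (conj_mem_of_mem_normalizer hn hz))) ?_
          (mem_centralizer_singleton_iff.1 (hDC (mul_mem (inv_mem hx)
            (conj_mem_of_mem_normalizer hy.2 hx))))⟩
        have : x ∈ 𝐍[cj E n] := by
          rw [← cj_normalizer]
          exact cj_mono (hDC.trans h.nQ) n (by rwa [cj_eq_of_mem_normalizer hn])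
        rw [show x⁻¹ * (y * x * y⁻¹) = x⁻¹ * y * x * y⁻¹ by group]
        exact mul_mem (conj_mem_of_mem_normalizer' this hy.1) (inv_mem hy.1)
    · have c : zpowers z ≤ 𝐂[D] := zpowers_le.2 (mem_centralizer_iff'.2 fun x hx =>
        mem_centralizer_singleton_iff.1 (hDC hx))
      refine .inr ⟨zpowers z, le_inf (h.zpowers_le.trans hE) (c.trans (centralizer_le_normalizer' D)),
        fun e => hz (e (mem_zpowers z)), fun n hn y hy => ?_⟩
      have := cj_mono c n hy
      rw [cj_centralizer, cj_eq_of_mem_normalizer hn] at this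
      exact ⟨centralizer_le_normalizer' D this, fun x hx => by
        rw [mem_centralizer_iff_conj.1 this x hx, inv_mul_cancel]; exact one_mem _⟩
  obtain ⟨K, -, k1, -, k2⟩ := H11.exists_normal_of_fusion hT'.toSylowTop (M := T ⊓ Nq z) inf_le_left
    fun s hs g hg => ⟨T.mul_mem (T.inv_mem hs) hg, key (zpowers s) (zpowers_le.2 hs) g
      (by rw [cj_zpowers]; exact zpowers_le.2 hg) s (mem_zpowers s)⟩
  rw [hres, top_le_iff] at k2
  rw [k2, top_inf_eq, hT'.coe_toSylowTop] at k1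
  rw [k1]; exact inf_le_right

theorem xs_ab [Finite G] (hres : pResidual 2 G = ⊤) {E : Subgroup G} {z : G} (h : LX E z)
    (q : Abelianization (centralizer ({z} : Set G))) {k : ℕ} (hq : orderOf q = 2 ^ k) : q ^ 2 = 1 := by
  obtain ⟨x, rfl⟩ : ∃ x, Abelianization.of x = q := QuotientGroup.mk_surjective q
  obtain ⟨u, -, v, -, rfl, ⟨j, hu⟩, hv⟩ := exists_p_part (p := 2) (isOfFinOrder_of_finite x)
  obtain ⟨T, hT⟩ := exists_sylIn 2 (centralizer ({z} : Set G))
  obtain ⟨g, hg, e⟩ := hT.exists_le_cj (isPGroup_zpowers (x := (u : G)) (k := j) (by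
    rw [← coe_pow, hu, coe_one])) (zpowers_le.2 u.2)
  obtain ⟨y, hy, e1⟩ := exists_of_mem_cj (e (mem_zpowers _))
  have e2 := Nq_conj (syl_le hres h hT hy) g
  rw [← e1, mem_centralizer_singleton_iff.1 hg, mul_inv_cancel_right] at e2
  have e3 : Abelianization.of u ^ 2 = 1 := by
    rw [← map_pow, sq]
    refine (QuotientGroup.eq_one_iff _).2 ?_
    have := e2.2
    rw [Dr, ← map_subtype_commutator, ← coe_mul] at this
    exact (mem_map_iff_mem (subtype_injective _)).1 this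
  refine orderOf_eq_one_iff.1 (Nat.eq_one_of_dvd_coprimes (hv.pow_right k) ?_
    (hq ▸ orderOf_pow_dvd 2))
  rw [map_mul, mul_pow, e3, one_mul]
  exact (orderOf_pow_dvd 2).trans (orderOf_map_dvd _ _)

end Cfsg.Agent.H23X
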